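import Cfsg.Agent.HK.Defs

/-!
A central element splits off an extension of `2³` by `L₃(2)`.
-/

set_option autoImplicit false

namespace Cfsg.Lib.HK

open Subgroup

namespace Split

variable {Γ : Type*} [Group Γ]

theorem comm_of_sq {K : Subgroup Γ} (h : ∀ x ∈ K, x * x = 1) {x y : Γ} (hx : x ∈ K) (hy : y ∈ K) :
    x * y = y * x := by
  have h1 := h _ (mul_mem hx hy)
  rw [← inv_eq_iff_mul_eq_one, mul_inv_rev, inv_eq_of_mul_eq_one_right (h _ hx),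
    inv_eq_of_mul_eq_one_right (h _ hy)] at h1
  exact h1.symm

theorem core {A : Type*} [CommGroup A] (ρ : Γ →* MulAut A) {Z : Subgroup A} {f g i : Γ} {b : A}
    (h2 : ∀ x : A, x * x = 1) (hZ : ∀ l ∈ closure {f, g, i}, ∀ x ∈ Z, ρ l x = x) (hf : f ^ 7 = 1)
    (hgf : g * f * g⁻¹ = f ^ 2) (hig : i * g * i⁻¹ = g⁻¹)
    (hB : ∀ x, x ∈ Z ∨ ∃ j < 7, x * (ρ (f ^ j) b)⁻¹ ∈ Z) (hgb : ρ g b * b⁻¹ ∈ Z)
    (hrel : b * ρ f b * ρ (f ^ 3) b ∈ Z) :
    ∃ (ν : A →* A) (ζ : A), (∀ x, ν x ∈ Z) ∧ (∀ x ∈ Z, ν x = x) ∧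
      ∀ l ∈ closure {f, g, i}, ∀ x, ν (ρ l x) * ν x ∈ zpowers ζ := by
  have mf : f ∈ closure {f, g, i} := subset_closure (by simp)
  have mg : g ∈ closure {f, g, i} := subset_closure (by simp)
  have mi : i ∈ closure {f, g, i} := subset_closure (by simp)
  have ρm : ∀ l m x, ρ l (ρ m x) = ρ (l * m) x := fun l m x => by rw [map_mul]; rfl
  let T : ℕ → A →* A := fun j => (ρ (f ^ j)).toMonoidHom
  have T0 : ∀ x, T 0 x = x := fun x => by simp [T]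
  have TT : ∀ j l x, T j (T l x) = T (j + l) x := fun j l x => by simp [T, pow_add]
  have T7 : ∀ j x, T (j + 7) x = T j x := fun j x => by simp only [T, pow_add, hf, mul_one]
  have TZ : ∀ j, ∀ x ∈ Z, T j x = x := fun j x hx => hZ _ (pow_mem mf j) x hx
  have Tf : ∀ x, ρ f x = T 1 x := fun x => by simp [T]
  have Tg : ∀ j x, ρ g (T j x) = T (2 * j) (ρ g x) := fun j x => by
    change ρ g (ρ (f ^ j) x) = ρ (f ^ (2 * j)) (ρ g x)
    rw [ρm, ρm, pow_mul, ← hgf, conj_pow, inv_mul_cancel_right]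
  let ν : A →* A := T 0 * T 1 * T 2 * T 3 * T 4 * T 5 * T 6
  have hν : ∀ x, ν x = T 0 x * T 1 x * T 2 x * T 3 x * T 4 x * T 5 x * T 6 x := fun _ => rfl
  have νZ : ∀ x ∈ Z, ν x = x := fun x hx => by
    simp only [hν, TZ _ x hx, h2, one_mul]
  have ν1 : ∀ x, ν (T 1 x) = ν x := fun x => by
    simp only [hν, TT]
    rw [T7 0]
    ac_rfl
  have νT : ∀ j x, ν (T j x) = ν x := fun j x => by
    induction j with
    | zero => rw [T0]
    | succ j ih => rw [add_comm, ← TT, ν1, ih]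
  have r : ∀ j, T j b * T (j + 1) b * T (j + 3) b ∈ Z := fun j => by
    rw [← TT, ← TT, ← map_mul, ← map_mul, ← Tf]
    exact (TZ j _ hrel).symm ▸ hrel
  have dec : ∀ x, x ∈ Z ∨ ∃ j < 7, ∃ z ∈ Z, x = z * T j b := fun x =>
    (hB x).imp_right fun ⟨j, hj, h⟩ => ⟨j, hj, _, h, (inv_mul_cancel_right _ _).symm⟩
  have νb : ν b ∈ Z := by
    have := mul_mem (mul_mem (r 0) (r 1)) (r 5)
    rw [T7 1] at this
    simp only [Nat.reduceAdd] at this
    convert this using 1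
    rw [hν, ← mul_one (_ * T 6 b), ← h2 (T 1 b)]
    ac_rfl
  have νm : ∀ x, ν x ∈ Z := fun x => by
    rcases dec x with h | ⟨j, -, z, hz, rfl⟩
    · rwa [νZ x h]
    · rw [map_mul, νZ z hz, νT]
      exact mul_mem hz νb
  have νg : ∀ x, ν (ρ g x) = ν x := fun x => by
    rw [← hZ g mg _ (νm x), hν x]
    simp only [map_mul, Tg, hν]
    rw [T7 1, T7 3, T7 5]
    simp only [Nat.reduceMul]
    ac_rfl
  let cc : A →* A := ν.comp (ρ i).toMonoidHom * ν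
  have hc : ∀ x, cc x = ν (ρ i x) * ν x := fun _ => rfl
  have cZ : ∀ x ∈ Z, cc x = 1 := fun x hx => by rw [hc, hZ i mi x hx, h2]
  have cg : ∀ x, cc (ρ g x) = cc x := fun x => by
    rw [hc, hc, νg, ← νg (ρ i (ρ g x)), ρm, ρm, mul_assoc, mul_inv_eq_iff_eq_mul.1 hig, mul_inv_cancel_left]
  have c2 : ∀ j, cc (T (2 * j) b) = cc (T j b) := fun j => by
    rw [← cg (T j b), Tg, ← inv_mul_cancel_right (ρ g b) b, map_mul, TZ _ _ hgb, map_mul, cZ _ hgb, one_mul]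
  have c1 : cc (T 1 b) = 1 := by
    have := cZ _ (r 1)
    rwa [map_mul, map_mul, c2 2, c2 1, h2, one_mul] at this
  have c3 : cc (T 3 b) = cc (T 0 b) := by
    have := cZ _ (r 0)
    rw [map_mul, map_mul, c1, mul_one, ← h2 (cc (T 0 b))] at this
    exact mul_left_cancel this
  have cm : ∀ x, cc x ∈ zpowers (cc (T 0 b)) := fun x => by
    rcases dec x with h | ⟨j, hj, z, hz, rfl⟩
    · rw [cZ x h]; exact one_mem _
    rw [map_mul, cZ z hz, one_mul]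
    have c6 := (c2 3).trans c3
    interval_cases j
    · exact mem_zpowers _
    · rw [c1]; exact one_mem _
    · rw [c2 1, c1]; exact one_mem _
    · rw [c3]; exact mem_zpowers _
    · rw [c2 2, c2 1, c1]; exact one_mem _
    · rw [← T7 5, c2 6, c6]; exact mem_zpowers _
    · rw [c6]; exact mem_zpowers _
  refine ⟨ν, cc (T 0 b), νm, νZ, fun l hl => ?_⟩
  induction hl using closure_induction with
  | mem l hl =>
    rcases hl with rfl | rfl | rfl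
    · exact fun x => by rw [Tf, νT, h2]; exact one_mem _
    · exact fun x => by rw [νg, h2]; exact one_mem _
    · exact cm
  | one => exact fun x => by rw [map_one, MulAut.one_apply, h2]; exact one_mem _
  | mul l m _ _ hl hm =>
    intro x
    have := mul_mem (hl (ρ m x)) (hm x)
    rwa [mul_assoc, ← mul_assoc (ν (ρ m x)), h2, one_mul, ρm] at this
  | inv l _ hl =>
    intro x
    have := hl (ρ l⁻¹ x)
    rwa [ρm, mul_inv_cancel, map_one, MulAut.one_apply, mul_comm] at this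

theorem elem {Z B : Subgroup Γ} [hn : B.Normal] {f k b : Γ}
    (hZn : ∀ x ∈ B, ∀ y ∈ Z, x * y * x⁻¹ ∈ Z) (hZ2 : ∀ x ∈ Z, x * x = 1)
    (hfZ : ∀ x ∈ Z, Commute f x) (hk : k ∈ Z) (hkB : ∀ x ∈ B, Commute x k)
    (hidx : ∀ x ∈ Z, ∀ y ∈ Z, x ≠ 1 → x ≠ k → y ≠ 1 → y ≠ k → x * y = 1 ∨ x * y = k)
    (hf : f ^ 7 = 1) (hb : b ∈ B)
    (hB : ∀ x ∈ B, x ∈ Z ∨ ∃ j < 7, x * (f ^ j * b * (f ^ j)⁻¹)⁻¹ ∈ Z) (hsq : b * b ∈ Z)
    (hrel : b * (f * b * f⁻¹) * (f ^ 3 * b * (f ^ 3)⁻¹) ∈ Z) : ∀ x ∈ B, x * x = 1 := by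
  let β : ℕ → Γ := fun j => f ^ j * b * (f ^ j)⁻¹
  have mβ : ∀ j, β j ∈ B := fun j => hn.conj_mem b hb _
  have dec : ∀ x ∈ B, x ∈ Z ∨ ∃ j, ∃ z ∈ Z, x = z * β j := fun x hx =>
    (hB x hx).imp_right fun ⟨j, _, h⟩ => ⟨j, _, h, (inv_mul_cancel_right _ _).symm⟩
  have fz : ∀ (j : ℕ), ∀ x ∈ Z, f ^ j * x * (f ^ j)⁻¹ = x := fun j x hx =>
    mul_inv_eq_of_eq_mul ((hfZ x hx).pow_left j).eq
  have r : ∀ j, β j * β (j + 1) * β (j + 3) ∈ Z := fun j => by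
    rw [← fz j _ hrel] at hrel
    convert hrel using 1
    simp only [β, pow_add]
    group
  have β7 : ∀ j, β (j + 7) = β j := fun j => by simp only [β, pow_add, hf, mul_one]
  have hc : ∀ y ∈ Z, ∀ x ∈ B, Commute x y := fun y hy => by
    by_cases y1 : y = 1
    · exact fun x _ => y1 ▸ Commute.one_right x
    by_cases yk : y = k
    · exact yk ▸ hkB
    have mv : ∀ x ∈ B, ¬ Commute x y → x * y * x⁻¹ = k * y := fun x hx h => by
      rcases hidx _ (hZn x hx y hy) y hy (fun e => y1 (conj_eq_one_iff.1 e)) (fun e => yk (by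
        rw [← mul_inv_cancel_right k x, ← (hkB x hx).eq] at e
        simpa using e)) y1 yk with e | e
      · exact absurd (mul_inv_eq_iff_eq_mul.1 (mul_right_cancel (e.trans (hZ2 y hy).symm))) h
      · rw [← e, mul_assoc _ y y, hZ2 y hy, mul_one]
    have cβ : ∀ j, Commute (β j) y ↔ Commute b y := fun j => by
      conv_lhs => rw [← fz j y hy]
      exact Commute.conj_iff _
    have cZ : ∀ x ∈ Z, Commute x y := fun x hx => comm_of_sq hZ2 hx hy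
    have cb : Commute b y := by
      by_contra h
      have e := (cZ _ (r 0)).eq
      rw [← mul_inv_eq_iff_eq_mul, show ∀ u v w : Γ, u * v * w * y * (u * v * w)⁻¹ =
        u * (v * (w * y * w⁻¹) * v⁻¹) * u⁻¹ from fun u v w => by group, mv _ (mβ _) (mt (cβ _).1 h),
        ← conj_mul (a := k), mv _ (mβ _) (mt (cβ _).1 h), (hkB _ (mβ _)).eq, mul_inv_cancel_right, ← mul_assoc k,
        hZ2 k hk, one_mul] at e
      exact mt (cβ 0).1 h (mul_inv_eq_iff_eq_mul.1 e)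
    intro x hx
    rcases dec x hx with h | ⟨j, z, hz, rfl⟩
    exacts [cZ x h, (cZ z hz).mul_left ((cβ j).2 cb)]
  have sq : ∀ j, β j * β j = b * b := fun j => conj_mul.trans (fz j _ hsq)
  have R : ∀ j l m, β j * β l * β m ∈ Z → β j * β l * (β j)⁻¹ = b * b * β l := fun j l m h => by
    have e := hZ2 _ h
    have e1 := (hc _ h _ (mβ m)).eq
    have e2 : β j * β l * (β j * β l) * (b * b) = 1 := by
      rw [← sq m, ← e]
      calc _ = β j * β l * (β j * β l * β m * β m) := by group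
        _ = _ := by rw [← e1]; group
    have e3 := (hc _ hsq _ (mβ j)).eq
    have e4 := (hc _ hsq _ (mβ l)).eq
    have e5 := hZ2 _ hsq
    generalize b * b = c at *
    calc _ = β j * β l * (β j * β l) * c * c⁻¹ * ((β l * β l)⁻¹ * β l) * (β j * β j)⁻¹ := by group
      _ = _ := by
        rw [e2, sq, sq, inv_eq_of_mul_eq_one_right e5, one_mul, ← mul_assoc c, e5, one_mul, e4]
  have rot : ∀ j l m, β j * β l * β m ∈ Z → β l * β m * β j ∈ Z := fun j l m h => by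
    simpa [mul_assoc] using hZn _ (inv_mem (mβ j)) _ h
  have c0 : b * b = 1 := by
    have e := mul_inv_eq_of_eq_mul (hc _ (r 1) _ (mβ 0)).eq
    have r6 := r 6
    have r4 := r 4
    rw [β7 0] at r4
    rw [β7 0, β7 2] at r6
    have e4 := fun j => (hc _ hsq _ (mβ j)).eq
    rw [← conj_mul, ← conj_mul, R _ _ _ (r 0), R _ _ _ (rot _ _ _ r6), R _ _ _ (rot _ _ _ (rot _ _ _ r4))] at e
    have e5 := hZ2 _ hsq
    generalize b * b = c at *
    rw [mul_assoc c (β _) (c * _), ← mul_assoc (β _) c, e4, mul_assoc c (β _), ← mul_assoc c c, e5, one_mul,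
      ← mul_assoc, mul_left_inj] at e
    exact mul_eq_left.1 e
  intro x hx
  rcases dec x hx with h | ⟨j, z, hz, rfl⟩
  · exact hZ2 x h
  · rw [(hc z hz _ (mβ j)).mul_mul_mul_comm, hZ2 z hz, sq, c0, one_mul]

end Split

open Split in
theorem split {Γ : Type*} [Group Γ] {Z B L : Subgroup Γ} [B.Normal] {f g i k b d c : Γ}
    (hZB : Z ≤ B) (hZn : ∀ x ∈ B, ∀ y ∈ Z, x * y * x⁻¹ ∈ Z) (hZ2 : ∀ x ∈ Z, x * x = 1)
    (hLZ : ∀ l ∈ L, ∀ x ∈ Z, Commute l x) (hk : k ∈ Z) (hk1 : k ≠ 1) (hkB : ∀ x ∈ B, Commute x k)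
    (hidx : ∀ x ∈ Z, ∀ y ∈ Z, x ≠ 1 → x ≠ k → y ≠ 1 → y ≠ k → x * y = 1 ∨ x * y = k)
    (hL : L = closure {f, g, i}) (hf : f ^ 7 = 1) (hgf : g * f * g⁻¹ = f ^ 2)
    (hig : i * g * i⁻¹ = g⁻¹) (hb : b ∈ B)
    (hB : ∀ x ∈ B, x ∈ Z ∨ ∃ j < 7, x * (f ^ j * b * (f ^ j)⁻¹)⁻¹ ∈ Z) (hsq : ∀ x ∈ B, x * x ∈ Z)
    (hgb : g * b * g⁻¹ * b⁻¹ ∈ Z) (hrel : b * (f * b * f⁻¹) * (f ^ 3 * b * (f ^ 3)⁻¹) ∈ Z)
    (htop : ∀ x, ∃ y ∈ B, ∃ l ∈ L, x = y * l) (hLB : ∀ l ∈ L, l ∈ B → l = 1)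
    (hd : d ∈ L) (hc : c ∈ B) (h1 : c * d * c⁻¹ * d⁻¹ ∈ Z) (h2 : c * d * c⁻¹ * d⁻¹ ≠ 1)
    (h3 : c * d * c⁻¹ * d⁻¹ ≠ k) : ∃ H0 : Subgroup Γ, H0.index = 2 ∧ k ∉ H0 := by
  subst hL
  have he := elem hZn hZ2 (hLZ f (subset_closure (by simp))) hk hkB hidx hf hb hB (hsq b hb) hrel
  let _ : CommGroup B := { B.toGroup with mul_comm := fun x y => Subtype.ext (comm_of_sq he x.2 y.2) }
  have he' : ∀ x : B, x * x = 1 := fun x => Subtype.ext (he x x.2)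
  obtain ⟨ν, ζ, n1, n2, n3⟩ := core (A := B) MulAut.conjNormal (Z := Z.subgroupOf B) (b := ⟨b, hb⟩) he'
    (fun l hl x hx => Subtype.ext (mul_inv_eq_of_eq_mul (hLZ l hl x hx).eq)) hf hgf hig (fun x => hB x x.2)
    hgb hrel
  have zc : ∀ x ∈ zpowers ζ, x = 1 ∨ x = ζ := by
    rintro _ ⟨n, rfl⟩
    have e2 : ζ ^ (2 : ℤ) = 1 := (zpow_two ζ).trans (he' ζ)
    rcases Int.even_or_odd' n with ⟨m, rfl | rfl⟩
    · exact .inl (by simp only [zpow_mul, e2, one_zpow])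
    · exact .inr (by simp only [zpow_add, zpow_mul, e2, one_zpow, one_mul, zpow_one])
  have hu : (ζ : Γ) = c * d * c⁻¹ * d⁻¹ := by
    have e := n3 d hd ⟨c, hc⟩⁻¹
    rw [map_inv ν, inv_eq_of_mul_eq_one_right (he' (ν _)), mul_comm, ← map_mul, n2 _ (by
      simpa [mem_subgroupOf, mul_assoc] using h1)] at e
    rcases zc _ e with e | e
    · exact absurd (by simpa [mul_assoc] using congrArg Subtype.val e) h2
    · simpa [mul_assoc] using (congrArg Subtype.val e).symm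
  have : (((zpowers ζ).comap ν).map B.subtype).Normal := ⟨by
    rintro _ ⟨x, hx, rfl⟩ w
    obtain ⟨y, hy, l, hl, rfl⟩ := htop w
    refine ⟨MulAut.conjNormal l x, ((zpowers ζ).mul_mem_cancel_right hx).1 (n3 l hl x), ?_⟩
    have := comm_of_sq he hy (MulAut.conjNormal l x).2
    rw [← mul_inv_eq_iff_eq_mul] at this
    refine this.symm.trans ?_
    simp [mul_assoc]⟩
  have mem : ∀ y : B, ν y ∈ zpowers ζ → ∀ l ∈ closure {f, g, i},
      y * l ∈ ((zpowers ζ).comap ν).map B.subtype ⊔ closure {f, g, i} := fun y hy l hl =>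
    mul_mem (mem_sup_left ⟨y, hy, rfl⟩) (mem_sup_right hl)
  have hk0 : k ∉ ((zpowers ζ).comap ν).map B.subtype ⊔ closure {f, g, i} := fun h => by
    obtain ⟨_, ⟨y, hy, rfl⟩, l, hl, e⟩ := mem_sup_of_normal_left.1 h
    obtain rfl := hLB l hl ((mul_mem_cancel_left y.2).1 (e ▸ hZB hk))
    obtain rfl : y = ⟨k, hZB hk⟩ := Subtype.ext ((mul_one _).symm.trans e)
    rcases zc _ (n2 ⟨k, hZB hk⟩ hk ▸ mem_comap.1 hy) with e | e
    · exact hk1 (congrArg Subtype.val e)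
    · exact h3 (hu.symm.trans (congrArg Subtype.val e).symm)
  refine ⟨_, index_eq_two_iff_exists_notMem_and'.2 ⟨k, hk0, fun x => ?_⟩, hk0⟩
  obtain ⟨y, hy, l, hl, rfl⟩ := htop x
  have e1 : ν (⟨k, hZB hk⟩ * ⟨y, hy⟩) = ⟨k, hZB hk⟩ * ν ⟨y, hy⟩ := by rw [map_mul, n2 _ hk]
  have L : ∀ w ∈ zpowers ζ, (⟨k, hZB hk⟩ * ν ⟨y, hy⟩ : B) = w →
      k * (y * l) ∈ ((zpowers ζ).comap ν).map B.subtype ⊔ closure {f, g, i} := fun w hw e =>
    mul_assoc k y l ▸ mem (⟨k, hZB hk⟩ * ⟨y, hy⟩) (e1.trans e ▸ hw) l hl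
  by_cases a1 : (ν ⟨y, hy⟩ : Γ) = 1
  · exact .inr (mem ⟨y, hy⟩ (by rw [show ν ⟨y, hy⟩ = 1 from Subtype.ext a1]; exact one_mem _) l hl)
  by_cases a2 : (ν ⟨y, hy⟩ : Γ) = k
  · exact .inl (L 1 (one_mem _) (Subtype.ext (by simpa [a2] using hZ2 k hk)))
  rcases hidx _ (n1 ⟨y, hy⟩) ζ (hu ▸ h1) a1 a2 (hu ▸ h2) (hu ▸ h3) with e | e
  · refine .inr (mem ⟨y, hy⟩ ?_ l hl)
    rw [show ν ⟨y, hy⟩ = ζ⁻¹ from eq_inv_of_mul_eq_one_left (Subtype.ext e)]
    exact inv_mem (mem_zpowers ζ)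
  · refine .inl (L ζ (mem_zpowers ζ) ?_)
    rw [show (⟨k, hZB hk⟩ : B) = ν ⟨y, hy⟩ * ζ from Subtype.ext e.symm, mul_right_comm, he', one_mul]

end Cfsg.Lib.HK
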