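import Cfsg.Agent.HK.Ind
import Cfsg.Agent.HK.Split

/-!
The affine group `N(E)/B₀ = 2^(2+3).L₃(2)`: reduction to `split`.
-/

set_option autoImplicit false

namespace Cfsg.Lib.HK

open Subgroup Cfsg.Lib.HN

section
variable {G : Type*} [Group G]

theorem Aff.comm_closure {S : Set G} {n : G} (h : ∀ s ∈ S, Commute n s) {x : G}
    (hx : x ∈ closure S) : Commute n x := by
  induction hx using closure_induction with
  | mem x hx => exact h x hx
  | one => exact Commute.one_right _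
  | mul x y _ _ hx hy => exact hx.mul_right hy
  | inv x _ hx => exact hx.inv_right

theorem Aff.conj_comm {h n x : G} (e : Commute n (h⁻¹ * x * h⁻¹⁻¹)) : Commute (h * n * h⁻¹) x := by
  have := e.eq
  show h * n * h⁻¹ * x = x * (h * n * h⁻¹)
  calc h * n * h⁻¹ * x = h * (n * (h⁻¹ * x * h⁻¹⁻¹)) * h⁻¹ := by group
    _ = _ := by rw [this]; group

theorem Aff.comm_of_eq {l h x : G} (e : l * x * l⁻¹ = h * x * h⁻¹) : Commute (l⁻¹ * h) x := by
  show l⁻¹ * h * x = x * (l⁻¹ * h)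
  calc l⁻¹ * h * x = l⁻¹ * (h * x * h⁻¹) * h := by group
    _ = _ := by rw [← e]; group

/-- the centraliser of `z, a, b` -/
def Aff.CV (z a b : G) : Subgroup G where
  carrier := {n | Commute n z ∧ Commute n a ∧ Commute n b}
  mul_mem' := fun h k => ⟨h.1.mul_left k.1, h.2.1.mul_left k.2.1, h.2.2.mul_left k.2.2⟩
  one_mem' := ⟨Commute.one_left _, Commute.one_left _, Commute.one_left _⟩
  inv_mem' := fun h => ⟨h.1.inv_left, h.2.1.inv_left, h.2.2.inv_left⟩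

/-- the centraliser of `t, z, a, b` -/
def Aff.CT (t z a b : G) : Subgroup G where
  carrier := {n | CE t z a b n}
  mul_mem' := fun h k => ⟨h.1.mul_left k.1, h.2.1.mul_left k.2.1, h.2.2.1.mul_left k.2.2.1,
    h.2.2.2.mul_left k.2.2.2⟩
  one_mem' := ⟨Commute.one_left _, Commute.one_left _, Commute.one_left _, Commute.one_left _⟩
  inv_mem' := fun h => ⟨h.1.inv_left, h.2.1.inv_left, h.2.2.1.inv_left, h.2.2.2.inv_left⟩

theorem Aff.CV_comm {z a b n x : G} (h : n ∈ Aff.CV z a b) (hx : x ∈ closure {z, a, b}) :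
    Commute n x :=
  Aff.comm_closure (by rintro s (rfl | rfl | rfl); exacts [h.1, h.2.1, h.2.2]) hx

/-- `n t n⁻¹ = t v` -/
def Aff.Tau (t n v : G) : Prop := n * t * n⁻¹ = t * v

theorem Aff.Tau.mul {t n m v w : G} (h : Aff.Tau t n v) (k : Aff.Tau t m w) (c : Commute n w) :
    Aff.Tau t (n * m) (v * w) := by
  unfold Aff.Tau at *
  calc n * m * t * (n * m)⁻¹ = n * (m * t * m⁻¹) * n⁻¹ := by group
    _ = n * t * n⁻¹ * (n * w * n⁻¹) := by rw [k]; group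
    _ = _ := by rw [h, c.eq]; group

theorem Aff.Tau.inv {t n v : G} (h : Aff.Tau t n v) (c : Commute n v) (hv : v * v = 1) :
    Aff.Tau t n⁻¹ v := by
  unfold Aff.Tau at *
  calc n⁻¹ * t * n⁻¹⁻¹ = n⁻¹ * (t * v * v) * n := by rw [mul_assoc t, hv]; group
    _ = t * (n⁻¹ * (v * n)) := by rw [← h]; group
    _ = _ := by rw [← c.eq]; group

theorem Aff.Tau.conj {t n v l : G} (h : Aff.Tau t n v) (c : Commute l t) :
    Aff.Tau t (l * n * l⁻¹) (l * v * l⁻¹) := by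
  unfold Aff.Tau at *
  have e : l⁻¹ * t * l = t := by rw [mul_assoc, ← c.eq]; group
  calc l * n * l⁻¹ * t * (l * n * l⁻¹)⁻¹ = l * (n * (l⁻¹ * t * l) * n⁻¹) * l⁻¹ := by group
    _ = l * t * v * l⁻¹ := by rw [e, h]; group
    _ = _ := by rw [c.eq]; group

theorem Aff.Tau.comm {t n : G} (h : Aff.Tau t n 1) : Commute n t := by
  unfold Aff.Tau at h
  rw [mul_one, mul_inv_eq_iff_eq_mul] at h
  exact h

theorem Aff.tabF : ∀ m < 8, m = 0 ∨ ∃ j < 7, (Ind.lin (2, 4, 3))^[j] 1 = m := by decide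

end

theorem aff {G : Type*} [Group G] {H B0 L : Subgroup G} {t z a b f g i k c d : G}
    (ht : t * t = 1) (hz : z * z = 1) (ha : a * a = 1) (hb : b * b = 1) (tz : Commute t z)
    (ta : Commute t a) (tb : Commute t b) (za : Commute z a) (zb : Commute z b) (ab : Commute a b)
    (hV : ∀ j < 8, vv z a b j = 1 → j = 0)
    (hHV : ∀ h ∈ H, ∀ x ∈ closure {z, a, b}, h * x * h⁻¹ ∈ closure {z, a, b})
    (hHt : ∀ h ∈ H, h * t * h⁻¹ * t ∈ closure {z, a, b})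
    (hB : B0 ≤ H) (hBn : ∀ h ∈ H, ∀ x ∈ B0, h * x * h⁻¹ ∈ B0) (hBc : ∀ x ∈ B0, CE t z a b x)
    (hL : L ≤ H) (hLt : ∀ l ∈ L, Commute l t) (hLB : ∀ l ∈ L, CE t z a b l → l ∈ B0)
    (hf : f ∈ L) (hg : g ∈ L) (hi : i ∈ L) (hd : d ∈ L)
    (f1 : f * z * f⁻¹ = a) (f2 : f * a * f⁻¹ = b) (f3 : f * b * f⁻¹ = z * a)
    (g1 : g * z * g⁻¹ = z) (g2 : g * a * g⁻¹ = b) (g3 : g * b * g⁻¹ = a * b)
    (i1 : i * z * i⁻¹ = z) (i2 : i * a * i⁻¹ = b) (i3 : i * b * i⁻¹ = a)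
    (hLZ : ∀ l ∈ L, ∀ n ∈ H, CE t z a b n → l * n * l⁻¹ * n⁻¹ ∈ B0)
    (hZ2 : ∀ n ∈ H, CE t z a b n → n * n ∈ B0)
    (hk : k ∈ H) (hkc : CE t z a b k) (hk0 : k ∉ B0) (hkn : ∀ h ∈ H, h * k * h⁻¹ * k⁻¹ ∈ B0)
    (hidx : ∀ n ∈ H, ∀ n' ∈ H, CE t z a b n → CE t z a b n' → n ∉ B0 → k⁻¹ * n ∉ B0 → n' ∉ B0 →
      k⁻¹ * n' ∉ B0 → n * n' ∈ B0 ∨ k⁻¹ * (n * n') ∈ B0)
    (hc : c ∈ H) (c1 : Commute c z) (c2 : Commute c a) (c3 : Commute c b)
    (c4 : c * t * c⁻¹ = t * z) (d1 : Commute d z) (d2 : c * d * c⁻¹ * d⁻¹ ∉ B0)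
    (d3 : k⁻¹ * (c * d * c⁻¹ * d⁻¹) ∉ B0) :
    ∃ H0 : Subgroup G, H0 ≤ H ∧ H0.relIndex H = 2 ∧ k ∉ H0 := by
  have zV : z ∈ closure ({z, a, b} : Set G) := subset_closure (by simp)
  have aV : a ∈ closure ({z, a, b} : Set G) := subset_closure (by simp)
  have bV : b ∈ closure ({z, a, b} : Set G) := subset_closure (by simp)
  have tV : t ∈ Aff.CV z a b := ⟨tz, ta, tb⟩
  have Vsq : ∀ x ∈ closure ({z, a, b} : Set G), x * x = 1 := fun x hx => by
    obtain ⟨j, -, rfl⟩ := (mem_closure_vv hz ha hb za zb ab).1 hx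
    rw [Ind.vv_mul hz ha hb za zb ab, Nat.xor_self, Ind.vv_zero]
  have Bn : ∀ h ∈ H, ∀ n ∈ Aff.CV z a b, h * n * h⁻¹ ∈ Aff.CV z a b := fun h hh n hn =>
    ⟨Aff.conj_comm (Aff.CV_comm hn (hHV _ (inv_mem hh) _ zV)),
      Aff.conj_comm (Aff.CV_comm hn (hHV _ (inv_mem hh) _ aV)),
      Aff.conj_comm (Aff.CV_comm hn (hHV _ (inv_mem hh) _ bV))⟩
  have exT : ∀ h ∈ H, ∃ v ∈ closure ({z, a, b} : Set G), Aff.Tau t h v := fun h hh =>
    ⟨_, hHt h hh, by
      unfold Aff.Tau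
      rw [(Aff.CV_comm tV (hHt h hh)).eq, mul_assoc _ t t, ht, mul_one]⟩
  have Zn : ∀ h ∈ H, ∀ n ∈ Aff.CT t z a b, h * n * h⁻¹ ∈ Aff.CT t z a b := fun h hh n hn => by
    refine ⟨Aff.conj_comm ?_, Bn h hh n hn.2⟩
    obtain ⟨v, hv, e⟩ := exT _ (inv_mem hh)
    rw [e]
    exact Commute.mul_right hn.1 (Aff.CV_comm hn.2 hv)
  have : (B0.subgroupOf H).Normal := ⟨fun n hn h => by
    rw [mem_subgroupOf] at *; exact hBn _ h.2 _ hn⟩
  have hBN : ((Aff.CV z a b).subgroupOf H).Normal := ⟨fun n hn h => by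
    rw [mem_subgroupOf] at *; exact Bn _ h.2 _ hn⟩
  set π := QuotientGroup.mk' (B0.subgroupOf H) with hπ
  have sπ : Function.Surjective π := QuotientGroup.mk'_surjective _
  have πe : ∀ x y : H, π x = π y ↔ (x : G)⁻¹ * y ∈ B0 := fun x y => by
    rw [hπ, QuotientGroup.mk'_apply, QuotientGroup.mk'_apply, QuotientGroup.eq, mem_subgroupOf]; rfl
  have π1 : ∀ x : H, π x = 1 ↔ (x : G) ∈ B0 := fun x => by
    rw [hπ, QuotientGroup.mk'_apply, QuotientGroup.eq_one_iff, mem_subgroupOf]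
  have mm : ∀ S : Subgroup G, B0 ≤ S → ∀ x : H, π x ∈ (S.subgroupOf H).map π ↔ (x : G) ∈ S := by
    intro S hS x
    constructor
    · rintro ⟨y, hy, e⟩
      have := mul_mem (show (y : G) ∈ S from hy) (hS ((πe _ _).1 e))
      simpa using this
    · exact fun h => ⟨x, h, rfl⟩
  have mZ := mm (Aff.CT t z a b) hBc
  have mB := mm (Aff.CV z a b) fun x hx => (hBc x hx).2
  set Z := ((Aff.CT t z a b).subgroupOf H).map π
  set B := ((Aff.CV z a b).subgroupOf H).map π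
  have : B.Normal := hBN.map π sπ
  set f' : H := ⟨f, hL hf⟩
  set g' : H := ⟨g, hL hg⟩
  set i' : H := ⟨i, hL hi⟩
  set L' := closure {π f', π g', π i'}
  have up : ∀ l ∈ L', ∃ x : H, (x : G) ∈ L ∧ π x = l := by
    have : L' ≤ (L.subgroupOf H).map π := by
      rw [closure_le]
      rintro _ (rfl | rfl | rfl)
      exacts [⟨_, hf, rfl⟩, ⟨_, hg, rfl⟩, ⟨_, hi, rfl⟩]
    exact fun l hl => this hl
  have down : ∀ l ∈ closure ({f, g, i} : Set G), ∃ x : H, (x : G) = l ∧ l ∈ L ∧ π x ∈ L' := by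
    intro l hl
    induction hl using closure_induction with
    | mem x hx =>
      rcases hx with rfl | rfl | rfl
      exacts [⟨f', rfl, hf, subset_closure (by simp)⟩, ⟨g', rfl, hg, subset_closure (by simp)⟩,
        ⟨i', rfl, hi, subset_closure (by simp)⟩]
    | one => exact ⟨1, rfl, one_mem _, by rw [map_one]; exact one_mem _⟩
    | mul x y _ _ hx hy =>
      obtain ⟨x, rfl, h1, h2⟩ := hx
      obtain ⟨y, rfl, k1, k2⟩ := hy
      exact ⟨x * y, rfl, mul_mem h1 k1, by rw [map_mul]; exact mul_mem h2 k2⟩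
    | inv x _ hx =>
      obtain ⟨x, rfl, h1, h2⟩ := hx
      exact ⟨x⁻¹, rfl, inv_mem h1, by rw [map_inv]; exact inv_mem h2⟩
  have dec : ∀ h : H, ∃ x : H, (x : G) ∈ L ∧ π x ∈ L' ∧ (x : G)⁻¹ * h ∈ Aff.CV z a b := by
    intro h
    obtain ⟨l, hl, e1, e2, e3⟩ := ind hz ha hb za zb ab hV f1 f2 f3 g1 g2 g3 i1 i2 i3 (hHV _ h.2)
    obtain ⟨x, rfl, h1, h2⟩ := down l hl
    exact ⟨x, h1, h2, Aff.comm_of_eq e1, Aff.comm_of_eq e2, Aff.comm_of_eq e3⟩
  have eqL : ∀ x y : H, (x : G) ∈ L → (y : G) ∈ L → (x : G)⁻¹ * y ∈ Aff.CV z a b → π x = π y :=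
    fun x y hx hy h => (πe _ _).2 (hLB _ (mul_mem (inv_mem hx) hy)
      ⟨hLt _ (mul_mem (inv_mem hx) hy), h⟩)
  -- actions on codes
  have aF := Ind.conj_vv hz ha hb za zb ab (t := (2, 4, 3)) (n := f)
    (by rw [f1, Ind.vv_two]) (by rw [f2, Ind.vv_four]) (by rw [f3, Ind.vv_three])
  have aG := Ind.conj_vv hz ha hb za zb ab (t := (1, 4, 6)) (n := g)
    (by rw [g1, Ind.vv_one]) (by rw [g2, Ind.vv_four]) (by rw [g3, Ind.vv_six])
  have aI := Ind.conj_vv hz ha hb za zb ab (t := (1, 4, 2)) (n := i)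
    (by rw [i1, Ind.vv_one]) (by rw [i2, Ind.vv_four]) (by rw [i3, Ind.vv_two])
  have cmp : ∀ {x y : G} {φ ψ : ℕ → ℕ}, (∀ j, x * vv z a b j * x⁻¹ = vv z a b (φ j)) →
      (∀ j, y * vv z a b j * y⁻¹ = vv z a b (ψ j)) →
      ∀ j, x * y * vv z a b j * (x * y)⁻¹ = vv z a b (φ (ψ j)) := by
    intro x y φ ψ h1 h2 j
    rw [← h1, ← h2]; group
  have aFj : ∀ n j, f ^ n * vv z a b j * (f ^ n)⁻¹ = vv z a b ((Ind.lin (2, 4, 3))^[n] j) := by
    intro n
    induction n with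
    | zero => simp
    | succ n ih =>
      intro j
      rw [pow_succ', Function.iterate_succ_apply']
      exact cmp aF ih j
  have same : ∀ {x y : G} {φ ψ : ℕ → ℕ}, (∀ j, x * vv z a b j * x⁻¹ = vv z a b (φ j)) →
      (∀ j, y * vv z a b j * y⁻¹ = vv z a b (ψ j)) → φ 1 = ψ 1 → φ 2 = ψ 2 → φ 4 = ψ 4 →
      x⁻¹ * y ∈ Aff.CV z a b := by
    intro x y φ ψ h1 h2 e1 e2 e4
    refine ⟨Aff.comm_of_eq ?_, Aff.comm_of_eq ?_, Aff.comm_of_eq ?_⟩
    · have := (h1 1).trans (e1 ▸ (h2 1).symm); rwa [Ind.vv_one] at this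
    · have := (h1 2).trans (e2 ▸ (h2 2).symm); rwa [Ind.vv_two] at this
    · have := (h1 4).trans (e4 ▸ (h2 4).symm); rwa [Ind.vv_four] at this
  have cV : c ∈ Aff.CV z a b := ⟨c1, c2, c3⟩
  have cT : Aff.Tau t c z := c4
  have cj : ∀ n, Aff.Tau t (f ^ n * c * (f ^ n)⁻¹) (vv z a b ((Ind.lin (2, 4, 3))^[n] 1)) := by
    intro n
    rw [← aFj, Ind.vv_one]
    exact cT.conj (hLt _ (pow_mem hf n))
  obtain ⟨H0, h0, hk0'⟩ := split (Z := Z) (B := B) (L := L') (f := π f') (g := π g') (i := π i')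
    (k := π ⟨k, hk⟩) (b := π ⟨c, hc⟩) (d := π ⟨d, hL hd⟩) (c := π ⟨c, hc⟩)
    (map_mono fun x hx => hx.2)
    (by
      intro x _ y hy
      obtain ⟨x, rfl⟩ := sπ x
      obtain ⟨y, rfl⟩ := sπ y
      rw [← map_inv, ← map_mul, ← map_mul, mZ]
      exact Zn _ x.2 _ ((mZ _).1 hy))
    (by
      intro x hx
      obtain ⟨x, rfl⟩ := sπ x
      rw [← map_mul, π1]
      exact hZ2 _ x.2 ((mZ _).1 hx))
    (by
      intro l hl x hx
      obtain ⟨l, hl', rfl⟩ := up l hl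
      obtain ⟨x, rfl⟩ := sπ x
      rw [← commutatorElement_eq_one_iff_commute, commutatorElement_def, ← map_inv, ← map_inv,
        ← map_mul, ← map_mul, ← map_mul, π1]
      exact hLZ _ hl' _ x.2 ((mZ _).1 hx))
    ((mZ _).2 hkc) (fun h => hk0 ((π1 _).1 h))
    (by
      intro x _
      obtain ⟨x, rfl⟩ := sπ x
      rw [← commutatorElement_eq_one_iff_commute, commutatorElement_def, ← map_inv, ← map_inv,
        ← map_mul, ← map_mul, ← map_mul, π1]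
      exact hkn _ x.2)
    (by
      intro x hx y hy h1 h2 h3 h4
      obtain ⟨x, rfl⟩ := sπ x
      obtain ⟨y, rfl⟩ := sπ y
      rw [← map_mul, π1, eq_comm, πe]
      exact hidx _ x.2 _ y.2 ((mZ _).1 hx) ((mZ _).1 hy) (fun h => h1 ((π1 _).2 h))
        (fun h => h2 ((πe _ _).2 h).symm) (fun h => h3 ((π1 _).2 h))
        (fun h => h4 ((πe _ _).2 h).symm))
    rfl
    (by
      rw [← map_pow, ← map_one π]
      exact eqL _ _ (pow_mem hf 7) (one_mem _)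
        (same (ψ := id) (aFj 7) (by simp) (by decide) (by decide) (by decide)))
    (by
      rw [mul_inv_eq_iff_eq_mul, ← map_pow, ← map_mul, ← map_mul]
      exact eqL _ _ (mul_mem hg hf) (mul_mem (pow_mem hf 2) hg)
        (same (cmp aG aF) (cmp (aFj 2) aG) (by decide) (by decide) (by decide)))
    (by
      rw [mul_inv_eq_iff_eq_mul, eq_inv_mul_iff_mul_eq, ← map_mul, ← map_mul]
      exact eqL _ _ (mul_mem hg (mul_mem hi hg)) hi
        (same (cmp aG (cmp aI aG)) aI (by decide) (by decide) (by decide)))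
    ((mB _).2 cV)
    (by
      intro x hx
      obtain ⟨x, rfl⟩ := sπ x
      have hx' := (mB _).1 hx
      obtain ⟨v, hv, e⟩ := exT _ x.2
      obtain ⟨m, hm, rfl⟩ := (mem_closure_vv hz ha hb za zb ab).1 hv
      rcases Aff.tabF m hm with rfl | ⟨j, hj, rfl⟩
      · rw [Ind.vv_zero] at e
        exact Or.inl ((mZ _).2 ⟨e.comm, hx'⟩)
      · refine Or.inr ⟨j, hj, ?_⟩
        rw [← map_pow, ← map_inv, ← map_mul, ← map_mul, ← map_inv, ← map_mul, mZ]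
        have h1 : f ^ j * c * (f ^ j)⁻¹ ∈ Aff.CV z a b := Bn _ (pow_mem (hL hf) j) _ cV
        have h2 := e.mul ((cj j).inv (Aff.CV_comm h1 hv) (Vsq _ hv)) (Aff.CV_comm hx' hv)
        rw [Vsq _ hv] at h2
        exact ⟨h2.comm, mul_mem hx' (inv_mem h1)⟩)
    (by
      intro x hx
      obtain ⟨x, rfl⟩ := sπ x
      have hx' := (mB _).1 hx
      obtain ⟨v, hv, e⟩ := exT _ x.2
      rw [← map_mul, mZ]
      have h2 := e.mul e (Aff.CV_comm hx' hv)
      rw [Vsq _ hv] at h2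
      exact ⟨h2.comm, mul_mem hx' hx'⟩)
    (by
      rw [← map_inv, ← map_inv, ← map_mul, ← map_mul, ← map_mul, mZ]
      have h1 : g * c * g⁻¹ ∈ Aff.CV z a b := Bn _ (hL hg) _ cV
      have h2 := (cT.conj (hLt _ hg)).mul (cT.inv c1 hz) h1.1
      rw [g1, hz] at h2
      exact ⟨h2.comm, mul_mem h1 (inv_mem cV)⟩)
    (by
      rw [← map_pow, ← map_inv, ← map_inv, ← map_mul, ← map_mul, ← map_mul, ← map_mul, ← map_mul,
        ← map_mul, mZ]
      have h1 : f * c * f⁻¹ ∈ Aff.CV z a b := Bn _ (hL hf) _ cV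
      have h3 : f ^ 3 * c * (f ^ 3)⁻¹ ∈ Aff.CV z a b := Bn _ (pow_mem (hL hf) 3) _ cV
      have h4 := cj 3
      rw [show (Ind.lin (2, 4, 3))^[3] 1 = 3 by decide, Ind.vv_three] at h4
      have h5 := cT.conj (hLt _ hf)
      rw [f1] at h5
      have h2 := (cT.mul h5 c2).mul h4 (Aff.CV_comm (mul_mem cV h1) (mul_mem zV aV))
      rw [Vsq _ (mul_mem zV aV)] at h2
      exact ⟨h2.comm, mul_mem (mul_mem cV h1) h3⟩)
    (by
      intro x
      obtain ⟨x, rfl⟩ := sπ x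
      obtain ⟨l, h1, h2, h3⟩ := dec x
      refine ⟨π (x * l⁻¹), (mB _).2 ?_, π l, h2, by simp⟩
      have := Bn _ l.2 _ h3
      simpa [mul_assoc] using this)
    (by
      intro l hl hB'
      obtain ⟨l, hl', rfl⟩ := up l hl
      exact (π1 _).2 (hLB _ hl' ⟨hLt _ hl', (mB _).1 hB'⟩))
    (by
      obtain ⟨l, h1, h2, h3⟩ := dec ⟨d, hL hd⟩
      rwa [← eqL _ _ h1 hd h3])
    ((mB _).2 cV)
    (by
      rw [mul_assoc, mul_assoc, ← mul_assoc (π ⟨d, hL hd⟩), ← map_inv, ← map_inv, ← map_mul,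
        ← map_mul, ← map_mul, mZ]
      have h1 : d * c⁻¹ * d⁻¹ ∈ Aff.CV z a b := Bn _ (hL hd) _ (inv_mem cV)
      have h3 := (cT.inv c1 hz).conj (hLt _ hd)
      rw [d1.eq, mul_inv_cancel_right] at h3
      have h2 := cT.mul h3 c1
      rw [hz] at h2
      exact ⟨h2.comm, mul_mem cV h1⟩)
    (by
      rw [← map_inv, ← map_inv, ← map_mul, ← map_mul, ← map_mul]
      exact fun h => d2 ((π1 _).1 h))
    (by
      rw [← map_inv, ← map_inv, ← map_mul, ← map_mul, ← map_mul]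
      exact fun h => d3 ((πe _ _).1 h.symm))
  refine ⟨(H0.comap π).map H.subtype, map_subtype_le _, ?_, ?_⟩
  · rw [relIndex, subgroupOf, comap_map_eq_self_of_injective H.subtype_injective,
      index_comap_of_surjective _ sπ, h0]
  · rintro ⟨x, hx, e⟩
    have : x = ⟨k, hk⟩ := Subtype.ext e
    subst this
    exact hk0' hx

end Cfsg.Lib.HK
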