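import Cfsg.Agent.HK.Defs

/-! Standard subgroups `L ≅ 2.HS`: basic API. -/

set_option autoImplicit false

namespace Cfsg.Lib.HK

open Subgroup Cfsg.Lib.HN

variable {P G : Type*} [Group P] [Group G] {D : HSD P} {e : P → G}

theorem Lf.mul' (h : HX D) {n n' : G} {c c' : P} (h1 : Lf D e n c) (h2 : Lf D e n' c') :
    Lf D e (n * n') (c * c') := fun m hm => by
  have hm' : c' * m * c'⁻¹ ∈ D.M :=
    (D.conj_mem_M (h.top ▸ mem_top _) (h.top ▸ mem_top _)).2 hm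
  calc n * n' * e m * (n * n')⁻¹ = n * (n' * e m * n'⁻¹) * n⁻¹ := by group
    _ = _ := by rw [h2 m hm, h1 _ hm']; congr 1; group

namespace St
variable (S : St D e)
include S

theorem mem (a : P) : a ∈ D.C := S.top ▸ mem_top a
theorem ctP (a : P) : Commute a D.t := D.cent a (S.mem a)
theorem cM (c : P) {m : P} (hm : m ∈ D.M) : c * m * c⁻¹ ∈ D.M :=
  (D.conj_mem_M (S.mem m) (S.mem c)).2 hm
theorem mul_M (a b : P) : a * b ∈ D.M ↔ (a ∈ D.M ↔ b ∈ D.M) := D.mul_mem_M (S.mem a) (S.mem b)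
theorem one : e 1 = 1 := by
  have := S.mul 1 D.M.one_mem 1 D.M.one_mem
  rw [mul_one] at this
  exact left_eq_mul.1 this
theorem inv {a : P} (ha : a ∈ D.M) : e a⁻¹ = (e a)⁻¹ :=
  eq_inv_of_mul_eq_one_left (by rw [← S.mul _ (D.M.inv_mem ha) _ ha, inv_mul_cancel, S.one])
theorem eq_iff {a b : P} (ha : a ∈ D.M) (hb : b ∈ D.M) : e a = e b ↔ a = b :=
  ⟨fun h => mul_inv_eq_one.1 (S.inj _ (D.M.mul_mem ha (D.M.inv_mem hb))
    (by rw [S.mul _ ha _ (D.M.inv_mem hb), S.inv hb, h, mul_inv_cancel])), congrArg e⟩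
theorem eq_one_iff {a : P} (ha : a ∈ D.M) : e a = 1 ↔ a = 1 := by
  rw [← S.one, S.eq_iff ha D.M.one_mem]
theorem conj {l m : P} (hl : l ∈ D.M) (hm : m ∈ D.M) : e (l * m * l⁻¹) = e l * e m * (e l)⁻¹ := by
  rw [S.mul _ (D.M.mul_mem hl hm) _ (D.M.inv_mem hl), S.mul _ hl _ hm, S.inv hl]
theorem pow {a : P} (ha : a ∈ D.M) (n : ℕ) : e (a ^ n) = e a ^ n := by
  induction n with
  | zero => simpa using S.one
  | succ n ih => rw [pow_succ, S.mul _ (D.M.pow_mem ha n) _ ha, ih, pow_succ]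
theorem comm_iff {a b : P} (ha : a ∈ D.M) (hb : b ∈ D.M) : Commute (e a) (e b) ↔ Commute a b := by
  unfold Commute SemiconjBy
  rw [← S.mul _ ha _ hb, ← S.mul _ hb _ ha, S.eq_iff (D.M.mul_mem ha hb) (D.M.mul_mem hb ha)]
theorem ct {m : P} (hm : m ∈ D.M) : Commute (e m) (e D.t) := (S.comm_iff hm D.t_M).2 (S.ctP m)
theorem tt : e D.t * e D.t = 1 := by rw [← S.mul _ D.t_M _ D.t_M, D.tt, S.one]
theorem zz : e D.z * e D.z = 1 := by rw [← S.mul _ D.z_M _ D.z_M, D.zz, S.one]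
theorem tz : Commute (e D.t) (e D.z) := (S.ct D.z_M).symm
theorem etz : e (D.t * D.z) = e D.t * e D.z := S.mul _ D.t_M _ D.z_M
theorem t_ne : e D.t ≠ 1 := mt (S.eq_one_iff D.t_M).1 D.rel.t1
theorem z_ne : e D.z ≠ 1 := mt (S.eq_one_iff D.z_M).1 D.rel.z1
theorem t_ne_z : e D.t ≠ e D.z := mt (S.eq_iff D.t_M D.z_M).1 D.rel.tz
theorem orderOf_t : orderOf (e D.t) = 2 := orderOf_eq_prime (by rw [pow_two, S.tt]) S.t_ne

/-- the subgroup `L` -/
def L : Subgroup G where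
  carrier := LL D e
  mul_mem' := by
    rintro _ _ ⟨a, ha, rfl⟩ ⟨b, hb, rfl⟩
    exact ⟨_, D.M.mul_mem ha hb, S.mul _ ha _ hb⟩
  one_mem' := ⟨1, D.M.one_mem, S.one⟩
  inv_mem' := by
    rintro _ ⟨a, ha, rfl⟩
    exact ⟨_, D.M.inv_mem ha, S.inv ha⟩

theorem mem_L {x : G} : x ∈ S.L ↔ ∃ m ∈ D.M, e m = x := Iff.rfl
theorem e_L {m : P} (hm : m ∈ D.M) : e m ∈ S.L := ⟨m, hm, rfl⟩

/-- `e` as a homomorphism -/
def hom : D.M →* G := MonoidHom.mk' (fun m => e m) fun a b => S.mul _ a.2 _ b.2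
theorem hom_apply (m : D.M) : S.hom m = e m := rfl
theorem hom_inj : Function.Injective S.hom := fun a b h => Subtype.ext ((S.eq_iff a.2 b.2).1 h)

theorem t_K : e D.t ∈ KK D e := mem_KK.2 fun _ hm => (S.ct hm).symm
omit S in
theorem K_t {κ : G} (h : κ ∈ KK D e) : Commute κ (e D.t) := mem_KK.1 h _ D.t_M
omit S in
theorem K_z {κ : G} (h : κ ∈ KK D e) : Commute κ (e D.z) := mem_KK.1 h _ D.z_M
/-- `K ∩ L = ⟨t⟩` -/
theorem KL {m : P} (hm : m ∈ D.M) (h : e m ∈ KK D e) : m = 1 ∨ m = D.t :=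
  D.cen_M_eq (S.mem m) fun x hx => (S.comm_iff hm hx).1 (mem_KK.1 h x hx)

theorem lf_e {l : P} (hl : l ∈ D.M) : Lf D e (e l) l := fun _ hm => (S.conj hl hm).symm
omit S in
theorem lf_one_iff {κ : G} : Lf D e κ 1 ↔ κ ∈ KK D e := by
  rw [mem_KK]
  refine forall₂_congr fun m _ => ?_
  rw [one_mul, inv_one, mul_one, mul_inv_eq_iff_eq_mul]; rfl
theorem lf_mul {n n' : G} {c c' : P} (h1 : Lf D e n c) (h2 : Lf D e n' c') :
    Lf D e (n * n') (c * c') := h1.mul' S.toHX h2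
theorem lf_inv {n : G} {c : P} (h : Lf D e n c) : Lf D e n⁻¹ c⁻¹ := fun m hm => by
  have := h _ (S.cM c⁻¹ hm)
  rw [show c * (c⁻¹ * m * c⁻¹⁻¹) * c⁻¹ = m by group] at this
  rw [← this]; group
theorem lf_pow {n : G} {c : P} (h : Lf D e n c) (k : ℕ) : Lf D e (n ^ k) (c ^ k) := by
  induction k with
  | zero => intro m _; simp
  | succ k ih => rw [pow_succ, pow_succ]; exact S.lf_mul ih h
theorem lf_t {n : G} {c : P} (h : Lf D e n c) : Commute n (e D.t) := by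
  have := h _ D.t_M
  rwa [(S.ctP c).eq, mul_inv_cancel_right, mul_inv_eq_iff_eq_mul] at this
theorem lf_K_iff {n : G} {c : P} (h : Lf D e n c) : n ∈ KK D e ↔ c = 1 ∨ c = D.t := by
  constructor
  · intro hn
    refine D.cen_M_eq (S.mem c) fun m hm => ?_
    have := h m hm
    rw [(mem_KK.1 hn m hm).eq, mul_inv_cancel_right, S.eq_iff hm (S.cM c hm), eq_comm,
      mul_inv_eq_iff_eq_mul] at this
    exact this
  · intro hc
    refine mem_KK.2 fun m hm => ?_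
    have := h m hm
    rcases hc with rfl | rfl
    · rwa [one_mul, inv_one, mul_one, mul_inv_eq_iff_eq_mul] at this
    · rwa [← (S.ctP m).eq, mul_inv_cancel_right, mul_inv_eq_iff_eq_mul] at this
theorem lf_unique {n : G} {c c' : P} (h : Lf D e n c) (h' : Lf D e n c') :
    c' = c ∨ c' = c * D.t := by
  have := (S.lf_K_iff (S.lf_mul (S.lf_inv h) h')).1 (by rw [inv_mul_cancel]; exact one_mem _)
  rw [inv_mul_eq_one, inv_mul_eq_iff_eq_mul] at this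
  exact this.imp Eq.symm id
theorem lf_comm_iff {n : G} {c m : P} (h : Lf D e n c) (hm : m ∈ D.M) :
    Commute n (e m) ↔ Commute c m := by
  unfold Commute SemiconjBy
  rw [← mul_inv_eq_iff_eq_mul, h m hm, S.eq_iff (S.cM c hm) hm, mul_inv_eq_iff_eq_mul]
theorem inn_iff {n : G} {c : P} (h : Lf D e n c) : Inn D e n ↔ c ∈ D.M := by
  constructor
  · rintro ⟨l, hl, hk⟩
    have h1 : l⁻¹ * c ∈ D.M := by
      rcases (S.lf_K_iff (S.lf_mul (S.lf_inv (S.lf_e hl)) h)).1 hk with h1 | h1 <;> rw [h1]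
      exacts [D.M.one_mem, D.t_M]
    exact (D.M.mul_mem_cancel_left (D.M.inv_mem hl)).1 h1
  · exact fun hc => ⟨c, hc, (S.lf_K_iff (S.lf_mul (S.lf_inv (S.lf_e hc)) h)).2
      (Or.inl (inv_mul_cancel c))⟩
/-- `N = C(t)` normalises `L` -/
theorem conj_L {n : G} (hn : Commute n (e D.t)) {m : P} (hm : m ∈ D.M) :
    ∃ m' ∈ D.M, n * e m * n⁻¹ = e m' :=
  let ⟨c, hc⟩ := S.lift n hn; ⟨_, S.cM c hm, hc m hm⟩
/-- `N = C(t)` normalises `K` -/
theorem conj_K {n κ : G} (hn : Commute n (e D.t)) (h : κ ∈ KK D e) : n * κ * n⁻¹ ∈ KK D e := by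
  obtain ⟨c, hc⟩ := S.lift n hn
  exact (S.lf_K_iff (S.lf_mul (S.lf_mul hc (lf_one_iff.2 h)) (S.lf_inv hc))).2 (Or.inl (by simp))
theorem conj_K_iff {n κ : G} (hn : Commute n (e D.t)) : n * κ * n⁻¹ ∈ KK D e ↔ κ ∈ KK D e :=
  ⟨fun h => by simpa [mul_assoc] using S.conj_K hn.inv_left h, S.conj_K hn⟩
theorem inn_e {l : P} (hl : l ∈ D.M) : Inn D e (e l) := (S.inn_iff (S.lf_e hl)).2 hl
theorem inn_K {κ : G} (h : κ ∈ KK D e) : Inn D e κ := (S.inn_iff (lf_one_iff.2 h)).2 D.M.one_mem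
theorem inn_t {n : G} (h : Inn D e n) : Commute n (e D.t) := by
  obtain ⟨l, hl, hk⟩ := h
  simpa using (S.ct hl).mul_left (K_t hk)
omit S in
theorem inn_dec {n : G} (h : Inn D e n) : ∃ l ∈ D.M, ∃ κ ∈ KK D e, n = e l * κ :=
  let ⟨l, hl, hk⟩ := h; ⟨l, hl, _, hk, by simp⟩
theorem inn_mul_iff {n n' : G} (h : Commute n (e D.t)) (h' : Commute n' (e D.t)) :
    Inn D e (n * n') ↔ (Inn D e n ↔ Inn D e n') := by
  obtain ⟨c, hc⟩ := S.lift n h
  obtain ⟨c', hc'⟩ := S.lift n' h'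
  rw [S.inn_iff (S.lf_mul hc hc'), S.inn_iff hc, S.inn_iff hc', S.mul_M]
theorem inn_mul {n n' : G} (h : Inn D e n) (h' : Inn D e n') : Inn D e (n * n') :=
  (S.inn_mul_iff (S.inn_t h) (S.inn_t h')).2 (iff_of_true h h')
theorem inn_inv_iff {n : G} (h : Commute n (e D.t)) : Inn D e n⁻¹ ↔ Inn D e n := by
  obtain ⟨c, hc⟩ := S.lift n h
  rw [S.inn_iff (S.lf_inv hc), S.inn_iff hc, inv_mem_iff]
theorem inn_sq {n : G} (h : Commute n (e D.t)) : Inn D e (n * n) := (S.inn_mul_iff h h).2 Iff.rfl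
/-- centralisers of involutions of `K` -/
theorem cent_le {u c : G} (hu : u ∈ KK D e) (h2 : u * u = 1) (h1 : u ≠ 1) (h : Commute c u) :
    Commute c (e D.t) := S.ti c u hu (by rwa [h.eq, mul_inv_cancel_right]) h2 h1
/-- centralisers of involutions of `K^g` -/
theorem cent_le' {g u c : G} (hu : g⁻¹ * u * g ∈ KK D e) (h2 : u * u = 1) (h1 : u ≠ 1)
    (h : Commute c u) : Commute c (g * e D.t * g⁻¹) := by
  have := comm_conj (S.cent_le hu (by
    rw [show g⁻¹ * u * g * (g⁻¹ * u * g) = g⁻¹ * (u * u) * g by group, h2]; simp)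
    (fun e => h1 (by simpa [inv_mul_eq_iff_eq_mul, mul_inv_eq_iff_eq_mul, mul_assoc] using e))
    (by simpa using comm_conj h g⁻¹ : Commute (g⁻¹ * c * g) _)) g
  simpa [mul_assoc] using this
/-- `K ∩ K^g` has no involution if `g ∉ N` -/
theorem eq_one_of_KK {g u : G} (hg : ¬ Commute g (e D.t)) (hu : u ∈ KK D e)
    (hu' : g⁻¹ * u * g ∈ KK D e) (h2 : u * u = 1) : u = 1 := by
  by_contra h1
  exact hg (by simpa using (S.ti g⁻¹ u hu (by simpa using hu') h2 h1).inv_left)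
theorem isConj_e {l m : P} (hl : l ∈ D.M) (hm : m ∈ D.M) : IsConj (e m) (e (l * m * l⁻¹)) :=
  isConj_iff.2 ⟨e l, (S.conj hl hm).symm⟩

end St

/-- `V = e(V₀)` -/
def VV (D : HSD P) (e : P → G) : Subgroup G := closure {e D.z, e (aa D), e (bb D)}
/-- `E = e(E₀)` -/
def EE (D : HSD P) (e : P → G) : Subgroup G := closure {e D.t, e D.z, e (aa D), e (bb D)}
/-- `H = N(E)` -/
abbrev HH (D : HSD P) (e : P → G) : Subgroup G := normalizer (EE D e : Set G)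

namespace Fr
variable {g : G} (F : Fr D e g)
include F

theorem gtz : g * (e D.t * e D.z) * g⁻¹ = e D.t := by
  rw [← conj_mul, F.gt, F.gz.eq, mul_inv_cancel_right, mul_assoc, F.toSt.zz, mul_one]
theorem gt' : g⁻¹ * e D.t * g = e D.t * e D.z := by
  conv_lhs => rw [← F.gtz]
  group
theorem gg : Commute (g * g) (e D.t) := by
  have : g * g * e D.t * (g * g)⁻¹ = e D.t := by
    conv_rhs => rw [← F.gtz, ← F.gt]
    group
  exact mul_inv_eq_iff_eq_mul.1 this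
theorem not_comm : ¬ Commute g (e D.t) := fun h => by
  have := F.gt
  rw [h.eq, mul_inv_cancel_right] at this
  exact F.toSt.z_ne (left_eq_mul.1 this)
theorem tu : IsConj (e D.t) (e D.t * e D.z) := isConj_iff.2 ⟨g, F.gt⟩
theorem K_iff {x : G} : g * x * g⁻¹ ∈ KK D e ↔ g⁻¹ * x * g ∈ KK D e := by
  rw [← F.toSt.conj_K_iff F.gg (κ := g⁻¹ * x * g)]
  exact iff_of_eq (by congr 1; group)
theorem gX' {m : P} (hm : m ∈ D.M) (h : Commute m (yy D)) : ∃ m' ∈ D.M, g⁻¹ * e m * g = e m' := by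
  obtain ⟨m', hm', e1⟩ := F.gX m hm h
  obtain ⟨m'', hm'', e2⟩ := F.toSt.conj_L F.gg.inv_left hm'
  exact ⟨m'', hm'', by rw [← e2, ← e1]; group⟩
theorem inv : Fr D e g⁻¹ :=
  ⟨F.toSt, F.nz, by simpa using F.gt', F.gz.inv_left, fun m hm h => by simpa using F.gX' hm h⟩
theorem s_K : g⁻¹ * (e D.t * e D.z) * g ∈ KK D e := by
  rw [← F.gt]; simpa [mul_assoc] using F.toSt.t_K
theorem t_not_O : e D.t ∉ OO D e g := fun h =>
  F.toSt.t_ne (F.toSt.eq_one_of_KK F.not_comm h.1 (mem_OO.1 h).2 F.toSt.tt)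

end Fr

end Cfsg.Lib.HK
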