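import Cfsg.Agent.HK.Defs

/-!
The elementary abelian group `V = ⟨z, a, b⟩` of order eight: its elements and automorphisms.
-/

set_option autoImplicit false

namespace Cfsg.Lib.HK

open Subgroup Cfsg.Lib.HN

section
variable {G : Type*} [Group G] {z a b : G}

theorem Ind.pw_comm {x y : G} (h : Commute x y) (s u : Bool) : Commute (pw x s) (pw y u) := by
  cases s <;> cases u <;> simp [h]

theorem Ind.vv_mul (hz : z * z = 1) (ha : a * a = 1) (hb : b * b = 1) (za : Commute z a)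
    (zb : Commute z b) (ab : Commute a b) (j l : ℕ) :
    vv z a b j * vv z a b l = vv z a b (j ^^^ l) := by
  simp only [vv, Nat.testBit_xor]
  rw [← pw_mul_pw hz, ← pw_mul_pw ha, ← pw_mul_pw hb]
  have h1 := (Ind.pw_comm za (l.testBit 0) (j.testBit 1)).eq
  have h2 := (Ind.pw_comm zb (l.testBit 0) (j.testBit 2)).eq
  have h3 := (Ind.pw_comm ab (l.testBit 1) (j.testBit 2)).eq
  generalize pw z (j.testBit 0) = z1 at *
  generalize pw z (l.testBit 0) = z2 at *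
  generalize pw a (j.testBit 1) = a1 at *
  generalize pw a (l.testBit 1) = a2 at *
  generalize pw b (j.testBit 2) = b1 at *
  generalize pw b (l.testBit 2) = b2 at *
  calc z1 * a1 * b1 * (z2 * a2 * b2) = z1 * a1 * (b1 * z2) * a2 * b2 := by group
    _ = z1 * (a1 * z2) * (b1 * a2) * b2 := by rw [← h2]; group
    _ = z1 * z2 * (a1 * a2) * (b1 * b2) := by rw [← h1, ← h3]; group

theorem Ind.vv_zero : vv z a b 0 = 1 := by simp [vv]
theorem Ind.vv_one : vv z a b 1 = z := by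
  simp [vv, show Nat.testBit 1 1 = false from rfl, show Nat.testBit 1 2 = false from rfl]
theorem Ind.vv_two : vv z a b 2 = a := by
  simp [vv, show Nat.testBit 2 1 = true from rfl, show Nat.testBit 2 2 = false from rfl]
theorem Ind.vv_three : vv z a b 3 = z * a := by
  simp [vv, show Nat.testBit 3 1 = true from rfl, show Nat.testBit 3 2 = false from rfl]
theorem Ind.vv_four : vv z a b 4 = b := by
  simp [vv, show Nat.testBit 4 1 = false from rfl, show Nat.testBit 4 2 = true from rfl]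
theorem Ind.vv_five : vv z a b 5 = z * b := by
  simp [vv, show Nat.testBit 5 1 = false from rfl, show Nat.testBit 5 2 = true from rfl]
theorem Ind.vv_six : vv z a b 6 = a * b := by
  simp [vv, show Nat.testBit 6 1 = true from rfl, show Nat.testBit 6 2 = true from rfl]
theorem Ind.vv_seven : vv z a b 7 = z * a * b := by
  simp [vv, show Nat.testBit 7 1 = true from rfl, show Nat.testBit 7 2 = true from rfl]

theorem Ind.pw_mem {S : Subgroup G} {x : G} (h : x ∈ S) (s : Bool) : pw x s ∈ S := by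
  cases s <;> simp [h]

end

theorem mem_closure_vv {G : Type*} [Group G] {z a b x : G} (hz : z * z = 1) (ha : a * a = 1)
    (hb : b * b = 1) (za : Commute z a) (zb : Commute z b) (ab : Commute a b) :
    x ∈ closure {z, a, b} ↔ ∃ j < 8, x = vv z a b j := by
  constructor
  · intro h
    induction h using closure_induction with
    | mem x hx =>
      rcases hx with rfl | rfl | rfl
      · exact ⟨1, by decide, Ind.vv_one.symm⟩
      · exact ⟨2, by decide, Ind.vv_two.symm⟩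
      · exact ⟨4, by decide, Ind.vv_four.symm⟩
    | one => exact ⟨0, by decide, Ind.vv_zero.symm⟩
    | mul x y _ _ hx hy =>
      obtain ⟨j, hj, rfl⟩ := hx
      obtain ⟨l, hl, rfl⟩ := hy
      exact ⟨j ^^^ l, Nat.xor_lt_two_pow (n := 3) hj hl, Ind.vv_mul hz ha hb za zb ab j l⟩
    | inv x _ hx =>
      obtain ⟨j, hj, rfl⟩ := hx
      refine ⟨j, hj, inv_eq_of_mul_eq_one_right ?_⟩
      rw [Ind.vv_mul hz ha hb za zb ab, Nat.xor_self, Ind.vv_zero]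
  · rintro ⟨j, -, rfl⟩
    exact mul_mem (mul_mem (Ind.pw_mem (subset_closure (by simp)) _)
      (Ind.pw_mem (subset_closure (by simp)) _)) (Ind.pw_mem (subset_closure (by simp)) _)

/-- the linear map on codes with the images `t` of `1, 2, 4` -/
def Ind.lin (t : ℕ × ℕ × ℕ) (j : ℕ) : ℕ :=
  cond (j.testBit 0) t.1 0 ^^^ cond (j.testBit 1) t.2.1 0 ^^^ cond (j.testBit 2) t.2.2 0

/-- the images of `1, 2, 4` under the letters -/
def Ind.let (l : ℕ) : ℕ × ℕ × ℕ := if l = 0 then (2, 4, 3) else if l = 1 then (1, 4, 6) else (1, 4, 2)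

/-- the images of `1, 2, 4` under a word -/
def Ind.app : List ℕ → ℕ × ℕ × ℕ
  | [] => (1, 2, 4)
  | l :: w => (Ind.lin (Ind.let l) (Ind.app w).1, Ind.lin (Ind.let l) (Ind.app w).2.1,
      Ind.lin (Ind.let l) (Ind.app w).2.2)

/-- words for the elements of `GL₃(2)` -/
def Ind.W : List (List ℕ) :=
  [[], [0], [1], [2], [0,0], [1,0], [2,0], [0,1], [1,1], [2,1], [0,2], [1,2], [0,0,0], [1,0,0],
   [2,0,0], [0,1,0], [1,1,0], [2,1,0], [0,2,0], [1,2,0], [1,0,1], [2,0,1], [0,1,1], [0,2,1],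
   [0,0,2], [1,0,2], [2,0,2], [0,1,2], [0,0,0,0], [1,0,0,0], [2,0,0,0], [0,1,0,0], [2,1,0,0],
   [0,2,0,0], [1,2,0,0], [1,0,1,0], [2,0,1,0], [0,1,1,0], [0,2,1,0], [0,0,2,0], [1,0,2,0],
   [2,0,2,0], [0,1,2,0], [0,1,0,1], [2,1,0,1], [0,2,0,1], [1,2,0,1], [0,0,2,1], [2,0,2,1],
   [0,0,0,2], [1,0,0,2], [2,0,0,2], [0,1,0,2], [1,1,0,2], [2,1,0,2], [0,2,0,2], [1,2,0,2],
   [2,0,1,2], [0,0,0,0,0], [2,1,0,0,0], [0,2,0,0,0], [1,2,0,0,0], [2,0,1,0,0], [0,2,1,0,0],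
   [0,0,2,0,0], [1,0,2,0,0], [2,0,2,0,0], [0,1,2,0,0], [2,1,0,1,0], [0,2,0,1,0], [1,2,0,1,0],
   [0,0,2,1,0], [2,0,2,1,0], [0,0,0,2,0], [1,0,0,2,0], [2,0,0,2,0], [0,1,0,2,0], [1,1,0,2,0],
   [2,1,0,2,0], [1,2,0,2,0], [2,0,1,2,0], [1,0,1,0,1], [2,0,1,0,1], [0,2,1,0,1], [0,0,2,0,1],
   [1,0,2,0,1], [2,0,2,0,1], [0,1,2,0,1], [1,0,0,2,1], [2,0,0,2,1], [1,2,0,2,1], [1,0,0,0,2],
   [2,0,0,0,2], [0,2,0,0,2], [0,1,1,0,2], [0,2,1,0,2], [0,0,2,0,2], [1,2,0,1,2], [0,2,1,0,0,0],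
   [0,0,2,0,0,0], [1,0,2,0,0,0], [2,0,2,0,0,0], [0,1,2,0,0,0], [0,2,0,1,0,0], [2,0,2,1,0,0],
   [0,0,0,2,0,0], [1,0,0,2,0,0], [2,0,0,2,0,0], [0,1,0,2,0,0], [1,1,0,2,0,0], [2,1,0,2,0,0],
   [1,2,0,2,0,0], [0,2,1,0,1,0], [0,0,2,0,1,0], [1,0,2,0,1,0], [2,0,2,0,1,0], [0,1,2,0,1,0],
   [1,0,0,2,1,0], [2,0,0,2,1,0], [1,2,0,2,1,0], [1,0,0,0,2,0], [2,0,0,0,2,0], [0,2,0,0,2,0],
   [0,1,1,0,2,0], [1,2,0,1,2,0], [0,2,0,1,0,1], [0,0,2,1,0,1], [2,0,2,1,0,1], [0,0,0,2,0,1],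
   [1,0,0,2,0,1], [0,1,0,2,0,1], [1,2,0,2,0,1], [2,0,1,2,0,1], [0,2,0,0,2,1], [0,2,0,0,0,2],
   [1,2,0,0,0,2], [0,0,2,0,0,2], [2,0,2,0,0,2], [2,0,2,1,0,2], [0,0,0,2,0,2], [1,0,0,2,0,2],
   [2,0,0,2,0,2], [2,0,2,1,0,0,0], [0,0,0,2,0,0,0], [2,0,0,2,0,0,0], [1,1,0,2,0,0,0],
   [1,2,0,2,0,0,0], [0,0,2,0,1,0,0], [2,0,2,0,1,0,0], [1,2,0,2,1,0,0], [0,2,0,0,2,0,0],
   [0,1,1,0,2,0,0], [0,0,2,1,0,1,0], [2,0,2,1,0,1,0], [0,0,0,2,0,1,0], [1,2,0,2,0,1,0],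
   [2,0,1,2,0,1,0], [0,2,0,0,2,1,0], [0,2,0,0,0,2,0], [1,2,0,0,0,2,0], [0,0,2,0,0,2,0],
   [2,0,2,0,1,0,1], [1,0,0,2,1,0,1], [2,0,2,0,0,2,1], [0,1,2,0,0,0,2], [1,0,0,0,2,0,2],
   [1,0,0,2,1,0,1,0], [2,0,2,0,0,2,1,0]]

set_option synthInstance.maxSize 1000 in
theorem Ind.tab : ∀ p < 8, ∀ q < 8, ∀ r < 8, (∀ j < 8, Ind.lin (p, q, r) j = 0 → j = 0) →
    (p, q, r) ∈ Ind.W.map Ind.app := by decide +kernel

section
variable {G : Type*} [Group G] {z a b : G}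

theorem Ind.conj_vv (hz : z * z = 1) (ha : a * a = 1) (hb : b * b = 1) (za : Commute z a)
    (zb : Commute z b) (ab : Commute a b) {n : G} {t : ℕ × ℕ × ℕ}
    (h1 : n * z * n⁻¹ = vv z a b t.1) (h2 : n * a * n⁻¹ = vv z a b t.2.1)
    (h3 : n * b * n⁻¹ = vv z a b t.2.2) (j : ℕ) :
    n * vv z a b j * n⁻¹ = vv z a b (Ind.lin t j) := by
  have e : ∀ (x : G) (m : ℕ) (s : Bool), n * x * n⁻¹ = vv z a b m →
      n * pw x s * n⁻¹ = vv z a b (cond s m 0) := by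
    intro x m s h
    cases s
    · simp [Ind.vv_zero]
    · simpa using h
  rw [Ind.lin, ← Ind.vv_mul hz ha hb za zb ab, ← Ind.vv_mul hz ha hb za zb ab, ← e _ _ _ h1,
    ← e _ _ _ h2, ← e _ _ _ h3, vv]
  group

end

/-- every automorphism of `V = ⟨z, a, b⟩` is induced by `⟨f, g, i⟩` -/
theorem ind {G : Type*} [Group G] {z a b f g i n : G} (hz : z * z = 1) (ha : a * a = 1)
    (hb : b * b = 1) (za : Commute z a) (zb : Commute z b) (ab : Commute a b)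
    (hV : ∀ j < 8, vv z a b j = 1 → j = 0)
    (f1 : f * z * f⁻¹ = a) (f2 : f * a * f⁻¹ = b) (f3 : f * b * f⁻¹ = z * a)
    (g1 : g * z * g⁻¹ = z) (g2 : g * a * g⁻¹ = b) (g3 : g * b * g⁻¹ = a * b)
    (i1 : i * z * i⁻¹ = z) (i2 : i * a * i⁻¹ = b) (i3 : i * b * i⁻¹ = a)
    (hn : ∀ x ∈ closure {z, a, b}, n * x * n⁻¹ ∈ closure {z, a, b}) :
    ∃ l ∈ closure {f, g, i}, l * z * l⁻¹ = n * z * n⁻¹ ∧ l * a * l⁻¹ = n * a * n⁻¹ ∧
      l * b * l⁻¹ = n * b * n⁻¹ := by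
  have key : ∀ w : List ℕ, ∃ l ∈ closure {f, g, i}, l * z * l⁻¹ = vv z a b (Ind.app w).1 ∧
      l * a * l⁻¹ = vv z a b (Ind.app w).2.1 ∧ l * b * l⁻¹ = vv z a b (Ind.app w).2.2 := by
    intro w
    induction w with
    | nil => exact ⟨1, one_mem _, by simp [Ind.app, Ind.vv_one, Ind.vv_two, Ind.vv_four]⟩
    | cons m w ih =>
      obtain ⟨l, hl, e1, e2, e3⟩ := ih
      have : ∃ x ∈ closure {f, g, i}, ∀ j, x * vv z a b j * x⁻¹ = vv z a b (Ind.lin (Ind.let m) j) := by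
        unfold Ind.let
        split_ifs
        · exact ⟨f, subset_closure (by simp), Ind.conj_vv hz ha hb za zb ab
            (by rw [f1, Ind.vv_two]) (by rw [f2, Ind.vv_four]) (by rw [f3, Ind.vv_three])⟩
        · exact ⟨g, subset_closure (by simp), Ind.conj_vv hz ha hb za zb ab
            (by rw [g1, Ind.vv_one]) (by rw [g2, Ind.vv_four]) (by rw [g3, Ind.vv_six])⟩
        · exact ⟨i, subset_closure (by simp), Ind.conj_vv hz ha hb za zb ab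
            (by rw [i1, Ind.vv_one]) (by rw [i2, Ind.vv_four]) (by rw [i3, Ind.vv_two])⟩
      obtain ⟨x, hx, e⟩ := this
      refine ⟨x * l, mul_mem hx hl, ?_, ?_, ?_⟩
      · simp only [Ind.app]; rw [← e, ← e1]; group
      · simp only [Ind.app]; rw [← e, ← e2]; group
      · simp only [Ind.app]; rw [← e, ← e3]; group
  obtain ⟨p, hp, e1⟩ := (mem_closure_vv hz ha hb za zb ab).1 (hn z (subset_closure (by simp)))
  obtain ⟨q, hq, e2⟩ := (mem_closure_vv hz ha hb za zb ab).1 (hn a (subset_closure (by simp)))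
  obtain ⟨r, hr, e3⟩ := (mem_closure_vv hz ha hb za zb ab).1 (hn b (subset_closure (by simp)))
  have hm := Ind.tab p hp q hq r hr (fun j hj h0 => by
    have := Ind.conj_vv hz ha hb za zb ab (t := (p, q, r)) e1 e2 e3 j
    rw [h0, Ind.vv_zero] at this
    exact hV j hj (by simpa using this))
  obtain ⟨w, -, hw⟩ := List.mem_map.1 hm
  obtain ⟨l, hl, d1, d2, d3⟩ := key w
  rw [hw] at d1 d2 d3
  exact ⟨l, hl, d1.trans e1.symm, d2.trans e2.symm, d3.trans e3.symm⟩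

end Cfsg.Lib.HK
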