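import Cfsg.Agent.HK.Defs

/-! Standard subgroups `L ≅ 2.HS`: facts on the centraliser of `z` in `2.HS.2`. -/

set_option autoImplicit false
set_option maxRecDepth 100000

namespace Cfsg.Lib.HK

open Subgroup Cfsg.Lib.HN

theorem ModA.span_fact : ∀ c < 128, BB c 78 = false →
    ∃ a ∈ [0, 6, 8, 14, 18, 20, 26, 28, 34, 36, 42, 44, 48, 54, 56, 62],
    ∃ d ∈ [0, 6, 8, 14, 18, 20, 26, 28, 34, 36, 42, 44, 48, 54, 56, 62],
      c = lin tS2 (lin tF a ^^^ a) ^^^ (lin tF d ^^^ d) := by decide +kernel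
theorem ModA.span_ok : ∀ a ∈ [0, 6, 8, 14, 18, 20, 26, 28, 34, 36, 42, 44, 48, 54, 56, 62],
    a < 128 ∧ BB a 78 = false ∧ lin tF a < 128 ∧ lin tF a ^^^ a < 128 ∧
      lin tS2 (lin tF a ^^^ a) < 128 := by decide +kernel
theorem ModA.sq_fact : ∀ c < 128, BB c 78 = false → qq c = true →
    ∃ k < 3, c ^^^ sk k c ≠ 0 ∧ c ^^^ sk k c < 128 ∧ qq (c ^^^ sk k c) = false := by
  decide +kernel
theorem ModA.rigid_fact : ∀ k < 120,
    (∀ c ∈ [8, 64, 6, 18, 34], sk k c ^^^ c = 0 ∨ sk k c ^^^ c = 1) → k = 0 := by decide +kernel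
theorem ModA.basis_ok : ∀ c ∈ [8, 64, 6, 18, 34], c < 128 ∧ BB c 78 = false := by decide
theorem ModA.rad_fact : ∀ r < 128, (∀ c ∈ [8, 64, 6, 18, 34], BB r c = false) →
    r = 0 ∨ r = 1 ∨ r = 78 ∨ r = 79 := by decide +kernel
theorem ModA.fix_fact : ∀ r < 128, lin tF r = r → qq r = true → BB r 78 = false →
    r = 78 ∨ r = 79 := by decide +kernel
theorem ModA.four_fact : ∀ k < 120, (∀ p < 7, sk k (sk k (sk k (sk k (2 ^ p)))) = 2 ^ p) →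
    (∀ p < 7, sk k (sk k (2 ^ p)) = 2 ^ p) ∨ sk k 78 = 79 := by decide +kernel
theorem ModA.xor_lt {c d : ℕ} (hc : c < 128) (hd : d < 128) : c ^^^ d < 128 :=
  Nat.xor_lt_two_pow (n := 7) hc hd

section
variable {P : Type*} [Group P] {D : HSD P}

theorem yy_M : yy D ∈ D.M := (D.el_M rfl).2 (by decide)
theorem yy_sq : yy D * yy D = D.z := D.rel.el_sq (Ok.of_lt (by omega))
theorem yy_f : Commute D.f (yy D) := (Tw.f_comm (by omega) (by decide)).symm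

theorem ModA.yy_z : Commute (yy D) D.z := D.rel.el_z 78
theorem ModA.yy_t : Commute (yy D) D.t := D.cent _ (D.M_le yy_M)
theorem ModA.yt : yy D * D.t = D.el 79 := by
  rw [ModA.yy_t.eq, D.t_el]; rfl
theorem ModA.ytz : yy D * D.t * D.z = D.el 335 := by
  rw [ModA.yt]; exact (el_xor_zb D.zz 79 true).symm

theorem s2_yy : D.s2 * yy D * D.s2⁻¹ = yy D * D.t * D.z := by
  rw [ModA.ytz, D.s2_el rfl]; rfl

theorem InR0.mem {r : P} (h : InR0 D r) : r ∈ D.M ∧ Commute r D.z ∧ Commute r (yy D) := by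
  obtain ⟨c, -, hb, hB, rfl⟩ := h
  exact ⟨(D.el_M hb).2 hB, D.rel.el_z c,
    (D.rel.commute_iff (Or.inr hb) (Ok.of_lt (by omega))).2 hB⟩

theorem inR0_of {r : P} (h : D.InR r) (hM : r ∈ D.M) : InR0 D r := by
  obtain ⟨c, hc, hb, rfl⟩ := h
  exact ⟨c, hc, hb, (D.el_M hb).1 hM, rfl⟩

theorem ModA.inR0_el {c : ℕ} (hc : c < 128) (hB : BB c 78 = false) : InR0 D (D.el c) :=
  ⟨c, by omega, bit_of_lt hc, hB, rfl⟩

theorem ModA.tz_sq : D.t * D.z * (D.t * D.z) = 1 := by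
  rw [D.tz.symm.mul_mul_mul_comm, D.tt, D.zz, one_mul]

theorem ModA.tz_ne : D.t * D.z ≠ 1 := fun h =>
  D.rel.tz (by rw [← mul_one (D.g 0), ← D.zz, ← mul_assoc, h, one_mul])

theorem ModA.y_ne : yy D ≠ yy D * D.t * D.z := fun h =>
  ModA.tz_ne (by rw [mul_assoc] at h; exact left_eq_mul.1 h)

/-- conjugation of a product with an element of `⟨t, z⟩` -/
theorem ModA.conj_mul {l a x : P} (h : Commute l a) : l * (x * a) * l⁻¹ = l * x * l⁻¹ * a := by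
  rw [mul_assoc _ l⁻¹, h.inv_left.eq]; group

theorem ModA.conj_ytz {l : P} (hl : l ∈ D.C) (hz : Commute l D.z) (x : P) :
    l * (x * D.t * D.z) * l⁻¹ = l * x * l⁻¹ * D.t * D.z := by
  rw [ModA.conj_mul hz, ModA.conj_mul (D.cent l hl)]

theorem ModA.tztz (x : P) : x * D.t * D.z * D.t * D.z = x := by
  rw [mul_assoc x, mul_assoc, mul_assoc, ModA.tz_sq, mul_one]

theorem ModA.f_yy : D.f * yy D * D.f⁻¹ = yy D := by rw [yy_f.eq, mul_inv_cancel_right]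

theorem ModA.s2_ytz : D.s2 * (yy D * D.t * D.z) * D.s2⁻¹ = yy D := by
  rw [ModA.conj_ytz D.s2_CA.1 D.s2_z, s2_yy, ModA.tztz]

theorem ModA.f_ytz : D.f * (yy D * D.t * D.z) * D.f⁻¹ = yy D * D.t * D.z := by
  rw [ModA.conj_ytz D.f_CA.1 D.f_z, ModA.f_yy]

theorem ModA.conj_assoc (a b x : P) : a * b * x * (a * b)⁻¹ = a * (b * x * b⁻¹) * a⁻¹ := by group

/-- decomposition of the elements of `C_M(z)` -/
theorem ModA.dec {l : P} (hl : l ∈ D.M) (hz : Commute l D.z) :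
    ∃ k < 120, ∃ r, InR0 D r ∧ l = D.S k * r := by
  obtain ⟨k, hk, r, hr, hb, e⟩ := D.struct (D.mem_CA.2 ⟨D.M_le hl, hz⟩)
  refine ⟨k, hk, _, inR0_of ⟨r, hr, hb, rfl⟩ ?_, e⟩
  rwa [e, D.M.mul_mem_cancel_left (D.S_M k)] at hl

theorem ModA.wd_yy : ∀ w, wd D.f D.s2 w * yy D * (wd D.f D.s2 w)⁻¹ = yy D ∨
    wd D.f D.s2 w * yy D * (wd D.f D.s2 w)⁻¹ = yy D * D.t * D.z
  | [] => Or.inl (by simp [wd])
  | a :: w => by
    unfold wd
    rw [ModA.conj_assoc]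
    rcases ModA.wd_yy w with h | h <;> rw [h] <;> cases a == 0
    exacts [Or.inr s2_yy, Or.inl ModA.f_yy, Or.inl ModA.s2_ytz, Or.inr ModA.f_ytz]

/-- (m1) -/
theorem conj_yy {l : P} (hl : l ∈ D.M) (hz : Commute l D.z) :
    l * yy D * l⁻¹ = yy D ∨ l * yy D * l⁻¹ = yy D * D.t * D.z := by
  obtain ⟨k, -, r, hr, rfl⟩ := ModA.dec hl hz
  rw [ModA.conj_assoc, hr.mem.2.2.eq, mul_inv_cancel_right]
  exact ModA.wd_yy _

theorem ModA.Yq_dec {η : P} (h : Yq D η) : ∃ a, η = yy D * a ∧ Commute a D.t ∧ Commute a D.z ∧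
    ∀ l ∈ D.C, Commute l D.z → Commute l a := by
  rcases h with rfl | rfl | rfl | rfl
  · exact ⟨1, (mul_one _).symm, Commute.one_left _, Commute.one_left _,
      fun l _ _ => Commute.one_right l⟩
  · exact ⟨_, rfl, D.tz.symm, Commute.refl _, fun l _ h => h⟩
  · exact ⟨_, rfl, Commute.refl _, D.tz, fun l h _ => D.cent l h⟩
  · exact ⟨_, mul_assoc _ _ _, (Commute.refl _).mul_left D.tz.symm, D.tz.mul_left (Commute.refl _),
      fun l h h' => (D.cent l h).mul_right h'⟩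

theorem ModA.conj_Yq' {l η : P} (hl : l ∈ D.C) (hz : Commute l D.z) (h : Yq D η)
    (e : l * yy D * l⁻¹ = yy D * D.t * D.z) : l * η * l⁻¹ = η * D.t * D.z := by
  obtain ⟨a, rfl, h1, h2, h3⟩ := ModA.Yq_dec h
  rw [ModA.conj_mul (h3 l hl hz), e, mul_assoc _ D.z, ← h2.eq, ← mul_assoc, mul_assoc _ D.t,
    ← h1.eq, ← mul_assoc]

theorem conj_Yq {l η : P} (hl : l ∈ D.M) (hz : Commute l D.z) (h : Yq D η) :
    l * η * l⁻¹ = η ∨ l * η * l⁻¹ = η * D.t * D.z := by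
  rcases conj_yy hl hz with e | e
  · obtain ⟨a, rfl, -, -, h3⟩ := ModA.Yq_dec h
    exact Or.inl (by rw [ModA.conj_mul (h3 l (D.M_le hl) hz), e])
  · exact Or.inr (ModA.conj_Yq' (D.M_le hl) hz h e)

/-- the commutator of an element moving `c` to `d` with `el c` -/
theorem ModA.ez_comm {u : P} {c d : ℕ} (hc : c < 128) (hd : d < 128) (m : D.Mv u c d) :
    Ez D.z (u * D.el c * u⁻¹ * (D.el c)⁻¹) (D.el (d ^^^ c)) := by
  have e1 : Ez D.z (D.el c)⁻¹ (D.el c) := by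
    rw [D.rel.el_inv (Ok.of_lt hc), el_xor_zb D.zz]; exact Ez.mul_pw _ _ _
  exact (Ez.mul D.zz (D.rel.el_z c) m e1).trans D.zz (D.rel.ez_mul (Ok.of_lt hd) c)

theorem ModA.comm_mem {J : Subgroup P}
    (hJ : ∀ l ∈ D.M, Commute l D.z → ∀ x ∈ J, l * x * l⁻¹ ∈ J) {u r : P} (hu : u ∈ J)
    (hr : InR0 D r) : u * r * u⁻¹ * r⁻¹ ∈ J := by
  rw [show u * r * u⁻¹ * r⁻¹ = u * (r * u⁻¹ * r⁻¹) by group]
  exact J.mul_mem hu (hJ r hr.mem.1 hr.mem.2.1 _ (J.inv_mem hu))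

theorem ModA.mem_of_ez {J : Subgroup P} (hz : D.z ∈ J) {a b : P} (e : Ez D.z a b) :
    a ∈ J ↔ b ∈ J := by
  rcases ez_iff.1 e with rfl | rfl
  · rfl
  · exact J.mul_mem_cancel_right hz

theorem ModA.R0_le {J : Subgroup P} (hf : D.f ∈ J)
    (hJ : ∀ l ∈ D.M, Commute l D.z → ∀ x ∈ J, l * x * l⁻¹ ∈ J) {r : P} (hr : InR0 D r) :
    r ∈ J := by
  have k1 : ∀ a < 128, BB a 78 = false → lin tF a < 128 →
      ∃ x ∈ J, Ez D.z x (D.el (lin tF a ^^^ a)) := fun a ha hB hl =>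
    ⟨_, ModA.comm_mem hJ hf (ModA.inR0_el ha hB), ModA.ez_comm ha hl (D.f_mv (bit_of_lt ha))⟩
  have hz : D.z ∈ J := by
    obtain ⟨x, hx, e⟩ := k1 34 (by omega) (by decide) (by decide)
    have := D.rel.ez_sq (Ok.of_lt (by decide)) e
    exact (show x * x = D.z from this) ▸ J.mul_mem hx hx
  have k2 : ∀ a < 128, BB a 78 = false → lin tF a < 128 → D.el (lin tF a ^^^ a) ∈ J :=
    fun a ha hB hl => let ⟨_, hx, e⟩ := k1 a ha hB hl; (ModA.mem_of_ez hz e).1 hx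
  obtain ⟨c, -, hb, hB, rfl⟩ := hr
  rw [ModA.mem_of_ez hz (ez_mod D.g D.z c)]
  obtain ⟨a, ha, d, hd, e⟩ := ModA.span_fact _ (mod_lt_of_bit hb) (by
    rw [← hB, ← BB_mod c 78])
  obtain ⟨a1, a2, a3, a4, a5⟩ := ModA.span_ok a ha
  obtain ⟨d1, d2, d3, -⟩ := ModA.span_ok d hd
  rw [e, ← ModA.mem_of_ez hz (D.rel.ez_mul (Ok.of_lt a5) _)]
  refine J.mul_mem ?_ (k2 d d1 d2 d3)
  rw [← ModA.mem_of_ez hz (D.s2_mv (bit_of_lt a4))]
  exact hJ _ D.s2_M D.s2_z _ (k2 a a1 a2 a3)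

theorem ModA.wd_J {J : Subgroup P} (hf : D.f ∈ J)
    (hJ : ∀ l ∈ D.M, Commute l D.z → ∀ x ∈ J, l * x * l⁻¹ ∈ J) :
    ∀ w, (wd D.f D.s2 w * yy D * (wd D.f D.s2 w)⁻¹ = yy D ∧ wd D.f D.s2 w ∈ J) ∨
    (wd D.f D.s2 w * yy D * (wd D.f D.s2 w)⁻¹ = yy D * D.t * D.z ∧ wd D.f D.s2 w * D.s2 ∈ J)
  | [] => Or.inl ⟨by simp [wd], J.one_mem⟩
  | a :: w => by
    unfold wd
    rw [ModA.conj_assoc]
    rcases ModA.wd_J hf hJ w with ⟨h, h'⟩ | ⟨h, h'⟩ <;> rw [h] <;> cases a == 0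
    · refine Or.inr ⟨s2_yy, ?_⟩
      have := hJ _ D.s2_M D.s2_z _ h'
      rwa [inv_eq_of_mul_eq_one_right D.s2_sq] at this
    · exact Or.inl ⟨ModA.f_yy, J.mul_mem hf h'⟩
    · refine Or.inl ⟨ModA.s2_ytz, ?_⟩
      have := hJ _ D.s2_M D.s2_z _ h'
      rwa [← mul_assoc, mul_inv_cancel_right] at this
    · exact Or.inr ⟨ModA.f_ytz, by rw [cond_true, mul_assoc]; exact J.mul_mem hf h'⟩

/-- (m2) `X = C_M(y)` is the normal closure of `f` in `C_M(z)` -/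
theorem X_le {J : Subgroup P} (hf : D.f ∈ J)
    (hJ : ∀ l ∈ D.M, Commute l D.z → ∀ x ∈ J, l * x * l⁻¹ ∈ J) {l : P} (hl : l ∈ D.M)
    (hy : Commute l (yy D)) : l ∈ J := by
  obtain ⟨k, -, r, hr, rfl⟩ := ModA.dec hl (yy_sq (D := D) ▸ hy.mul_right hy)
  have e : D.S k * r * yy D * (D.S k * r)⁻¹ = yy D := by rw [hy.eq, mul_inv_cancel_right]
  rw [ModA.conj_assoc, hr.mem.2.2.eq, mul_inv_cancel_right] at e
  rcases ModA.wd_J hf hJ (WS.getD k []) with ⟨-, h⟩ | ⟨h, -⟩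
  · exact J.mul_mem h (ModA.R0_le hf hJ hr)
  · exact absurd (e.symm.trans h) ModA.y_ne

theorem ModA.ez_zero {a : P} (h : a = 1 ∨ a = D.z) : Ez D.z a (D.el 0) := by
  rw [HSD.el, el_zero]
  exact ez_iff.2 (h.imp id fun h => by rw [h, one_mul])

theorem ModA.ez_eq {a : P} {c d : ℕ} (hc : c < 128) (hd : d < 128) (e : Ez D.z a (D.el c))
    (e' : Ez D.z a (D.el d)) : c = d := by
  have := D.rel.el_ez_inj (Ok.of_lt hc) (Ok.of_lt hd) ((e.symm D.zz).trans D.zz e')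
  omega

/-- (m3) normal subgroups of `C_M(z)` with at most one involution -/
theorem small_normal {J : Subgroup P} {s : P} (hs : s = D.z ∨ s = D.t * D.z)
    (hM : ∀ x ∈ J, x ∈ D.M ∧ Commute x D.z)
    (hJ : ∀ l ∈ D.M, Commute l D.z → ∀ x ∈ J, l * x * l⁻¹ ∈ J)
    (h : ∀ u ∈ J, u * u = 1 → u = 1 ∨ u = s) : ∀ u ∈ J, u = 1 ∨ u = s := by
  have k1 : ∀ u ∈ J, D.InR u → u = 1 ∨ u = s := fun u hu hR => by
    obtain ⟨c, hc, e⟩ := hR.ez
    have e1 := D.rel.ez_sq (Ok.of_lt hc) e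
    cases hq : qq c
    · exact h u hu (by rw [e1, hq]; rfl)
    · rw [hq, pw_true] at e1
      have hz : D.z ∈ J := e1 ▸ J.mul_mem hu hu
      have sz : s = D.z := ((h _ hz D.zz).resolve_left D.rel.z1).symm
      have hc' : D.el c ∈ J := (ModA.mem_of_ez hz e).1 hu
      obtain ⟨k, hk, h1, h2, h3⟩ := ModA.sq_fact c hc ((D.el_M (bit_of_lt hc)).1 (hM _ hc').1) hq
      have e2 : Ez D.z (D.el c * (D.S k * D.el c * (D.S k)⁻¹)) (D.el (c ^^^ sk k c)) :=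
        (Ez.mul D.zz (D.rel.el_z _) (Ez.refl _ _) (D.S_mv (by omega) (bit_of_lt hc))).trans D.zz
          (D.rel.ez_mul (Ok.of_lt hc) _)
      have e3 := D.rel.ez_sq (Ok.of_lt h2) e2
      rw [h3, pw_false] at e3
      have := h _ (J.mul_mem hc' (hJ _ (D.S_M k) (D.S_z k) _ hc')) e3
      rw [sz] at this
      exact absurd (ModA.ez_eq h2 (by omega) e2 (ModA.ez_zero this)) h1
  intro u hu
  obtain ⟨k, hk, m, e⟩ := D.struct' (D.mem_CA.2 ⟨D.M_le (hM u hu).1, (hM u hu).2⟩)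
  refine k1 u hu (e (ModA.rigid_fact k hk fun c hc => ?_))
  obtain ⟨c1, c2⟩ := ModA.basis_ok c hc
  have s1 := HSD.sk_lt128 hk (bit_of_lt c1)
  have e2 := ModA.ez_comm c1 s1 (m c (bit_of_lt c1))
  have x1 := ModA.xor_lt s1 c1
  rcases k1 _ (ModA.comm_mem hJ hu (ModA.inR0_el c1 c2)) (D.inR_of_ez (bit_of_lt x1) e2) with
    e3 | e3
  · exact Or.inl (ModA.ez_eq x1 (by omega) e2 (ModA.ez_zero (Or.inl e3)))
  · rcases hs with rfl | rfl
    · exact Or.inl (ModA.ez_eq x1 (by omega) e2 (ModA.ez_zero (Or.inr e3)))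
    · refine Or.inr (ModA.ez_eq x1 (by omega) e2 ?_)
      rw [e3, HSD.el, el_one]
      exact ez_iff.2 (Or.inr rfl)

theorem ModA.Yq_of_ez {a : P} {c : ℕ} (hc : c = 78 ∨ c = 79) (e : Ez D.z a (D.el c)) : Yq D a := by
  rcases hc with rfl | rfl
  · exact (ez_iff.1 e).elim Or.inl fun e => Or.inr (Or.inl e)
  · rw [← ModA.yt] at e
    exact Or.inr (Or.inr (ez_iff.1 e))

/-- (m4) the centraliser of `X` -/
theorem cent_X {c : P} (hc : c ∈ D.C) (h : ∀ l ∈ D.M, Commute l (yy D) → Commute c l) :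
    c = 1 ∨ c = D.t ∨ c = D.z ∨ c = D.t * D.z ∨ Yq D c := by
  obtain ⟨k, hk, m, e⟩ := D.struct' (D.mem_CA.2 ⟨hc, h _ D.z_M ModA.yy_z.symm⟩)
  have cm : ∀ b ∈ [8, 64, 6, 18, 34], Commute c (D.el b) := fun b hb =>
    let h1 := (ModA.inR0_el (D := D) (ModA.basis_ok b hb).1 (ModA.basis_ok b hb).2).mem
    h _ h1.1 h1.2.2
  obtain ⟨r, hr, e⟩ := (e (sk_rigidM k hk fun b hb =>
    D.mv_eq (HSD.sk_lt128 hk (bit_of_lt (ModA.basis_ok b hb).1)) (ModA.basis_ok b hb).1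
      (m b (bit_of_lt (ModA.basis_ok b hb).1))
      (Ez.of_eq (by rw [(cm b hb).eq, mul_inv_cancel_right])))).ez
  have : ∀ b ∈ [8, 64, 6, 18, 34], BB r b = false := fun b hb => by
    have := D.rel.ez_comm (Ok.of_lt hr) (Ok.of_lt (ModA.basis_ok b hb).1) e (Ez.refl _ _)
    rw [(cm b hb).eq] at this
    exact D.rel.pw_eq_one (left_eq_mul.1 this)
  rcases ModA.rad_fact r hr this with rfl | rfl | h1
  · rw [el_zero] at e
    rcases ez_iff.1 e with e | e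
    · exact Or.inl e
    · exact Or.inr (Or.inr (Or.inl (by rw [e, one_mul])))
  · rw [el_one] at e
    rcases ez_iff.1 e with e | e
    · exact Or.inr (Or.inl e)
    · exact Or.inr (Or.inr (Or.inr (Or.inl e)))
  · exact Or.inr (Or.inr (Or.inr (Or.inr (ModA.Yq_of_ez h1 e))))

/-- (m4) the centraliser of `C_M(z)` -/
theorem cent_D {c : P} (hc : c ∈ D.C) (h : ∀ l ∈ D.M, Commute l D.z → Commute c l) :
    c = 1 ∨ c = D.t ∨ c = D.z ∨ c = D.t * D.z := by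
  rcases cent_X hc fun l hl hy => h l hl (yy_sq (D := D) ▸ hy.mul_right hy) with
    e | e | e | e | e
  · exact Or.inl e
  · exact Or.inr (Or.inl e)
  · exact Or.inr (Or.inr (Or.inl e))
  · exact Or.inr (Or.inr (Or.inr e))
  · have := ModA.conj_Yq' D.s2_CA.1 D.s2_z e s2_yy
    rw [← (h _ D.s2_M D.s2_z).eq, mul_inv_cancel_right, mul_assoc] at this
    exact absurd (left_eq_mul.1 this) ModA.tz_ne

/-- conjugation onto an element centralised by `s1` can be done in `M` -/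
theorem ModA.cj_M {u b : P} (h : Cj D.C u b) (hb : Commute D.s1 b) :
    ∃ l ∈ D.M, l * u * l⁻¹ = b := by
  obtain ⟨c, hc, e⟩ := h
  by_cases hM : c ∈ D.M
  · exact ⟨c, hM, e⟩
  · exact ⟨D.s1 * c, (D.mul_mem_M D.s1_mem hc).2 (iff_of_false D.s1_M hM), by
      rw [ModA.conj_assoc, e, hb.eq, mul_inv_cancel_right]⟩

theorem ModA.s1_tz : Commute D.s1 (D.t * D.z) := (D.cent _ D.s1_mem).mul_right D.s1_z

/-- (m12) the involutions of `M` -/
theorem classes_M {u : P} (hu : u ∈ D.M) (h : u * u = 1) : u = 1 ∨ u = D.t ∨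
    ∃ l ∈ D.M, l * u * l⁻¹ = D.z ∨ l * u * l⁻¹ = D.t * D.z := by
  rcases D.classes (D.M_le hu) h with e | e | e | e | e | e
  · exact Or.inl e
  · exact Or.inr (Or.inl e)
  · obtain ⟨l, hl, e⟩ := ModA.cj_M e ModA.s1_tz
    exact Or.inr (Or.inr ⟨l, hl, Or.inr e⟩)
  · obtain ⟨l, hl, e⟩ := ModA.cj_M e D.s1_z
    exact Or.inr (Or.inr ⟨l, hl, Or.inl e⟩)
  · exact absurd ((D.Cj_M (D.M_le hu) e).1 hu) D.v_M
  · exact absurd ((D.Cj_M (D.M_le hu) e).1 hu) D.w_M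

/-- (m13) -/
theorem Yq_of_sq {l : P} (hl : l ∈ D.M) (h : l * l = D.z) (hf : Commute l D.f) : Yq D l := by
  have hR := D.inR_of_sq (D.mem_CA.2 ⟨D.M_le hl, h ▸ (Commute.refl l).mul_right (Commute.refl l)⟩) h
  obtain ⟨r, hr, e⟩ := hR.ez
  have hB : BB r 78 = false :=
    (D.el_M (bit_of_lt hr)).1 ((ModA.mem_of_ez D.z_M e).1 hl)
  have hq : qq r = true := D.rel.pw_inj (((D.rel.ez_sq (Ok.of_lt hr) e).symm.trans h :
    pw D.z (qq r) = pw D.z true))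
  have m : D.Mv D.f r r := by
    have := (e.symm D.zz).conj D.f_z
    rw [← hf.eq, mul_inv_cancel_right] at this
    exact this.trans D.zz e
  exact ModA.Yq_of_ez (ModA.fix_fact r hr
    (D.mv_eq (tF_ok r hr).1 hr (D.f_mv (bit_of_lt hr)) m) hq hB) e

theorem ModA.conj_into8 {a : P} (ha : a ∈ D.C) (h : a ^ 8 = 1) :
    ∃ b ∈ D.C, b * a * b⁻¹ ∈ D.CA := by
  have : Fact (Nat.Prime 2) := ⟨Nat.prime_two⟩
  have hi : (D.CA.subgroupOf D.C).index = 5775 := by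
    have := (D.CA.subgroupOf D.C).card_mul_index
    rw [D.card_C, Nat.card_congr (subgroupOfEquivOfLe (H := D.CA) inf_le_left).toEquiv,
      D.card_CA] at this
    omega
  obtain ⟨b, hb⟩ := Cfsg.Lib.Char.exists_conj_mem_of_not_dvd_index (p := 2)
    (H := D.CA.subgroupOf D.C) (by rw [hi]; omega) (x := ⟨a, ha⟩) (k := 3) (Subtype.ext h)
  exact ⟨b, b.2, hb⟩

theorem ModA.order8_CA {c : P} (hc : c ∈ D.CA) (h : c ^ 4 = D.t) :
    Commute (yy D) (c * c) ∧ Ez D.z (yy D * c * (yy D)⁻¹ * c⁻¹) D.t := by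
  have h4 : c * c * (c * c) = D.t := by rw [← h]; simp [pow_succ, mul_assoc]
  obtain ⟨k, hk, m, -⟩ := D.struct' hc
  have cz := (D.mem_CA.1 hc).2
  have m2 : ∀ x, x.testBit 7 = false → D.Mv (c * c) x (sk k (sk k x)) := fun x hx =>
    D.rel.mv_mul cz (m _ hx) (m _ (HSD.bit_sk hk hx))
  rcases ModA.four_fact k hk (fun p hp => by
    have b1 := HSD.bit_pow hp
    have b2 := HSD.bit_sk hk (HSD.bit_sk hk b1)
    have := D.rel.mv_mul (cz.mul_left cz) (m2 _ b1) (m2 _ b2)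
    rw [h4, HSD.t, ← el_one D.g D.z] at this
    exact D.mv_eq (HSD.sk_lt128 hk (HSD.bit_sk hk b2)) (HSD.pow_lt128 hp) this
      (D.rel.mv_el (Ok.of_lt (by omega)) (Or.inr b1))) with h1 | h1
  · obtain ⟨r, -, hr, e⟩ := D.rigid (D.CA.mul_mem hc hc) fun p hp =>
      ⟨_, HSD.pow_lt128 hp, by simpa only [h1 p hp] using m2 _ (HSD.bit_pow hp), rfl⟩
    rw [e, D.rel.el_sq (Or.inr hr)] at h4
    exact absurd h4 (D.pw_ne_t _)
  · obtain ⟨s, e⟩ := h1 ▸ m 78 rfl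
    change c * yy D * c⁻¹ = D.el 79 * _ at e
    rw [← ModA.yt, mul_assoc (yy D)] at e
    have a1 : Commute c (D.t * pw D.z s) := (D.cent c hc.1).mul_right (Commute.pw_right cz s)
    have a2 : Commute (yy D) (D.t * pw D.z s) :=
      ModA.yy_t.mul_right (Commute.pw_right ModA.yy_z s)
    have a3 : D.t * pw D.z s * (D.t * pw D.z s) = 1 := by
      rw [(Commute.pw_right D.tz s).symm.mul_mul_mul_comm, D.tt, pw_mul_pw D.zz]; simp
    refine ⟨?_, s, ?_⟩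
    · have : c * c * yy D * (c * c)⁻¹ = yy D := by
        rw [ModA.conj_assoc, e, ModA.conj_mul a1, e, mul_assoc, a3, mul_one]
      exact (mul_inv_eq_iff_eq_mul.1 this).symm
    · rw [show yy D * c * (yy D)⁻¹ * c⁻¹ = yy D * (c * yy D * c⁻¹)⁻¹ by group, e, mul_inv_rev,
        inv_eq_of_mul_eq_one_right a3, ← mul_assoc, a2.eq, mul_inv_cancel_right]

/-- (m9) elements of order eight with fourth power `t` -/
theorem order8 {c : P} (hc : c ∈ D.C) (h : c ^ 4 = D.t) : ∃ y ∈ D.M, Commute y (c * c) ∧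
    (y * c * y⁻¹ * c⁻¹ = D.t ∨ ∃ l ∈ D.M, l * (y * c * y⁻¹ * c⁻¹) * l⁻¹ = D.t * D.z) := by
  obtain ⟨b, hb, hab⟩ := ModA.conj_into8 hc (by
    rw [show 8 = 4 + 4 from rfl, pow_add, h, D.tt])
  obtain ⟨h1, h2⟩ := ModA.order8_CA hab (by
    rw [conj_pow, h, (D.cent b hb).eq, mul_inv_cancel_right])
  have e : b * (b⁻¹ * yy D * b⁻¹⁻¹ * c * (b⁻¹ * yy D * b⁻¹⁻¹)⁻¹ * c⁻¹) * b⁻¹ =
      yy D * (b * c * b⁻¹) * (yy D)⁻¹ * (b * c * b⁻¹)⁻¹ := by group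
  refine ⟨b⁻¹ * yy D * b⁻¹⁻¹, (D.conj_mem_M (D.M_le yy_M) (D.C.inv_mem hb)).2 yy_M, ?_, ?_⟩
  · have := comm_conj h1 b⁻¹
    rwa [HSD.conj_sq, show b⁻¹ * (b * (c * c) * b⁻¹) * b⁻¹⁻¹ = c * c by group] at this
  · rw [← e] at h2
    rcases ez_iff.1 h2 with h2 | h2
    · rw [mul_inv_eq_iff_eq_mul, ← (D.cent b hb).eq] at h2
      exact Or.inl (mul_left_cancel h2)
    · exact Or.inr (ModA.cj_M ⟨b, hb, h2⟩ ModA.s1_tz)

theorem ModA.cj_outer {c x : P} (hc : c ∈ D.C) (hM : c ∉ D.M) (h : Cj D.C c x) :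
    ∃ l ∈ D.M, l * c * l⁻¹ = x := by
  obtain ⟨g, hg, e⟩ := h
  by_cases h' : g ∈ D.M
  · exact ⟨g, h', e⟩
  · exact ⟨g * c, (D.mul_mem_M hg hc).2 (iff_of_false h' hM), by rw [← e]; group⟩

/-- outer involutions -/
theorem outer_prod {c : P} (hc : c ∈ D.C) (hM : c ∉ D.M) (h : c * c = 1) :
    ∃ l₁ ∈ D.M, ∃ l₂ ∈ D.M, ∃ l₃ ∈ D.M, Commute (l₁ * c * l₁⁻¹) c ∧ Commute (l₂ * c * l₂⁻¹) c ∧
      Commute (l₃ * c * l₃⁻¹) c ∧ l₁ * c * l₁⁻¹ ≠ c ∧ l₂ * c * l₂⁻¹ ≠ c ∧ l₃ * c * l₃⁻¹ ≠ c ∧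
      l₁ * c * l₁⁻¹ * (l₂ * c * l₂⁻¹) * (l₃ * c * l₃⁻¹) = c := by
  have key : ∀ s a b d : ℕ, s < 128 → a < 128 → b < 128 → d < 128 → Cj D.C c (D.el s) →
      Cj D.C (D.el a) (D.el s) → Cj D.C (D.el b) (D.el s) → Cj D.C (D.el d) (D.el s) →
      BB a s = false → BB b s = false → BB d s = false → a ≠ s → b ≠ s → d ≠ s →
      mulc (mulc a b) d = s → ∃ l₁ ∈ D.M, ∃ l₂ ∈ D.M, ∃ l₃ ∈ D.M, Commute (l₁ * c * l₁⁻¹) c ∧
      Commute (l₂ * c * l₂⁻¹) c ∧ Commute (l₃ * c * l₃⁻¹) c ∧ l₁ * c * l₁⁻¹ ≠ c ∧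
      l₂ * c * l₂⁻¹ ≠ c ∧ l₃ * c * l₃⁻¹ ≠ c ∧
      l₁ * c * l₁⁻¹ * (l₂ * c * l₂⁻¹) * (l₃ * c * l₃⁻¹) = c := by
    intro s a b d hs ha hb hd h0 h1 h2 h3 b1 b2 b3 n1 n2 n3 e
    obtain ⟨g, hg, eg⟩ := h0.symm
    have k : ∀ x < 128, Cj D.C (D.el x) (D.el s) → BB x s = false → x ≠ s →
        ∃ l ∈ D.M, l * c * l⁻¹ = g * D.el x * g⁻¹ ∧ Commute (l * c * l⁻¹) c ∧ l * c * l⁻¹ ≠ c := by
      intro x hx c1 c2 c3
      obtain ⟨l, hl, el⟩ := ModA.cj_outer hc hM ((h0.trans c1.symm).trans (Cj.of_conj hg _))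
      refine ⟨l, hl, el, ?_, fun h' => ?_⟩
      · rw [el]
        conv_rhs => rw [← eg]
        exact comm_conj ((D.rel.commute_iff (Ok.of_lt hx) (Ok.of_lt hs)).2 c2) g
      · have := D.rel.el_inj (Ok.of_lt hx) (Ok.of_lt hs)
          ((MulAut.conj g).injective (el.symm.trans (h'.trans eg.symm)))
        omega
    obtain ⟨l1, m1, e1, c1, d1⟩ := k a ha h1 b1 n1
    obtain ⟨l2, m2, e2, c2, d2⟩ := k b hb h2 b2 n2
    obtain ⟨l3, m3, e3, c3, d3⟩ := k d hd h3 b3 n3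
    refine ⟨l1, m1, l2, m2, l3, m3, c1, c2, c3, d1, d2, d3, ?_⟩
    rw [e1, e2, e3, ← eg, ← e, HSD.el, HSD.el, HSD.el, HSD.el,
      ← D.rel.el_mul ((Ok.of_lt ha).mulc (Ok.of_lt hb)), ← D.rel.el_mul (Ok.of_lt ha)]
    group
  rcases D.classes hc h with e | e | e | e | e | e
  · exact absurd (e ▸ D.M.one_mem) hM
  · exact absurd (e ▸ D.t_M) hM
  · exact absurd ((D.Cj_M hc e).2 (D.M.mul_mem D.t_M D.z_M)) hM
  · exact absurd ((D.Cj_M hc e).2 D.z_M) hM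
  · exact key 2 16 17 3 (by omega) (by omega) (by omega) (by omega) (e.trans D.cj_v.symm)
      (D.cj_code (k := 17) 4 (by omega) (by omega) (by omega) (by omega) rfl rfl)
      (D.cj_code (k := 7) 4 (by omega) (by omega) (by omega) (by omega) rfl rfl)
      (D.cj_code (k := 2) 4 (by omega) (by omega) (by omega) (by omega) rfl rfl)
      rfl rfl rfl (by omega) (by omega) (by omega) rfl
  · exact key 4 12 13 5 (by omega) (by omega) (by omega) (by omega) e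
      (D.cj_code (k := 7) 2 (by omega) (by omega) (by omega) (by omega) rfl rfl)
      (D.cj_code (k := 15) 2 (by omega) (by omega) (by omega) (by omega) rfl rfl)
      (D.cj_code (k := 37) 2 (by omega) (by omega) (by omega) (by omega) rfl rfl)
      rfl rfl rfl (by omega) (by omega) (by omega) rfl

end

end Cfsg.Lib.HK
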