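import Cfsg.Agent.HK.Defs

/-! Standard subgroups `L ≅ 2.HS`: the subgroups `V₀`, `E₀`, `T₀` of the model. -/

set_option autoImplicit false
set_option maxRecDepth 100000
set_option synthInstance.maxSize 4000

namespace Cfsg.Lib.HK

open Subgroup Cfsg.Lib.HN
open scoped commutatorElement

namespace ModB

/-- exact action of a word on codes -/
def actW : List ℕ → ℕ → ℕ
  | [], c => c
  | a :: w, c => act (cond (a == 0) tF tS2) (actW w c)
/-- exact action of the `k`-th word -/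
def ak (k c : ℕ) : ℕ := actW (WS.getD k []) c
/-- the codes of `V₀` -/
def VL : List ℕ := [0, 256, 8, 264, 65, 321, 73, 329]
/-- codes of involutions of `R₀` conjugate to `z` -/
def good (c : ℕ) : Prop := qq c = false ∧ c ≠ 0 ∧ c ≠ 1 ∧ inL c = false ∧ BB c 78 = false

instance decGood : DecidablePred good := fun c => by unfold good; infer_instance

theorem act_lt : ∀ c < 512, c.testBit 7 = false → (act tF c < 512 ∧ (act tF c).testBit 7 = false) ∧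
    act tS2 c < 512 ∧ (act tS2 c).testBit 7 = false := by decide +kernel
theorem VL_ok : ∀ c ∈ VL, c < 512 ∧ c.testBit 7 = false ∧ BB c 78 = false ∧ qq c = false ∧
    ∀ d ∈ VL, mulc c d ∈ VL := by decide +kernel
theorem tab_E1 : ∀ k < 120,
    (∀ c ∈ [8, 64, 6, 18, 34], ∃ d ∈ VL, sk k c % 256 = (d ^^^ c) % 256) → k = 0 := by
  decide +kernel
theorem tab_E2 : ∀ r < 512, r.testBit 7 = false → BB r 78 = false → ∀ d ∈ VL,
    r % 512 = mulc d (ak 9 r) % 512 → r ∈ VL ∨ r ^^^ 1 ∈ VL := by decide +kernel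
theorem tab_y : ∀ k < 120, sk k 8 = 8 → sk k 65 = 65 → ak k 78 = 78 := by decide +kernel
theorem tab_prod : ∀ c < 512, c.testBit 7 = false → BB c 78 = false → qq c = true ∨ ∃ u < 128,
    BB u 78 = false ∧ qq u = true ∧ mulc (u ^^^ 256) c < 512 ∧
      (mulc (u ^^^ 256) c).testBit 7 = false ∧ BB (mulc (u ^^^ 256) c) 78 = false ∧
      qq (mulc (u ^^^ 256) c) = true ∧ mulc u (mulc (u ^^^ 256) c) = c := by decide +kernel
theorem tab_V : ∀ c < 128, good c → ∀ d < 128, good d → good (c ^^^ d) →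
    ∃ k < 120, sk k c ∈ VL ∧ sk k d ∈ VL := by decide +kernel
theorem tab_9 : ∀ p < 7, sk 9 (sk 9 (sk 9 (sk 9 (2 ^ p)))) = 2 ^ p := by decide +kernel
theorem tab_vv : ∀ j < 8,
    (mulc (mulc (cond (j.testBit 0) 256 0) (cond (j.testBit 1) 8 0)) (cond (j.testBit 2) 65 0) % 512
      = 0 → j = 0) ∧
    mulc (mulc (cond (j.testBit 0) 256 0) (cond (j.testBit 1) 8 0)) (cond (j.testBit 2) 65 0) % 512
      ≠ 1 := by decide +kernel

variable {P : Type*} [Group P] {D : HSD P}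

theorem wd_el {c : ℕ} (hc : c < 512) (hb : c.testBit 7 = false) : ∀ w : List ℕ,
    wd D.f D.s2 w * D.el c * (wd D.f D.s2 w)⁻¹ = D.el (actW w c) ∧ actW w c < 512 ∧
      (actW w c).testBit 7 = false
  | [] => ⟨by simp [wd, actW], hc, hb⟩
  | a :: w => by
    obtain ⟨e, h1, h2⟩ := wd_el hc hb w
    unfold wd actW
    cases a == 0
    · exact ⟨Eq.trans (by rw [cond_false, ← HSD.el, ← e]; group) (D.s2_el h2), (act_lt _ h1 h2).2⟩
    · exact ⟨Eq.trans (by rw [cond_true, ← HSD.el, ← e]; group) (D.f_el h2), (act_lt _ h1 h2).1⟩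

theorem S_el (k : ℕ) {c d : ℕ} (hc : c < 512 ∧ c.testBit 7 = false ∧ ak k c = d) :
    D.S k * D.el c * (D.S k)⁻¹ = D.el d := hc.2.2 ▸ (wd_el hc.1 hc.2.1 _).1

theorem mul_el {c d e : ℕ} (h : c.testBit 7 = false ∧ mulc c d = e) : D.el c * D.el d = D.el e :=
  h.2 ▸ D.rel.el_mul (Or.inr h.1) d

theorem ez : D.el 256 = D.z := el_256 _ _
theorem et : D.el 1 = D.t := el_one _ _
theorem ytz : yy D * D.t * D.z = D.el 335 := by
  rw [← ez, ← et, mul_el (e := 79) (by decide +kernel), mul_el (e := 335) (by decide +kernel)]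
theorem zaa : D.z * aa D = D.el 264 := by rw [← ez, mul_el (e := 264) (by decide +kernel)]
theorem aabb : aa D * bb D = D.el 73 := mul_el (by decide +kernel)

theorem z_V : D.z ∈ V0 D := subset_closure (by simp)
theorem a_V : aa D ∈ V0 D := subset_closure (by simp)
theorem b_V : bb D ∈ V0 D := subset_closure (by simp)

theorem mem_V {x : P} : x ∈ V0 D ↔ ∃ c ∈ VL, x = D.el c := by
  constructor
  · intro h
    induction h using closure_induction with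
    | mem x hx =>
      rcases hx with rfl | rfl | rfl
      exacts [⟨256, by decide, ez.symm⟩, ⟨8, by decide, rfl⟩, ⟨65, by decide, rfl⟩]
    | one => exact ⟨0, by decide, (el_zero _ _).symm⟩
    | mul x y _ _ hx hy =>
      obtain ⟨c, hc, rfl⟩ := hx
      obtain ⟨d, hd, rfl⟩ := hy
      exact ⟨_, (VL_ok c hc).2.2.2.2 d hd, mul_el ⟨(VL_ok c hc).2.1, rfl⟩⟩
    | inv x _ hx =>
      obtain ⟨c, hc, rfl⟩ := hx
      refine ⟨c, hc, inv_eq_of_mul_eq_one_right ?_⟩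
      rw [D.rel.el_sq (Or.inr (VL_ok c hc).2.1), (VL_ok c hc).2.2.2.1, pw_false]
  · rintro ⟨c, hc, rfl⟩
    have h1 : D.el 256 ∈ V0 D := ez (D := D) ▸ z_V
    have h2 : D.el 73 ∈ V0 D := aabb (D := D) ▸ mul_mem a_V b_V
    simp only [VL, List.mem_cons, List.not_mem_nil, or_false] at hc
    rcases hc with rfl | rfl | rfl | rfl | rfl | rfl | rfl | rfl
    · rw [HSD.el, el_zero]; exact one_mem _
    · exact h1
    · exact a_V
    · exact mul_el (D := D) (c := 256) (d := 8) (e := 264) (by decide +kernel) ▸ mul_mem h1 a_V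
    · exact b_V
    · exact mul_el (D := D) (c := 256) (d := 65) (e := 321) (by decide +kernel) ▸ mul_mem h1 b_V
    · exact h2
    · exact mul_el (D := D) (c := 256) (d := 73) (e := 329) (by decide +kernel) ▸ mul_mem h1 h2

theorem el_V {c : ℕ} (h : c ∈ VL) : D.el c ∈ V0 D := mem_V.2 ⟨c, h, rfl⟩

theorem ez_V {x : P} {c : ℕ} (h : c ∈ VL) (e : Ez D.z x (D.el c)) : x ∈ V0 D := by
  rcases ez_iff.1 e with rfl | rfl
  exacts [el_V h, mul_mem (el_V h) z_V]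

theorem conj_V {g : P} (h1 : g * D.z * g⁻¹ ∈ V0 D) (h2 : g * aa D * g⁻¹ ∈ V0 D)
    (h3 : g * bb D * g⁻¹ ∈ V0 D) : ∀ x ∈ V0 D, g * x * g⁻¹ ∈ V0 D :=
  (closure_le ((V0 D).comap (MulAut.conj g).toMonoidHom)).2 (by
    rintro _ (rfl | rfl | rfl)
    exacts [h1, h2, h3])

theorem inR0_iff {r : P} : InR0 D r ↔ D.InR r ∧ r ∈ D.M :=
  ⟨fun ⟨c, h1, h2, h3, e⟩ => ⟨⟨c, h1, h2, e⟩, e ▸ (D.el_M h2).2 h3⟩,
    fun ⟨⟨c, h1, h2, e⟩, h⟩ => ⟨c, h1, h2, (D.el_M h2).1 (e ▸ h), e⟩⟩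

theorem el_R0 {c : ℕ} (h : c < 512 ∧ c.testBit 7 = false ∧ BB c 78 = false) : InR0 D (D.el c) :=
  ⟨c, h.1, h.2.1, h.2.2, rfl⟩

theorem four {r : P} (h : D.InR r) : r ^ 2 ^ 2 = 1 := by
  obtain ⟨c, -, hc, rfl⟩ := h
  rw [show 2 ^ 2 = 2 * 2 from rfl, pow_mul, sq, sq, D.rel.el_sq (Or.inr hc), pw_mul_pw D.zz]
  simp

/-- the subgroup `R₀` -/
def R0 (D : HSD P) : Subgroup P where
  carrier := {r | D.InR r ∧ r ∈ D.M}
  one_mem' := ⟨D.inR_one, one_mem _⟩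
  mul_mem' := by
    rintro _ _ ⟨⟨c, -, hc, rfl⟩, h1⟩ ⟨⟨d, -, hd, rfl⟩, h2⟩
    exact ⟨D.rel.el_mul (Or.inr hc) d ▸ D.inR_el (HSD.bit_mulc hc hd), mul_mem h1 h2⟩
  inv_mem' := by
    rintro _ ⟨⟨c, -, hc, rfl⟩, h1⟩
    exact ⟨D.rel.el_inv (Or.inr hc) ▸ D.inR_el (by simp [hc, testBit_zb]), inv_mem h1⟩

theorem conj_R0 {a : P} (ha : a ∈ D.CA) {r : P} (h : r ∈ R0 D) : a * r * a⁻¹ ∈ R0 D := by
  obtain ⟨⟨c, -, hc, rfl⟩, h1⟩ := h
  obtain ⟨k, hk, m, -⟩ := D.struct' ha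
  exact ⟨D.inR_of_ez (HSD.bit_sk hk hc) (m c hc), (D.conj_mem_M (D.M_le h1) ha.1).2 h1⟩

theorem good_of {x : P} {c : ℕ} (hc : c < 128) (e : Ez D.z x (D.el c)) (hM : x ∈ D.M)
    (h : x * x = 1 ∧ x ≠ 1 ∧ x ≠ D.z ∧ x ≠ D.t ∧ ¬ Cj D.C x (D.t * D.z)) : good c := by
  have hq := D.rel.pw_eq_one ((D.rel.ez_sq (Ok.of_lt hc) e).symm.trans h.1)
  have h0 : c ≠ 0 := by
    rintro rfl
    rw [HSD.el, el_zero] at e
    rcases ez_iff.1 e with e | e
    · exact h.2.1 e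
    · exact h.2.2.1 (e.trans (one_mul _))
  have h1 : c ≠ 1 := by
    rintro rfl
    rw [et] at e
    rcases ez_iff.1 e with e | e
    · exact h.2.2.2.1 e
    · exact h.2.2.2.2 (e ▸ Cj.refl _ _)
  refine ⟨hq, h0, h1, ?_, (D.el_M (bit_of_lt hc)).1 ?_⟩
  · rcases D.class_R hc hq e with h2 | h2 | ⟨-, h2 | h2⟩ | ⟨h2, -⟩
    · exact absurd h2 h0
    · exact absurd h2 h1
    · exact absurd ((D.Cj_M (D.M_le hM) h2).1 hM) D.v_M
    · exact absurd h2 h.2.2.2.2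
    · exact h2
  · rcases ez_iff.1 e with rfl | rfl
    exacts [hM, (mul_mem_cancel_right D.z_M).1 hM]

end ModB

open ModB

variable {P : Type*} [Group P] {D : HSD P}

theorem aa_M : aa D ∈ D.M := (D.el_M rfl).2 (by decide +kernel)
theorem bb_M : bb D ∈ D.M := (D.el_M rfl).2 (by decide +kernel)
theorem aa_sq : aa D * aa D = 1 := (mul_el (e := 0) (by decide +kernel)).trans (el_zero _ _)
theorem bb_sq : bb D * bb D = 1 := (mul_el (e := 0) (by decide +kernel)).trans (el_zero _ _)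
theorem za : Commute D.z (aa D) := (D.rel.el_z _).symm
theorem zb : Commute D.z (bb D) := (D.rel.el_z _).symm
theorem ab : Commute (aa D) (bb D) :=
  (D.rel.commute_iff (Or.inr rfl) (Or.inr rfl)).2 (by decide +kernel)

theorem vv_inj : ∀ j < 8, (vv D.z (aa D) (bb D) j = 1 → j = 0) ∧ vv D.z (aa D) (bb D) j ≠ D.t := by
  intro j hj
  have h1 : ∀ c s, pw (D.el c) s = D.el (cond s c 0) := fun c s => by
    cases s
    · exact (el_zero _ _).symm
    · rfl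
  have h2 : ∀ c s, c.testBit 7 = false → (cond s c 0).testBit 7 = false := fun c s h => by
    cases s
    · exact Nat.zero_testBit 7
    · exact h
  have b1 := h2 256 (j.testBit 0) rfl
  have b2 := HSD.bit_mulc b1 (h2 8 (j.testBit 1) rfl)
  have b3 := HSD.bit_mulc b2 (h2 65 (j.testBit 2) rfl)
  rw [vv, ← ez, h1, h1, h1, mul_el ⟨b1, rfl⟩, mul_el ⟨b2, rfl⟩, ← et]
  exact ⟨fun e => (tab_vv j hj).1 (D.rel.el_eq_one (Or.inr b3) e),
    fun e => (tab_vv j hj).2 (D.rel.el_inj (Or.inr b3) (Or.inr rfl) e)⟩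

theorem V0_R0 {x : P} (h : x ∈ V0 D) : InR0 D x := by
  obtain ⟨c, hc, rfl⟩ := mem_V.1 h
  exact el_R0 ⟨(VL_ok c hc).1, (VL_ok c hc).2.1, (VL_ok c hc).2.2.1⟩

theorem mem_E0 {x : P} : x ∈ E0 D ↔ x ∈ V0 D ∨ D.t * x ∈ V0 D := by
  have hc : ∀ y ∈ V0 D, y * D.t = D.t * y := fun y hy =>
    D.cent y (D.M_le (inR0_iff.1 (V0_R0 hy)).2)
  have ht := D.tt
  constructor
  · intro h
    induction h using closure_induction with
    | mem x hx =>
      rcases hx with rfl | rfl | rfl | rfl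
      exacts [Or.inr (ht ▸ one_mem _), Or.inl z_V, Or.inl a_V, Or.inl b_V]
    | one => exact Or.inl (one_mem _)
    | mul x y _ _ hx hy =>
      rcases hx with hx | hx <;> rcases hy with hy | hy
      · exact Or.inl (mul_mem hx hy)
      · exact Or.inr (by rw [← mul_assoc, ← hc x hx, mul_assoc]; exact mul_mem hx hy)
      · exact Or.inr (by rw [← mul_assoc]; exact mul_mem hx hy)
      · have := mul_mem hx hy
        rw [← mul_assoc, hc _ hx, ← mul_assoc, ht, one_mul] at this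
        exact Or.inl this
    | inv x _ hx =>
      rcases hx with hx | hx
      · exact Or.inl (inv_mem hx)
      · have h1 := hc _ (inv_mem hx)
        have h2 : D.t * x⁻¹ = (D.t * x)⁻¹ := by
          calc _ = D.t * ((D.t * x)⁻¹ * D.t) := by group
            _ = _ := by rw [h1, ← mul_assoc, ht, one_mul]
        exact Or.inr (h2 ▸ inv_mem hx)
  · have h1 : V0 D ≤ E0 D := closure_mono (Set.subset_insert _ _)
    rintro (h | h)
    · exact h1 h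
    · exact (mul_mem_cancel_left (subset_closure (by simp))).1 (h1 h)

theorem g3_act : D.S 18 * aa D * (D.S 18)⁻¹ = bb D ∧ D.S 18 * bb D * (D.S 18)⁻¹ = aa D * bb D :=
  ⟨S_el 18 (by decide +kernel), aabb (D := D) ▸ S_el 18 (by decide +kernel)⟩
theorem i2_act : D.S 34 * aa D * (D.S 34)⁻¹ = bb D ∧ D.S 34 * bb D * (D.S 34)⁻¹ = aa D :=
  ⟨S_el 34 (by decide +kernel), S_el 34 (by decide +kernel)⟩
theorem S9_act : D.S 9 * aa D * (D.S 9)⁻¹ = D.z * aa D ∧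
    D.S 9 * bb D * (D.S 9)⁻¹ = aa D * bb D ∧
    D.S 9 * yy D * (D.S 9)⁻¹ = yy D * D.t * D.z :=
  ⟨zaa (D := D) ▸ S_el 9 (by decide +kernel), aabb (D := D) ▸ S_el 9 (by decide +kernel),
    ytz (D := D) ▸ S_el 9 (by decide +kernel)⟩

/-- the `2`-group `T₀ = R₀ ⟨S 9⟩` -/
theorem exists_T0 : ∃ T : Subgroup P, IsPGroup 2 T ∧ T ≤ D.M ∧ D.S 9 ∈ T ∧
    (∀ r, InR0 D r → r ∈ T) ∧ D.t ∈ ⁅T, T⁆ ∧ ∀ p ∈ T, ∀ x ∈ V0 D, p * x * p⁻¹ ∈ V0 D := by
  have h9 : D.S 9 ∈ R0 D ⊔ zpowers (D.S 9) := mem_sup_right (mem_zpowers _)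
  have hR : ∀ r, InR0 D r → r ∈ R0 D ⊔ zpowers (D.S 9) := fun r hr =>
    mem_sup_left (inR0_iff.1 hr)
  have h4 : D.InR (D.S 9 * (D.S 9 * (D.S 9 * D.S 9))) := by
    have hc := D.S_CA 9
    have hz := D.S_z 9
    refine D.rigid (mul_mem hc (mul_mem hc (mul_mem hc hc))) fun p hp =>
      ⟨_, HSD.pow_lt128 hp, ?_, rfl⟩
    have b0 := HSD.bit_pow hp
    have b1 := HSD.bit_sk (k := 9) (by omega) b0
    have b2 := HSD.bit_sk (k := 9) (by omega) b1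
    have b3 := HSD.bit_sk (k := 9) (by omega) b2
    have := D.rel.mv_mul hz (D.rel.mv_mul hz (D.rel.mv_mul hz (D.S_mv (by omega) b0)
      (D.S_mv (by omega) b1)) (D.S_mv (by omega) b2)) (D.S_mv (by omega) b3)
    rwa [tab_9 p hp] at this
  have hf : Finite (V0 D) := Finite.of_injective _
    (inclusion_injective fun x (hx : x ∈ V0 D) => D.M_le (inR0_iff.1 (V0_R0 hx)).2)
  refine ⟨_, IsPGroup.to_sup_of_normal_left' (H := R0 D) (K := zpowers (D.S 9))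
    (fun r => ⟨2, Subtype.ext (four r.2.1)⟩) ?_
    (zpowers_le.2 (mem_normalizer_iff.2 fun r => ⟨conj_R0 (D.S_CA 9), fun h => ?_⟩)),
    sup_le (fun r hr => hr.2) (zpowers_le.2 (D.S_M 9)), h9, hR, ?_, fun p hp x hx => ?_⟩
  · rintro ⟨_, n, rfl⟩
    refine ⟨4, Subtype.ext ?_⟩
    have h1 : D.S 9 ^ 2 ^ 4 = 1 := by
      rw [← four h4, show D.S 9 * (D.S 9 * (D.S 9 * D.S 9)) = D.S 9 ^ 4 by
        simp only [pow_succ, pow_zero, one_mul, mul_assoc], ← pow_mul]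
      rfl
    change (D.S 9 ^ n) ^ 2 ^ 4 = 1
    rw [← zpow_natCast, ← zpow_mul, mul_comm, zpow_mul, zpow_natCast, h1, one_zpow]
  · simpa [mul_assoc] using conj_R0 (inv_mem (D.S_CA 9)) h
  · have h1 := commutator_mem_commutator h9 (hR _ (el_R0 (c := 78) (by decide +kernel)))
    have h2 := commutator_mem_commutator (hR _ (el_R0 (c := 8) (by decide +kernel)))
      (hR _ (el_R0 (c := 18) (by decide +kernel)))
    have c1 : Commute (yy D) (D.t * D.z) :=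
      (D.cent _ (D.el_C rfl)).mul_right (D.rel.el_z _)
    rw [commutatorElement_def, S9_act.2.2, mul_assoc (yy D), c1.eq, mul_inv_cancel_right] at h1
    rw [commutatorElement_def, D.rel.el_conj (Or.inr rfl) (Or.inr rfl),
      show BB 8 18 = true by decide +kernel, pw_true, (D.rel.el_z _).eq, mul_inv_cancel_right] at h2
    have := mul_mem h1 h2
    rwa [mul_assoc, D.zz, mul_one] at this
  · have h1 : R0 D ⊔ zpowers (D.S 9) ≤ normalizer (V0 D : Set P) := by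
      refine sup_le (fun r hr => mem_normalizer_fintype fun y hy => ?_)
        (zpowers_le.2 (mem_normalizer_fintype (conj_V ?_ ?_ ?_)))
      · obtain ⟨⟨c, -, hc, rfl⟩, -⟩ := hr
        obtain ⟨d, hd, rfl⟩ := mem_V.1 hy
        exact ez_V hd (D.rel.mv_el (Or.inr hc) (Or.inr (VL_ok d hd).2.1))
      · rw [(D.S_z 9).eq, mul_inv_cancel_right]; exact z_V
      · rw [S9_act.1]; exact mul_mem z_V a_V
      · rw [S9_act.2.1]; exact mul_mem a_V b_V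
    exact (mem_normalizer_iff.1 (h1 hp) x).1 hx

/-- the nontrivial elements of `V₀` are conjugate to `z` -/
theorem V0_conj (h : HX D) {x : P} (hx : x ∈ V0 D) (h1 : x ≠ 1) :
    ∃ l ∈ D.M, (∀ v ∈ V0 D, l * v * l⁻¹ ∈ V0 D) ∧ l * D.z * l⁻¹ = x := by
  obtain ⟨f, hf, f1, f2, f3⟩ := h.sev
  have hV := conj_V (f1 ▸ a_V) (f2 ▸ b_V) (f3 ▸ mul_mem z_V a_V)
  have st : ∀ {x y : P}, f * x * f⁻¹ = y →
      (∃ l ∈ D.M, (∀ v ∈ V0 D, l * v * l⁻¹ ∈ V0 D) ∧ l * D.z * l⁻¹ = x) →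
      ∃ l ∈ D.M, (∀ v ∈ V0 D, l * v * l⁻¹ ∈ V0 D) ∧ l * D.z * l⁻¹ = y := by
    rintro _ _ rfl ⟨l, hl, h2, rfl⟩
    refine ⟨f * l, mul_mem hf hl, fun v hv => ?_, by group⟩
    convert hV _ (h2 v hv) using 1
    group
  have cm : ∀ x y : P, f * (x * y) * f⁻¹ = f * x * f⁻¹ * (f * y * f⁻¹) := fun x y => by group
  rw [zaa] at f3
  have f4 : f * D.el 264 * f⁻¹ = D.el 73 := by rw [← zaa, cm, f1, f2, aabb]
  have f5 : f * D.el 73 * f⁻¹ = D.el 329 := by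
    rw [← aabb, cm, f2, f3, mul_el (e := 329) (by decide +kernel)]
  have f6 : f * D.el 329 * f⁻¹ = D.el 321 := by
    rw [← mul_el (c := 256) (d := 73) (e := 329) (by decide +kernel), cm, ez, f1, f5,
      mul_el (e := 321) (by decide +kernel)]
  have p0 : ∃ l ∈ D.M, (∀ v ∈ V0 D, l * v * l⁻¹ ∈ V0 D) ∧ l * D.z * l⁻¹ = D.z :=
    ⟨1, one_mem _, fun v hv => by simpa using hv, by simp⟩
  have p1 := st f1 p0
  have p2 := st f2 p1
  have p3 := st f3 p2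
  have p4 := st f4 p3
  have p5 := st f5 p4
  have p6 := st f6 p5
  obtain ⟨c, hc, rfl⟩ := mem_V.1 hx
  simp only [VL, List.mem_cons, List.not_mem_nil, or_false] at hc
  rcases hc with rfl | rfl | rfl | rfl | rfl | rfl | rfl | rfl
  exacts [absurd (el_zero _ _) h1, ez (D := D) ▸ p0, p1, p3, p2, p6, p4, p5]

/-- (U2) -/
theorem mem_E0_of {l : P} (hl : l ∈ D.M) (h : ∀ r, InR0 D r → l * r * l⁻¹ * r⁻¹ ∈ V0 D)
    (h9 : l * D.S 9 * l⁻¹ * (D.S 9)⁻¹ ∈ V0 D) : l ∈ E0 D := by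
  have key : ∀ c, c < 512 ∧ c.testBit 7 = false ∧ BB c 78 = false →
      ∃ d ∈ VL, l * D.el c * l⁻¹ = D.el d * D.el c := fun c hc => by
    obtain ⟨d, hd, e⟩ := mem_V.1 (h _ (el_R0 hc))
    exact ⟨d, hd, mul_inv_eq_iff_eq_mul.1 e⟩
  have hz : Commute l D.z := by
    obtain ⟨d, hd, e⟩ := key 78 (by decide +kernel)
    have o := VL_ok d hd
    have h1 := HSD.conj_sq l (D.el 78)
    have h2 : D.el 78 * D.el 78 = D.z := (mul_el (by decide +kernel)).trans ez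
    have h3 : Commute (D.el 78) (D.el d) :=
      ((D.rel.commute_iff (Or.inr o.2.1) (Or.inr rfl)).2 o.2.2.1).symm
    rw [e, h3.mul_mul_mul_comm, h2, D.rel.el_sq (Or.inr o.2.1), o.2.2.2.1, pw_false, one_mul] at h1
    exact mul_inv_eq_iff_eq_mul.1 h1.symm
  obtain ⟨k, hk, m, e⟩ := D.struct' (D.mem_CA.2 ⟨D.M_le hl, hz⟩)
  obtain ⟨r, hr, hb, rfl⟩ := e (tab_E1 k hk fun c hc => by
    have o := (by decide +kernel : ∀ c ∈ [8, 64, 6, 18, 34],
      c < 512 ∧ c.testBit 7 = false ∧ BB c 78 = false) c hc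
    obtain ⟨d, hd, e⟩ := key c o
    have b := (VL_ok d hd).2.1
    exact ⟨d, hd, D.rel.mv_unique (Or.inr (HSD.bit_sk hk o.2.1)) (Ok.xor (Or.inr b) (Or.inr o.2.1))
      (m c o.2.1) (by unfold HN.Mv; rw [e]; exact D.rel.ez_mul (Or.inr b) c)⟩)
  obtain ⟨d, hd, e⟩ := mem_V.1 h9
  have b := (VL_ok d hd).2.1
  have e1 : D.el r = D.el (mulc d (ak 9 r)) := by
    rw [← mul_el ⟨b, rfl⟩, ← e, ← S_el 9 ⟨hr, hb, rfl⟩]; group
  rcases tab_E2 r hr hb ((D.el_M hb).1 hl) d hd (D.rel.el_inj (Or.inr hb)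
    (Or.inr (HSD.bit_mulc b (wd_el (D := D) hr hb _).2.2)) e1) with h1 | h1
  · exact mem_E0.2 (Or.inl (el_V h1))
  · exact mem_E0.2 (Or.inr (D.t_el r ▸ el_V h1))

/-- (m11) -/
theorem comm_yy_of {l : P} (hl : l ∈ D.M) (h1 : Commute l D.z) (h2 : Commute l (aa D))
    (h3 : Commute l (bb D)) : Commute l (yy D) := by
  obtain ⟨k, hk, r, hr, hb, rfl⟩ := D.struct (D.mem_CA.2 ⟨D.M_le hl, h1⟩)
  have key : ∀ c < 128, Commute (D.S k * D.el r) (D.el c) → sk k c = c := fun c hc h =>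
    D.mv_eq (HSD.sk_lt128 hk (bit_of_lt hc)) hc (D.Sel_mv hk hb (bit_of_lt hc))
      (Ez.of_eq (by rw [h.eq, mul_inv_cancel_right]))
  exact Commute.mul_left (mul_inv_eq_iff_eq_mul.1 (S_el k ⟨by omega, rfl,
    tab_y k hk (key 8 (by omega) h2) (key 65 (by omega) h3)⟩))
    ((D.rel.commute_iff (Or.inr hb) (Or.inr rfl)).2
      ((D.el_M hb).1 ((mul_mem_cancel_left (D.S_M k)).1 hl)))

/-- (m14) -/
theorem InR0.prod {r : P} (h : InR0 D r) : r * r = D.z ∨ ∃ r₁ r₂, InR0 D r₁ ∧ InR0 D r₂ ∧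
    r₁ * r₁ = D.z ∧ r₂ * r₂ = D.z ∧ r = r₁ * r₂ := by
  obtain ⟨c, h1, h2, h3, rfl⟩ := h
  rcases tab_prod c h1 h2 h3 with h4 | ⟨u, u1, u2, u3, u4, u5, u6, u7, u8⟩
  · exact Or.inl (by rw [D.rel.el_sq (Or.inr h2), h4, pw_true])
  · exact Or.inr ⟨_, _, el_R0 ⟨by omega, bit_of_lt u1, u2⟩, el_R0 ⟨u4, u5, u6⟩,
      by rw [D.rel.el_sq (Ok.of_lt u1), u3, pw_true], by rw [D.rel.el_sq (Or.inr u5), u7, pw_true],
      (mul_el ⟨bit_of_lt u1, u8⟩).symm⟩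

/-- (m10) pure subgroups of `R₀` are conjugate to `V₀` -/
theorem conj_V0 {p q : P} (hp : InR0 D p) (hq : InR0 D q)
    (h : ∀ x, x = p ∨ x = q ∨ x = p * q → x * x = 1 ∧ x ≠ 1 ∧ x ≠ D.z ∧ x ≠ D.t ∧
      ¬ Cj D.C x (D.t * D.z)) :
    ∃ l ∈ D.M, Commute l D.z ∧ l * p * l⁻¹ ∈ V0 D ∧ l * q * l⁻¹ ∈ V0 D := by
  obtain ⟨hp, pM⟩ := inR0_iff.1 hp
  obtain ⟨hq, qM⟩ := inR0_iff.1 hq
  obtain ⟨c, hc, e1⟩ := hp.ez
  obtain ⟨d, hd, e2⟩ := hq.ez
  obtain ⟨k, hk, k1, k2⟩ := tab_V c hc (good_of hc e1 pM (h p (Or.inl rfl))) d hd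
    (good_of hd e2 qM (h q (Or.inr (Or.inl rfl))))
    (good_of (Nat.xor_lt_two_pow (n := 7) hc hd)
      ((e1.mul D.zz (D.rel.el_z _) e2).trans D.zz (D.rel.ez_mul (Ok.of_lt hc) d))
      (mul_mem pM qM) (h _ (Or.inr (Or.inr rfl))))
  exact ⟨D.S k, D.S_M k, D.S_z k,
    ez_V k1 ((e1.conj (D.S_z k)).trans D.zz (D.S_mv hk (bit_of_lt hc))),
    ez_V k2 ((e2.conj (D.S_z k)).trans D.zz (D.S_mv hk (bit_of_lt hd)))⟩

end Cfsg.Lib.HK
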