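import Cfsg.Agent.HK.Basic
import Cfsg.Agent.HN.Fusion
import Cfsg.Agent.HK.Ind
import Cfsg.Agent.HK.ModA
import Cfsg.Agent.HK.ModB

/-! Standard subgroups `L ≅ 2.HS`: the groups `V`, `E` and `H = N(E)`. -/

set_option autoImplicit false

namespace Cfsg.Lib.HK

open Subgroup Cfsg.Lib.HN

variable {P G : Type*} [Group P] [Group G] {D : HSD P} {e : P → G}

theorem V0_le_M : V0 D ≤ D.M := (closure_le _).2 (by
  rintro _ (rfl | rfl | rfl)
  exacts [D.z_M, aa_M, bb_M])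

theorem E0_le_M : E0 D ≤ D.M := (closure_le _).2 (by
  rintro _ (rfl | rfl | rfl | rfl)
  exacts [D.t_M, D.z_M, aa_M, bb_M])

theorem ev_comm {n x y : G} (h : n * x * n⁻¹ = y * x * y⁻¹) : Commute (n⁻¹ * y) x := by
  rw [Commute, SemiconjBy, mul_assoc, mul_inv_eq_iff_eq_mul.1 h.symm]
  group

namespace St
variable (S : St D e)
include S

theorem mem_cl {s : Set P} (hs : closure s ≤ D.M) {x : G} :
    x ∈ closure (e '' s) ↔ ∃ v ∈ closure s, e v = x := by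
  refine ⟨fun h => ?_, ?_⟩
  · induction h using closure_induction with
    | mem _ h => exact h.imp fun _ h => ⟨subset_closure h.1, h.2⟩
    | one => exact ⟨1, one_mem _, S.one⟩
    | mul _ _ _ _ h h' =>
      obtain ⟨⟨v, hv, rfl⟩, w, hw, rfl⟩ := And.intro h h'
      exact ⟨_, mul_mem hv hw, S.mul _ (hs hv) _ (hs hw)⟩
    | inv _ _ h =>
      obtain ⟨v, hv, rfl⟩ := h
      exact ⟨_, inv_mem hv, S.inv (hs hv)⟩
  · rintro ⟨v, hv, rfl⟩
    induction hv using closure_induction with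
    | mem _ h => exact subset_closure ⟨_, h, rfl⟩
    | one => rw [S.one]; exact one_mem _
    | mul _ _ h1 h2 h h' => rw [S.mul _ (hs h1) _ (hs h2)]; exact mul_mem h h'
    | inv _ h1 h => rw [S.inv (hs h1)]; exact inv_mem h

theorem mem_VV {x : G} : x ∈ VV D e ↔ ∃ v ∈ V0 D, e v = x := by
  simpa only [Set.image_insert_eq, Set.image_singleton, VV, V0] using S.mem_cl V0_le_M

theorem mem_EE {x : G} : x ∈ EE D e ↔ ∃ v ∈ E0 D, e v = x := by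
  simpa only [Set.image_insert_eq, Set.image_singleton, EE, E0] using S.mem_cl E0_le_M

set_option linter.unusedSectionVars false in
theorem VV_le : VV D e ≤ EE D e := closure_mono (Set.subset_insert _ _)

omit S in
theorem t_EE : e D.t ∈ EE D e := subset_closure (.inl rfl)

theorem mem_EE' {x : G} : x ∈ EE D e ↔ x ∈ VV D e ∨ e D.t * x ∈ VV D e := by
  refine ⟨fun h => ?_, fun h => h.elim (S.VV_le ·) fun h => (mul_mem_cancel_left t_EE).1 (S.VV_le h)⟩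
  obtain ⟨v, hv, rfl⟩ := S.mem_EE.1 h
  exact (mem_E0.1 hv).imp (fun h => S.mem_VV.2 ⟨v, h, rfl⟩)
    fun h => S.mem_VV.2 ⟨_, h, S.mul _ D.t_M _ (E0_le_M hv)⟩

theorem t_not_VV : e D.t ∉ VV D e := fun h => by
  obtain ⟨v, hv, h⟩ := S.mem_VV.1 h
  obtain ⟨j, hj, rfl⟩ := (mem_closure_vv D.zz aa_sq bb_sq za zb ab).1 hv
  exact (vv_inj j hj).2 ((S.eq_iff (V0_le_M hv) D.t_M).1 h)

theorem aa2 : e (aa D) * e (aa D) = 1 := by rw [← S.mul _ aa_M _ aa_M, aa_sq, S.one]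
theorem bb2 : e (bb D) * e (bb D) = 1 := by rw [← S.mul _ bb_M _ bb_M, bb_sq, S.one]
theorem cza : Commute (e D.z) (e (aa D)) := (S.comm_iff D.z_M aa_M).2 za
theorem czb : Commute (e D.z) (e (bb D)) := (S.comm_iff D.z_M bb_M).2 zb
theorem cab : Commute (e (aa D)) (e (bb D)) := (S.comm_iff aa_M bb_M).2 ab

theorem EE_comm {x y : G} (h : x ∈ EE D e) (h' : y ∈ EE D e) : Commute x y := by
  refine ((closure_le (centralizer (EE D e : Set G))).2 ?_ h' x h :)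
  rw [EE, centralizer_closure]
  rintro _ (rfl | rfl | rfl | rfl) _ (rfl | rfl | rfl | rfl)
  exacts [rfl, S.ct D.z_M, S.ct aa_M, S.ct bb_M, S.tz, rfl, S.cza.symm, S.czb.symm,
    (S.ct aa_M).symm, S.cza, rfl, S.cab.symm, (S.ct bb_M).symm, S.czb, S.cab, rfl]

theorem EE_sq {x : G} (h : x ∈ EE D e) : x * x = 1 := by
  induction h using closure_induction with
  | mem _ h =>
    rcases h with rfl | rfl | rfl | rfl
    exacts [S.tt, S.zz, S.aa2, S.bb2]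
  | one => exact mul_one 1
  | mul _ _ h1 h2 h h' => rw [← sq, (S.EE_comm h1 h2).mul_pow, sq, sq, h, h', mul_one]
  | inv _ _ h => rw [← mul_inv_rev, h, inv_one]

theorem mem_HH [Finite G] {h : G}
    (h1 : ∀ v ∈ VV D e, h * v * h⁻¹ ∈ VV D e) (h2 : h * e D.t * h⁻¹ ∈ EE D e) : h ∈ HH D e :=
  mem_normalizer_fintype fun n hn => (S.mem_EE'.1 hn).elim (fun k => S.VV_le (h1 n k)) fun k =>
    (mul_mem_cancel_left h2).1 (by rw [conj_mul]; exact S.VV_le (h1 _ k))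

/-- The non-trivial elements of `V` are conjugate to `z`. -/
theorem VV_conj {x : G} (hx : x ∈ VV D e) (h1 : x ≠ 1) : ∃ n : G, Commute n (e D.t) ∧
    (∀ v ∈ VV D e, n * v * n⁻¹ ∈ VV D e) ∧ n * e D.z * n⁻¹ = x := by
  obtain ⟨v, hv, rfl⟩ := S.mem_VV.1 hx
  obtain ⟨l, hl, h2, rfl⟩ := V0_conj S.toHX hv fun k => h1 (k ▸ S.one)
  refine ⟨e l, S.ct hl, fun w hw => ?_, (S.conj hl D.z_M).symm⟩
  obtain ⟨w, hw', rfl⟩ := S.mem_VV.1 hw
  exact S.mem_VV.2 ⟨_, h2 w hw', S.conj hl (V0_le_M hw')⟩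

theorem vv_e (j : ℕ) : vv (e D.z) (e (aa D)) (e (bb D)) j = e (vv D.z (aa D) (bb D) j) ∧
    vv D.z (aa D) (bb D) j ∈ D.M := by
  have k : ∀ a ∈ D.M, ∀ b, pw (e a) b = e (pw a b) ∧ pw a b ∈ D.M := fun a ha b => by
    cases b
    exacts [⟨S.one.symm, one_mem _⟩, ⟨rfl, ha⟩]
  have h1 := mul_mem (k _ D.z_M (j.testBit 0)).2 (k _ aa_M (j.testBit 1)).2
  exact ⟨by rw [vv, vv, S.mul _ h1 _ (k _ bb_M _).2, S.mul _ (k _ D.z_M _).2 _ (k _ aa_M _).2,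
    (k _ D.z_M _).1, (k _ aa_M _).1, (k _ bb_M _).1], mul_mem h1 (k _ bb_M _).2⟩

end St

namespace Fr
variable {g : G} (F : Fr D e g)
include F

theorem T_iff {x : G} (hx : x ∈ EE D e) : IsConj (e D.t) x ↔ x ∉ VV D e := by
  refine ⟨fun h k => ?_, fun h => ?_⟩
  · obtain ⟨n, -, -, rfl⟩ := F.toSt.VV_conj k fun k => F.toSt.t_ne (isConj_one_left.1 (k ▸ h))
    exact F.nz (h.trans (isConj_iff.2 ⟨n, rfl⟩).symm)
  have h1 := (F.toSt.mem_EE'.1 hx).resolve_left h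
  have h2 : x = e D.t * (e D.t * x) := by rw [← mul_assoc, F.toSt.tt, one_mul]
  rw [h2]
  by_cases k : e D.t * x = 1
  · rw [k, mul_one]
  obtain ⟨n, h3, -, h4⟩ := F.toSt.VV_conj h1 k
  exact F.tu.trans (isConj_iff.2 ⟨n, by rw [← conj_mul, h4, h3.eq, mul_inv_cancel_right]⟩)

theorem HH_V {h : G} (hh : h ∈ HH D e) {v : G} (hv : v ∈ VV D e) :
    h * v * h⁻¹ ∈ VV D e := by_contra fun k => (F.T_iff (F.toSt.VV_le hv)).1
  (((F.T_iff ((hh v).1 (F.toSt.VV_le hv))).2 k).trans (isConj_iff.2 ⟨h, rfl⟩).symm) hv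

theorem HH_t {h : G} (hh : h ∈ HH D e) : h * e D.t * h⁻¹ * e D.t ∈ VV D e := by
  have h1 : h * e D.t * h⁻¹ ∈ EE D e := (hh _).1 St.t_EE
  rw [(F.toSt.EE_comm h1 St.t_EE).eq]
  exact (F.toSt.mem_EE'.1 h1).resolve_left ((F.T_iff h1).1 (isConj_iff.2 ⟨h, rfl⟩))

/-- `H` is generated by `H ∩ C(t)` and `g` -/
theorem HH_dec [Finite G] (hg : g ∈ HH D e) {h : G} (hh : h ∈ HH D e) :
    Commute h (e D.t) ∨ ∃ n n', n ∈ HH D e ∧ n' ∈ HH D e ∧ Commute n (e D.t) ∧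
      Commute n' (e D.t) ∧ h = n * g * n' := by
  have ti := inv_eq_of_mul_eq_one_right F.toSt.tt
  by_cases k : h * e D.t * h⁻¹ * e D.t = 1
  · exact .inl (mul_inv_eq_iff_eq_mul.1 ((eq_inv_of_mul_eq_one_left k).trans ti))
  obtain ⟨n, h1, h2, h3⟩ := F.toSt.VV_conj (F.HH_t hh) k
  have hn := F.toSt.mem_HH h2 (by rw [h1.eq, mul_inv_cancel_right]; exact St.t_EE)
  have h4 : n * g * e D.t * (n * g)⁻¹ = h * e D.t * h⁻¹ := by
    rw [mul_inv_rev, mul_assoc n, mul_assoc n, ← mul_assoc (g * _), F.gt, F.toSt.tz.eq,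
      ← mul_assoc, ← conj_mul, h3, h1.eq, mul_inv_cancel_right, mul_assoc, F.toSt.tt, mul_one]
  exact .inr ⟨n, (n * g)⁻¹ * h, hn, mul_mem (inv_mem (mul_mem hn hg)) hh, h1, ev_comm h4,
    (mul_inv_cancel_left _ _).symm⟩

theorem mul_left {n : G} (h1 : Commute n (e D.t)) (h2 : Commute n (e D.z)) : Fr D e (n * g) := by
  refine ⟨F.toSt, F.nz, ?_, h2.mul_left F.gz, fun m hm h => ?_⟩
  · rw [mul_inv_rev, mul_assoc n, mul_assoc n, ← mul_assoc (g * _), F.gt, ← mul_assoc,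
      (h1.mul_right h2).eq, mul_inv_cancel_right]
  · obtain ⟨m', hm', e1⟩ := F.gX m hm h
    obtain ⟨m'', hm'', e2⟩ := F.toSt.conj_L h1 hm'
    exact ⟨m'', hm'', by rw [← e2, ← e1]; group⟩

/-- A frame normalises `R₀`. -/
theorem conj_R0 {r : P} (h : InR0 D r) : ∃ r', InR0 D r' ∧ g * e r * g⁻¹ = e r' := by
  have key : ∀ r, InR0 D r → r * r = D.z → ∃ r', InR0 D r' ∧ g * e r * g⁻¹ = e r' := fun r h k => by
    obtain ⟨m, hm, e1⟩ := F.gX r h.mem.1 h.mem.2.2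
    have e2 : m * m = D.z := (F.toSt.eq_iff (mul_mem hm hm) D.z_M).1 (by
      rw [F.mul _ hm _ hm, ← e1, conj_mul, ← F.mul _ h.mem.1 _ h.mem.1, k, F.gz.eq,
        mul_inv_cancel_right])
    exact ⟨m, inR0_of (D.inR_of_sq (D.mem_CA.2 ⟨D.M_le hm, e2 ▸ (Commute.refl m).mul_right
      (Commute.refl m)⟩) e2) hm, e1⟩
  rcases h.prod with k | ⟨r₁, r₂, h1, h2, k1, k2, rfl⟩
  · exact key r h k
  obtain ⟨s₁, h3, e1⟩ := key _ h1 k1
  obtain ⟨s₂, h4, e2⟩ := key _ h2 k2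
  exact ⟨s₁ * s₂, inR0_of (HSD.InR.mul (h3.imp fun _ k => ⟨k.1, k.2.1, k.2.2.2⟩)
    (h4.imp fun _ k => ⟨k.1, k.2.1, k.2.2.2⟩)) (mul_mem h3.mem.1 h4.mem.1), by
      rw [F.mul _ h1.mem.1 _ h2.mem.1, F.mul _ h3.mem.1 _ h4.mem.1, ← e1, ← e2, conj_mul]⟩

theorem pure {v x : P} (hv : v ∈ V0 D) (h1 : v ≠ 1) (h2 : D.z * v ≠ 1) (hx : x ∈ D.M)
    (k : g * e v * g⁻¹ = e x) : x * x = 1 ∧ x ≠ 1 ∧ x ≠ D.z ∧ x ≠ D.t ∧ ¬ Cj D.C x (D.t * D.z) := by
  have S := F.toSt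
  have h3 := S.mem_VV.2 ⟨v, hv, rfl⟩
  have h4 : ¬ IsConj (e D.t) (e x) := fun h =>
    (F.T_iff (S.VV_le h3)).1 (h.trans (isConj_iff.2 ⟨g, k⟩).symm) h3
  refine ⟨S.inj _ (mul_mem hx hx) ?_, ?_, ?_, ?_, ?_⟩
  · rw [S.mul _ hx _ hx, ← k, conj_mul, S.EE_sq (S.VV_le h3), mul_one, mul_inv_cancel]
  · rintro rfl
    exact h1 (S.inj _ (V0_le_M hv) (by simpa [S.one] using k))
  · rintro rfl
    rw [mul_inv_eq_iff_eq_mul, ← F.gz.eq, mul_right_inj, S.eq_iff (V0_le_M hv) D.z_M] at k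
    exact h2 (k ▸ D.zz)
  · rintro rfl
    exact h4 (IsConj.refl _)
  · rintro ⟨c, -, hc⟩
    obtain ⟨l, hl, e1⟩ : ∃ l ∈ D.M, l * x * l⁻¹ = D.t * D.z := by
      by_cases hM : c ∈ D.M
      · exact ⟨c, hM, hc⟩
      refine ⟨D.s1 * c, (S.mul_M _ _).2 (iff_of_false D.s1_M hM), ?_⟩
      rw [mul_inv_rev, mul_assoc D.s1, mul_assoc D.s1, ← mul_assoc (c * _), hc, ← mul_assoc,
        ((S.ctP _).mul_right D.s1_z).eq, mul_inv_cancel_right]
    exact h4 (F.tu.trans (by rw [← S.etz, ← e1]; exact (S.isConj_e hl hx).symm))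

/-- a frame centralising `V` -/
theorem exists_fr' [Finite G] :
    ∃ g', Fr D e g' ∧ Commute g' (e (aa D)) ∧ Commute g' (e (bb D)) := by
  have S := F.toSt
  have ha : aa D ∈ V0 D := subset_closure (.inr (.inl rfl))
  have hb : bb D ∈ V0 D := subset_closure (.inr (.inr rfl))
  obtain ⟨p, hp, e1⟩ := F.conj_R0 (V0_R0 ha)
  obtain ⟨q, hq, e2⟩ := F.conj_R0 (V0_R0 hb)
  have hv : ∀ j < 8, j ≠ 0 → vv D.z (aa D) (bb D) j ≠ 1 := fun j hj h k => h ((vv_inj j hj).1 k)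
  obtain ⟨l, hl, h1, h2, h3⟩ := conj_V0 hp hq (by
    rintro _ (rfl | rfl | rfl)
    · exact F.pure ha (by simpa [vv, pw, Nat.testBit] using hv 2) (by
        simpa [vv, pw, Nat.testBit] using hv 3) hp.mem.1 e1
    · exact F.pure hb (by simpa [vv, pw, Nat.testBit] using hv 4) (by
        simpa [vv, pw, Nat.testBit] using hv 5) hq.mem.1 e2
    · exact F.pure (mul_mem ha hb) (by simpa [vv, pw, Nat.testBit] using hv 6) (by
        simpa [vv, pw, Nat.testBit, mul_assoc] using hv 7) (mul_mem hp.mem.1 hq.mem.1) (by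
        rw [S.mul _ aa_M _ bb_M, S.mul _ hp.mem.1 _ hq.mem.1, ← e1, ← e2, conj_mul]))
  have F1 := F.mul_left (S.ct hl) ((S.comm_iff hl D.z_M).2 h1)
  obtain ⟨f, hf, f1, f2, f3⟩ := S.sev
  have k : ∀ {l m m'}, l ∈ D.M → m ∈ D.M → l * m * l⁻¹ = m' → e l * e m * (e l)⁻¹ = e m' :=
    fun hl hm h => h ▸ (S.conj hl hm).symm
  have kz : ∀ i, D.S i * D.z * (D.S i)⁻¹ = D.z := fun i => mul_inv_eq_iff_eq_mul.2 (D.S_z i)
  obtain ⟨n, hn, n1, n2, n3⟩ := ind (n := e l * g) S.zz S.aa2 S.bb2 S.cza S.czb S.cab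
    (fun j hj h => (vv_inj j hj).1 (S.inj _ (S.vv_e j).2 ((S.vv_e j).1 ▸ h)))
    (k hf D.z_M f1) (k hf aa_M f2) ((k hf bb_M f3).trans (S.mul _ D.z_M _ aa_M))
    (k (D.S_M 18) D.z_M (kz _)) (k (D.S_M 18) aa_M g3_act.1)
    ((k (D.S_M 18) bb_M g3_act.2).trans (S.mul _ aa_M _ bb_M))
    (k (D.S_M 34) D.z_M (kz _)) (k (D.S_M 34) aa_M i2_act.1) (k (D.S_M 34) bb_M i2_act.2)
    fun x hx => (closure_le ((VV D e).comap (MulAut.conj (e l * g)).toMonoidHom)).2 (by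
      rintro _ (rfl | rfl | rfl) <;> change _ * _ * _ ∈ VV D e
      · rw [F1.gz.eq, mul_inv_cancel_right]; exact subset_closure (.inl rfl)
      · exact S.mem_VV.2 ⟨_, h2, by rw [S.conj hl hp.mem.1, ← e1]; group⟩
      · exact S.mem_VV.2 ⟨_, h3, by rw [S.conj hl hq.mem.1, ← e2]; group⟩) hx
  have h4 : Commute n (e D.t) := mem_centralizer_singleton_iff.1 ((closure_le _).2 (by
    rintro _ (rfl | rfl | rfl)
    exacts [mem_centralizer_singleton_iff.2 (S.ct hf), mem_centralizer_singleton_iff.2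
      (S.ct (D.S_M _)), mem_centralizer_singleton_iff.2 (S.ct (D.S_M _))]) hn)
  rw [F1.gz.eq, mul_inv_cancel_right, mul_inv_eq_iff_eq_mul] at n1
  exact ⟨_, F1.mul_left h4.inv_left (Commute.inv_left n1), ev_comm n2, ev_comm n3⟩

end Fr

end Cfsg.Lib.HK
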