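import Cfsg.Agent.HK.Basic
import Cfsg.Agent.HK.ModA

/-! Standard subgroups `L ≅ 2.HS`: the structure of `K = C(L)`. -/

set_option autoImplicit false
set_option linter.unusedSectionVars false

namespace Cfsg.Lib.HK

open Subgroup Cfsg.Lib.HN

variable {P G : Type*} [Group P] [Group G] {D : HSD P} {e : P → G}

namespace KO

theorem of_sq {H : Subgroup G} {κ : G} (h : Odd (orderOf κ)) (h2 : κ * κ ∈ H) : κ ∈ H := by
  obtain ⟨m, hm⟩ := h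
  have := pow_mem h2 (m + 1)
  rwa [← pow_two, ← pow_mul, show 2 * (m + 1) = 2 * m + 1 + 1 by ring, ← hm, pow_succ,
    pow_orderOf_eq_one, one_mul] at this

theorem yt : Commute (yy D) D.t := D.cent _ (D.M_le yy_M)
theorem yz : Commute (yy D) D.z := yy_sq (D := D) ▸ (Commute.refl _).mul_right (Commute.refl _)

variable {η η' m : P}

theorem yM (h : Yq D η) : η ∈ D.M := by
  rcases h with rfl | rfl | rfl | rfl
  exacts [yy_M, mul_mem yy_M D.z_M, mul_mem yy_M D.t_M, mul_mem (mul_mem yy_M D.t_M) D.z_M]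

theorem comm (h : Yq D η) (hm : m ∈ D.C) (hy : Commute m (yy D)) : Commute m η := by
  have hz : Commute m D.z := yy_sq (D := D) ▸ hy.mul_right hy
  have ht : Commute m D.t := D.cent m hm
  rcases h with rfl | rfl | rfl | rfl
  exacts [hy, hy.mul_right hz, hy.mul_right ht, (hy.mul_right ht).mul_right hz]

theorem mul_t (h : Yq D η) : Yq D (η * D.t) := by
  rcases h with rfl | rfl | rfl | rfl
  · exact Or.inr (Or.inr (Or.inl rfl))
  · exact Or.inr (Or.inr (Or.inr (by rw [mul_assoc, ← D.tz.eq, mul_assoc])))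
  · exact Or.inl (by rw [mul_assoc, D.tt, mul_one])
  · exact Or.inr (Or.inl (by
      rw [mul_assoc, ← D.tz.eq, ← mul_assoc, mul_assoc _ D.t D.t, D.tt, mul_one]))

theorem mul_z (h : Yq D η) : Yq D (η * D.z) := by
  rcases h with rfl | rfl | rfl | rfl
  · exact Or.inr (Or.inl rfl)
  · exact Or.inl (by rw [mul_assoc, D.zz, mul_one])
  · exact Or.inr (Or.inr (Or.inr rfl))
  · exact Or.inr (Or.inr (Or.inl (by rw [mul_assoc, D.zz, mul_one])))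

theorem sq (h : Yq D η) : η * η = D.z := by
  have k : ∀ a b : P, Commute a b → b * b = 1 → a * b * (a * b) = a * a := fun a b c h => by
    rw [mul_assoc, ← mul_assoc b, ← c.eq, mul_assoc, h, mul_one]
  rcases h with rfl | rfl | rfl | rfl
  · exact yy_sq
  · rw [k _ _ yz D.zz, yy_sq]
  · rw [k _ _ yt D.tt, yy_sq]
  · rw [k _ _ (yz.mul_left D.tz) D.zz, k _ _ yt D.tt, yy_sq]

theorem inv_eq (h : Yq D η) : η⁻¹ = η * D.z :=
  inv_eq_of_mul_eq_one_right (by rw [← mul_assoc, sq h, D.zz])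

theorem quot (h : Yq D η) (h' : Yq D η') :
    η' = η ∨ η' = η * (D.t * D.z) ∨ η' = η * D.t ∨ η' = η * D.z := by
  have a : ∀ x, D.t * (D.t * x) = x := fun x => by rw [← mul_assoc, D.tt, one_mul]
  have b : ∀ x, D.z * (D.t * x) = D.t * (D.z * x) := fun x => by
    rw [← mul_assoc, ← D.tz.eq, mul_assoc]
  rcases h with rfl | rfl | rfl | rfl <;> rcases h' with rfl | rfl | rfl | rfl <;>
    simp only [mul_assoc, a, b, D.tt, D.zz, ← D.tz.eq, mul_one, true_or, or_true]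

theorem s2_Yq (h : Yq D η) : D.s2 * η * D.s2⁻¹ = η * (D.t * D.z) := by
  have ht : D.s2 * D.t * D.s2⁻¹ = D.t := mul_inv_eq_iff_eq_mul.2 (D.cent _ (D.M_le D.s2_M)).eq
  have hz : D.s2 * D.z * D.s2⁻¹ = D.z := mul_inv_eq_iff_eq_mul.2 D.s2_z.eq
  have b : ∀ x, D.z * (D.t * x) = D.t * (D.z * x) := fun x => by
    rw [← mul_assoc, ← D.tz.eq, mul_assoc]
  rcases h with rfl | rfl | rfl | rfl <;>
    simp only [← conj_mul, s2_yy, ht, hz] <;> simp only [mul_assoc, b, ← D.tz.eq]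

theorem mem_KP {g x : G} : x ∈ (KK D e).comap (MulAut.conj g⁻¹).toMonoidHom ↔
    g⁻¹ * x * g ∈ KK D e := by simp

end KO

open KO

namespace Fr
variable [Finite G] {g : G} (F : Fr D e g)
include F

theorem gYq {η : P} (h : Yq D η) : ∃ η', Yq D η' ∧ g * e η * g⁻¹ = e η' := by
  have S := F.toSt
  obtain ⟨m, hm, e1⟩ := F.gX η (yM h) (comm h (S.mem _) (Commute.refl _)).symm
  obtain ⟨f, hf, e2⟩ := F.gX' D.f_M yy_f
  have f5 : f ^ 5 = 1 := by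
    rw [← S.eq_one_iff (pow_mem hf 5), S.pow hf, ← e2, show g⁻¹ * e D.f * g = g⁻¹ * e D.f * g⁻¹⁻¹ by
      group, conj_pow, ← S.pow D.f_M, D.f5, S.one, mul_one, mul_inv_cancel]
  have fz : Commute f D.z := by
    rw [← S.comm_iff hf D.z_M, ← e2]
    exact (F.gz.inv_left.mul_left ((S.comm_iff D.f_M D.z_M).2 D.f_z)).mul_left F.gz
  have fη : Commute f η := by
    rcases conj_Yq hf fz h with e3 | e3
    · exact mul_inv_eq_iff_eq_mul.1 e3
    · have : Commute (f * f) η := mul_inv_eq_iff_eq_mul.1 (by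
        rw [show f * f * η * (f * f)⁻¹ = f * (f * η * f⁻¹) * f⁻¹ by group, e3, ← conj_mul,
          ← conj_mul, e3, (S.ctP f).eq, fz.eq, mul_inv_cancel_right, mul_inv_cancel_right,
          mul_assoc _ D.z, ← D.tz.eq, ← mul_assoc, mul_assoc _ D.t D.t, D.tt, mul_one, mul_assoc,
          D.zz, mul_one])
      have := this.pow_left 3
      rwa [← pow_two, ← pow_mul, pow_succ, f5, one_mul] at this
  refine ⟨m, Yq_of_sq hm ?_ ?_, e1⟩
  · rw [← S.eq_iff (mul_mem hm hm) D.z_M, S.mul _ hm _ hm, ← e1, conj_mul, ← S.mul _ (yM h) _ (yM h),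
      sq h, F.gz.eq, mul_inv_cancel_right]
  · have := comm_conj ((S.comm_iff hf (yM h)).2 fη) g
    rw [e1, ← e2, show g * (g⁻¹ * e D.f * g) * g⁻¹ = e D.f by group] at this
    exact ((S.comm_iff D.f_M hm).1 this).symm

theorem gXX {m : P} (hm : m ∈ D.M) (h : Commute m (yy D)) :
    ∃ m' ∈ D.M, Commute m' (yy D) ∧ g * e m * g⁻¹ = e m' := by
  have S := F.toSt
  obtain ⟨m', hm', e1⟩ := F.gX m hm h
  obtain ⟨η, hη, e2⟩ := F.inv.gYq (Or.inl rfl)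
  have := comm_conj ((S.comm_iff hm (yM hη)).2 (comm hη (S.mem _) h)) g
  rw [e1, ← e2, show g * (g⁻¹ * e (yy D) * g⁻¹⁻¹) * g⁻¹ = e (yy D) by group] at this
  exact ⟨m', hm', (S.comm_iff hm' yy_M).1 this, e1⟩

theorem dec {κ : G} (h : κ ∈ KK D e) : κ ∈ OO D e g ∨ κ * e D.t ∈ OO D e g ∨
    ∃ η, Yq D η ∧ g⁻¹ * ((e η)⁻¹ * κ) * g ∈ KK D e := by
  have S := F.toSt
  have k : ∀ {x y : G}, Commute κ x → x = g * y * g⁻¹ → Commute (g⁻¹ * κ * g) y := by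
    rintro _ y c rfl
    simpa [mul_assoc] using comm_conj c g⁻¹
  obtain ⟨c, hc⟩ := S.lift _ (k ((St.K_t h).mul_right (St.K_z h)) F.gt.symm)
  have k2 : c * (D.t * D.z) = 1 ∨ c * (D.t * D.z) = D.t → κ * e D.t ∈ OO D e g := fun e1 =>
    mem_OO.2 ⟨mul_mem h S.t_K, by
      have := (S.lf_K_iff (S.lf_mul hc (S.lf_e (mul_mem D.t_M D.z_M)))).2 e1
      rwa [S.etz, ← F.gt', show g⁻¹ * κ * g * (g⁻¹ * e D.t * g) = g⁻¹ * (κ * e D.t) * g by
        group] at this⟩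
  rcases cent_X (S.mem c) fun l hl hy => by
    obtain ⟨m, hm, e1⟩ := F.gX l hl hy
    exact (S.lf_comm_iff hc hl).1 (k (mem_KK.1 h m hm) e1.symm) with e1 | e1 | e1 | e1 | e1
  · exact Or.inl (mem_OO.2 ⟨h, (S.lf_K_iff hc).2 (Or.inl e1)⟩)
  · exact Or.inl (mem_OO.2 ⟨h, (S.lf_K_iff hc).2 (Or.inr e1)⟩)
  · exact Or.inr (Or.inl (k2 (Or.inr (by rw [e1, ← mul_assoc, ← D.tz.eq, mul_assoc, D.zz, mul_one]))))
  · exact Or.inr (Or.inl (k2 (Or.inl (by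
      rw [e1, mul_assoc, ← mul_assoc D.z, ← D.tz.eq, mul_assoc, D.zz, mul_one, D.tt]))))
  · obtain ⟨η, hη, e2⟩ := F.gYq e1
    refine Or.inr (Or.inr ⟨η, hη, ?_⟩)
    have := (S.lf_K_iff (S.lf_mul (S.lf_inv (S.lf_e (yM e1))) hc)).2 (Or.inl (inv_mul_cancel c))
    rwa [← e2, show g⁻¹ * ((g * e c * g⁻¹)⁻¹ * κ) * g = (e c)⁻¹ * (g⁻¹ * κ * g) by group]

theorem ko_invol {u : G} (h : u ∈ OO D e g) (h2 : u * u = 1) : u = 1 :=
  F.toSt.eq_one_of_KK F.not_comm h.1 (mem_OO.1 h).2 h2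

theorem odd_O : Odd (Nat.card (OO D e g)) := by
  have : Fact (Nat.Prime 2) := ⟨Nat.prime_two⟩
  by_contra h
  obtain ⟨x, hx⟩ := exists_prime_orderOf_dvd_card' (G := OO D e g) 2
    (Nat.not_odd_iff_even.1 h).two_dvd
  have : x = 1 := Subtype.ext (F.ko_invol x.2 (congrArg Subtype.val
    (show x * x = 1 by rw [← pow_two, ← hx, pow_orderOf_eq_one])))
  rw [this, orderOf_one] at hx
  omega

theorem ko_odd {κ : G} (h : κ ∈ OO D e g) : Odd (orderOf κ) :=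
  F.odd_O.of_dvd_nat (orderOf_dvd_natCard _ h)

theorem II_dec {κ : G} (h : II D e g κ) : ∃ η, Yq D η ∧ g⁻¹ * ((e η)⁻¹ * κ) * g ∈ KK D e :=
  ((F.dec h.1).resolve_left h.2.1).resolve_left h.2.2

theorem ko_sq {κ : G} {η : P} (h : κ ∈ KK D e) (hη : Yq D η) :
    (e η)⁻¹ * κ * ((e η)⁻¹ * κ) = e D.z * (κ * κ) := by
  have S := F.toSt
  rw [mul_assoc, ← mul_assoc κ, (mem_KK.1 h _ (yM hη)).inv_right.eq, ← mul_assoc, ← mul_assoc,
    ← mul_inv_rev, ← S.mul _ (yM hη) _ (yM hη), sq hη, inv_eq_of_mul_eq_one_right S.zz, mul_assoc]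

theorem II_sq {κ : G} (h : II D e g κ) : κ * κ * e D.t ∈ OO D e g := by
  have S := F.toSt
  obtain ⟨η, hη, h1⟩ := F.II_dec h
  refine ⟨mul_mem (mul_mem h.1 h.1) S.t_K, ?_⟩
  have := mul_mem (mem_KP.2 F.s_K) (mul_mem (mem_KP.2 h1) (mem_KP.2 h1))
  rwa [F.ko_sq h.1 hη, mul_assoc, ← mul_assoc (e D.z), S.zz, one_mul,
    ← ((St.K_t h.1).mul_left (St.K_t h.1)).eq] at this

theorem ko_sqt {κ : G} (h : κ ∈ KK D e) : κ * e D.t * (κ * e D.t) = κ * κ := by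
  rw [mul_assoc, ← mul_assoc (e D.t), ← (St.K_t h).eq, mul_assoc, F.toSt.tt, mul_one]

theorem ko_cases {κ : G} (h : κ ∈ KK D e) : κ ∈ OO D e g ∨ κ * e D.t ∈ OO D e g ∨ II D e g κ := by
  by_cases h1 : κ ∈ OO D e g
  · exact Or.inl h1
  by_cases h2 : κ * e D.t ∈ OO D e g
  exacts [Or.inr (Or.inl h2), Or.inr (Or.inr ⟨h, h1, h2⟩)]

theorem ko_sqK {κ : G} (h : κ ∈ KK D e) : κ * κ ∈ OO D e g ∨ κ * κ * e D.t ∈ OO D e g := by
  rcases F.ko_cases h with h1 | h1 | h1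
  exacts [Or.inl (mul_mem h1 h1), Or.inl (F.ko_sqt h ▸ mul_mem h1 h1), Or.inr (F.II_sq h1)]

theorem mem_O_iff {κ : G} : κ ∈ OO D e g ↔ κ ∈ KK D e ∧ Odd (orderOf κ) := by
  refine ⟨fun h => ⟨h.1, F.ko_odd h⟩, fun ⟨h, ho⟩ => of_sq ho ?_⟩
  rcases F.ko_sqK h with h1 | h1
  · exact h1
  · exact of_sq (ho.of_dvd_nat (pow_two κ ▸ orderOf_pow_dvd 2))
      (F.ko_sqt (mul_mem h h) ▸ mul_mem h1 h1)

theorem conj_O {n κ : G} (hn : Commute n (e D.t)) (h : κ ∈ OO D e g) :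
    n * κ * n⁻¹ ∈ OO D e g :=
  F.mem_O_iff.2 ⟨F.toSt.conj_K hn h.1, (MulAut.conj n).orderOf_eq κ ▸ F.ko_odd h⟩

theorem conj_O_g {κ : G} (h : κ ∈ OO D e g) : g * κ * g⁻¹ ∈ OO D e g :=
  mem_OO.2 ⟨F.K_iff.2 (mem_OO.1 h).2, by simpa [mul_assoc] using h.1⟩

theorem OL {m : P} (hm : m ∈ D.M) (h : e m ∈ OO D e g) : m = 1 :=
  (F.toSt.KL hm h.1).resolve_right fun e1 => F.t_not_O (e1 ▸ h)

theorem K_invol {κ : G} (h : κ ∈ KK D e) (h2 : κ * κ = 1) : κ = 1 ∨ κ = e D.t := by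
  rcases F.ko_cases h with h1 | h1 | h1
  · exact Or.inl (F.ko_invol h1 h2)
  · exact Or.inr ((eq_inv_of_mul_eq_one_left (F.ko_invol h1 ((F.ko_sqt h).trans h2))).trans
      (inv_eq_of_mul_eq_one_right F.toSt.tt))
  · have := F.II_sq h1
    rw [h2, one_mul] at this
    exact absurd this F.t_not_O

theorem ko_act {d η η' : P} (hd : d ∈ D.M) (hη : Yq D η) (h : d * η * d⁻¹ = η * (D.t * D.z))
    (e1 : g * e η * g⁻¹ = e η') :
    g * e d * g⁻¹ * e η' * (g * e d * g⁻¹)⁻¹ = e η' * e D.t := by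
  have S := F.toSt
  rw [← e1, ← F.gtz, conj_mul (c := e D.t * e D.z), ← S.etz, ← S.mul _ (yM hη) _ (mul_mem D.t_M D.z_M),
    ← h, S.conj hd (yM hη)]
  group

theorem out {d : P} (hd : d ∈ D.M) (hz : Commute d D.z)
    (h : d * yy D * d⁻¹ = yy D * D.t * D.z) :
    Commute (g * e d * g⁻¹) (e D.t) ∧ ¬ Inn D e (g * e d * g⁻¹) := by
  have S := F.toSt
  have dz := (S.comm_iff hd D.z_M).2 hz
  have c1 : Commute (g * e d * g⁻¹) (e D.t) := F.gtz ▸ comm_conj ((S.ct hd).mul_right dz) g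
  refine ⟨c1, fun hi => ?_⟩
  obtain ⟨c, hc⟩ := S.lift _ c1
  obtain ⟨η, hη, e1⟩ := F.gYq (Or.inl rfl)
  have e2 := F.ko_act hd (Or.inl rfl) (h.trans (mul_assoc _ _ _)) e1
  rw [hc η (yM hη), ← S.mul _ (yM hη) _ D.t_M, S.eq_iff (S.cM c (yM hη)) (yM (mul_t hη))] at e2
  rcases conj_Yq ((S.inn_iff hc).1 hi) ((S.lf_comm_iff hc D.z_M).1
    ((F.gz.mul_left dz).mul_left F.gz.inv_left)) hη with e3 | e3 <;> rw [e2] at e3
  exacts [D.rel.t1 (mul_eq_left.1 e3), D.rel.z1 (left_eq_mul.1 e3)]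

theorem II_mul {κ κ' : G} (h : II D e g κ) (h' : II D e g κ') :
    κ * κ'⁻¹ ∈ OO D e g ∨ κ * κ'⁻¹ * e D.t ∈ OO D e g := by
  have S := F.toSt
  obtain ⟨η, hη, h1⟩ := F.II_dec h
  obtain ⟨η', hη', h2⟩ := F.II_dec h'
  have hK := mul_mem h.1 (inv_mem h'.1)
  have h3 := mul_mem (mem_KP.2 h1) (inv_mem (mem_KP.2 h2))
  have h4 := mem_KP.2 F.s_K
  rw [show (e η)⁻¹ * κ * ((e η')⁻¹ * κ')⁻¹ = (e η)⁻¹ * (κ * κ'⁻¹ * e η') by group] at h3
  generalize κ * κ'⁻¹ = x at hK h3 ⊢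
  have k : ∀ c ∈ D.M, (e η)⁻¹ * (x * e (η * c)) = x * e c := fun c hc => by
    rw [S.mul _ (yM hη) _ hc, ← mul_assoc x, (mem_KK.1 hK _ (yM hη)).eq, mul_assoc,
      inv_mul_cancel_left]
  rcases quot hη hη' with rfl | rfl | rfl | rfl
  · rw [(mem_KK.1 hK _ (yM hη)).eq, inv_mul_cancel_left] at h3
    exact Or.inl ⟨hK, h3⟩
  · rw [k _ (mul_mem D.t_M D.z_M), S.etz] at h3
    exact Or.inl ⟨hK, (mul_mem_cancel_right h4).1 h3⟩
  · rw [k _ D.t_M] at h3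
    exact Or.inr ⟨mul_mem hK S.t_K, h3⟩
  · rw [k _ D.z_M] at h3
    refine Or.inr ⟨mul_mem hK S.t_K, ?_⟩
    have := mul_mem h3 h4
    rwa [S.tz.eq, mul_assoc, ← mul_assoc (e D.z), S.zz, one_mul] at this

theorem II_conj {n κ : G} (hn : Commute n (e D.t)) (h : II D e g κ) : II D e g (n * κ * n⁻¹) :=
  ⟨F.toSt.conj_K hn h.1, fun h1 => h.2.1 (by simpa [mul_assoc] using F.conj_O hn.inv_left h1),
    fun h1 => h.2.2 (by
      have := F.conj_O hn.inv_left h1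
      rwa [mul_assoc (n * κ), hn.inv_left.eq, show n⁻¹ * (n * κ * (e D.t * n⁻¹)) * n⁻¹⁻¹ =
        κ * e D.t by group] at this)⟩

theorem ko_pow {κ : G} (h : II D e g κ) : ∃ m, (κ * κ) ^ m = e D.t := by
  have S := F.toSt
  obtain ⟨m, hm⟩ := F.ko_odd (F.II_sq h)
  have := pow_orderOf_eq_one (κ * κ * e D.t)
  rw [((St.K_t h.1).mul_left (St.K_t h.1)).mul_pow, hm, pow_succ (e D.t), pow_mul (e D.t), pow_two,
    S.tt, one_pow, one_mul] at this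
  exact ⟨_, (eq_inv_of_mul_eq_one_left this).trans (inv_eq_of_mul_eq_one_right S.tt)⟩

theorem ko_cm {k κ : G} (hk : k ∈ KK D e) (h : II D e g κ) : k * κ * k⁻¹ * κ⁻¹ ∈ OO D e g := by
  have S := F.toSt
  have ct := (St.K_t h.1).symm
  obtain ⟨o, ho, c, hc, rfl⟩ : ∃ o ∈ OO D e g, ∃ c, Commute c κ ∧ k = o * c := by
    rcases F.ko_cases hk with h1 | h1 | h1
    · exact ⟨_, h1, 1, Commute.one_left _, by group⟩
    · exact ⟨_, h1, _, ct.inv_left, by group⟩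
    · rcases F.II_mul h1 h with h2 | h2
      · exact ⟨_, h2, κ, Commute.refl _, by group⟩
      · exact ⟨_, h2, _, ct.inv_left.mul_left (Commute.refl κ), by group⟩
  rw [mul_assoc o, hc.eq, show o * (κ * c) * (o * c)⁻¹ * κ⁻¹ = o * (κ * o⁻¹ * κ⁻¹) by group]
  exact mul_mem ho (F.conj_O ct.symm (inv_mem ho))

theorem II_inn {n κ : G} (h : II D e g κ) (hn : Commute n κ) : Inn D e n := by
  have S := F.toSt
  have nt : Commute n (e D.t) := by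
    obtain ⟨m, hm⟩ := F.ko_pow h
    exact hm ▸ (hn.mul_right hn).pow_right m
  obtain ⟨c1, c2⟩ := F.out D.s2_M D.s2_z s2_yy
  have e0 : g * e D.s2 * g⁻¹ * κ * (g * e D.s2 * g⁻¹)⁻¹ = e D.t * κ := by
    obtain ⟨η, hη, h1⟩ := F.II_dec h
    obtain ⟨η', hη', e1⟩ := F.inv.gYq hη
    have e2 := F.ko_act D.s2_M hη' (s2_Yq hη') (η' := η) (by rw [← e1]; group)
    have e3 := comm_conj (mem_KK.1 h1 _ D.s2_M) g
    rw [show g * (g⁻¹ * ((e η)⁻¹ * κ) * g) * g⁻¹ = (e η)⁻¹ * κ by group] at e3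
    generalize g * e D.s2 * g⁻¹ = d at e2 e3
    calc d * κ * d⁻¹ = d * e η * d⁻¹ * (d * ((e η)⁻¹ * κ)) * d⁻¹ := by group
      _ = _ := by rw [e2, ← e3.eq, (S.ct (yM hη)).eq]; group
  generalize g * e D.s2 * g⁻¹ = d at c1 c2 e0
  by_contra hi
  obtain ⟨l, hl, k, hk, e1⟩ := St.inn_dec ((S.inn_mul_iff nt.inv_left c1).2
    (iff_of_false (mt (S.inn_inv_iff nt).1 hi) c2))
  have e2 : k * κ * k⁻¹ = e D.t * κ := by
    have := mem_KK.1 (mul_mem (mul_mem hk h.1) (inv_mem hk)) l hl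
    calc k * κ * k⁻¹ = e l * (k * κ * k⁻¹) * (e l)⁻¹ := by rw [← this.eq, mul_inv_cancel_right]
      _ = e l * k * κ * (e l * k)⁻¹ := by group
      _ = n⁻¹ * (d * κ * d⁻¹) * n := by rw [← e1]; group
      _ = _ := by rw [e0, mul_assoc, ← (nt.mul_right hn).eq, inv_mul_cancel_left]
  have := F.ko_cm hk h
  rw [e2, mul_inv_cancel_right] at this
  exact F.t_not_O this

theorem II_four {κ : G} (h : II D e g κ) : ∃ k, II D e g k ∧ k * k = e D.t := by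
  obtain ⟨m, hm⟩ := F.ko_pow h
  rw [(Commute.refl κ).mul_pow] at hm
  have hk := pow_mem h.1 m
  exact ⟨_, ⟨hk, fun h1 => F.t_not_O (hm ▸ mul_mem h1 h1),
    fun h1 => F.t_not_O (hm ▸ F.ko_sqt hk ▸ mul_mem h1 h1)⟩, hm⟩

theorem II_g {k : G} (h : II D e g k) :
    ∃ o ∈ OO D e g, ∃ η, Yq D η ∧ g * k * g⁻¹ * k⁻¹ = o * e η := by
  have S := F.toSt
  obtain ⟨η, hη, h1⟩ := F.II_dec h
  have n : g⁻¹ * ((e η)⁻¹ * k) * g * (g⁻¹ * ((e η)⁻¹ * k) * g) ∉ OO D e g := fun h2 => by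
    have := (F.conj_O_g h2).1
    rw [show ∀ x : G, g * (g⁻¹ * x * g * (g⁻¹ * x * g)) * g⁻¹ = x * x from fun x => by group,
      F.ko_sq h.1 hη] at this
    exact (S.KL D.z_M ((mul_mem_cancel_right (mul_mem h.1 h.1)).1 this)).elim D.rel.z1
      fun e1 => D.rel.tz e1.symm
  have c := (mem_KK.1 h.1 _ (yM hη)).inv_left
  have e0 : g * (k * (g⁻¹ * ((e η)⁻¹ * k) * g)⁻¹) * g⁻¹ = g * k * g⁻¹ * k⁻¹ * e η := by group
  rcases F.II_mul h ⟨h1, fun h2 => n (mul_mem h2 h2), fun h2 => n (F.ko_sqt h1 ▸ mul_mem h2 h2)⟩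
    with h2 | h2
  · exact ⟨_, F.conj_O_g h2, _, mul_z hη, by
      rw [e0, ← inv_eq hη, S.inv (yM hη), mul_inv_cancel_right]⟩
  · refine ⟨_, F.conj_O_g h2, _, mul_t hη, ?_⟩
    rw [← conj_mul, e0, F.gt, ← S.etz, mul_assoc _ (e η), ← S.mul _ (yM hη) _ (mul_mem D.t_M D.z_M),
      mul_assoc _ _ (e (η * D.t)), ← S.mul _ (mul_mem (yM hη) (mul_mem D.t_M D.z_M)) _
        (yM (mul_t hη)), ← mul_assoc η, mul_assoc (η * D.t), (comm (mul_t hη) (S.mem _) yz.symm).eq,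
      ← mul_assoc (η * D.t), sq (mul_t hη), D.zz, S.one, mul_one]

theorem sq_mem {n : G} (hn : Commute n (e D.t)) :
    ∃ o ∈ OO D e g, ∃ l ∈ D.M, n * n = o * e l := by
  have S := F.toSt
  have fin : ∀ κ ∈ KK D e, κ ∈ OO D e g ∨ κ * e D.t ∈ OO D e g → ∀ l ∈ D.M,
      ∃ o ∈ OO D e g, ∃ l' ∈ D.M, e l * κ = o * e l' := by
    rintro κ hκ (h | h) l hl
    · exact ⟨κ, h, l, hl, (mem_KK.1 hκ l hl).symm⟩
    · exact ⟨_, h, _, mul_mem D.t_M hl, by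
        rw [S.mul _ D.t_M _ hl, mul_assoc, ← mul_assoc (e D.t), S.tt, one_mul, (mem_KK.1 hκ l hl).eq]⟩
  by_cases hi : Inn D e n
  · obtain ⟨l, hl, κ, hκ, rfl⟩ := St.inn_dec hi
    rw [mul_assoc, ← mul_assoc κ, (mem_KK.1 hκ l hl).eq, mul_assoc, ← mul_assoc, ← S.mul _ hl _ hl]
    exact fin _ (mul_mem hκ hκ) (F.ko_sqK hκ) _ (mul_mem hl hl)
  obtain ⟨c, hc⟩ := S.lift n hn
  have hM := (S.mul_M c c).2 Iff.rfl
  have hκ := (S.lf_K_iff (S.lf_mul (S.lf_inv (S.lf_e hM)) (S.lf_mul hc hc))).2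
    (Or.inl (inv_mul_cancel _))
  rw [← mul_inv_cancel_left (e (c * c)) (n * n)]
  refine fin _ hκ (or_assoc.2 (F.ko_cases hκ) |>.resolve_right fun h => hi (F.II_inn h ?_)) _ hM
  exact ((S.lf_comm_iff hc hM).2 ((Commute.refl c).mul_right (Commute.refl c))).inv_right.mul_right
    ((Commute.refl n).mul_right (Commute.refl n))

end Fr

end Cfsg.Lib.HK
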