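import Cfsg.Agent.HK.Basic
import Cfsg.Agent.HK.ModA

/-! Standard subgroups `L ≅ 2.HS`: the conjugates of `t` acting like `z`. -/

set_option autoImplicit false

namespace Cfsg.Lib.HK

open Subgroup Cfsg.Lib.HN

variable {P G : Type*} [Group P] [Group G] {D : HSD P} {e : P → G}

namespace LemA

theorem cs {g x t : G} : Commute x (g * t * g⁻¹) ↔ Commute (g⁻¹ * x * g) t := by
  rw [← comm_conj_iff g (x := g⁻¹ * x * g)]
  exact iff_of_eq (by congr 1; group)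

theorem cj_mul (g x y : G) : g⁻¹ * (x * y) * g = g⁻¹ * x * g * (g⁻¹ * y * g) := by group

theorem cj_inv (g x : G) : g⁻¹ * x⁻¹ * g = (g⁻¹ * x * g)⁻¹ := by group

theorem cj_pow (g x : G) (n : ℕ) : (g⁻¹ * x * g) ^ n = g⁻¹ * x ^ n * g := by
  simpa using conj_pow (i := n) (a := g⁻¹) (b := x)

variable (S : St D e)
include S

theorem five {n : G} (hn : Commute n (e D.t)) (h5 : n ^ 5 = 1) : ∃ c ∈ D.M, c ^ 5 = 1 ∧ Lf D e n c := by
  obtain ⟨c, hc⟩ := S.lift n hn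
  have h1 := (S.lf_K_iff (S.lf_pow hc 5)).1 (h5 ▸ one_mem _)
  have hM : c ∈ D.M := by
    have h2 : c * c ∈ D.M := (S.mul_M c c).2 Iff.rfl
    have h3 : c ^ 5 ∈ D.M := by
      rcases h1 with h1 | h1 <;> rw [h1]
      exacts [D.M.one_mem, D.t_M]
    rwa [show c ^ 5 = c * c * (c * c) * c by simp [pow_succ, mul_assoc],
      D.M.mul_mem_cancel_left (D.M.mul_mem h2 h2)] at h3
  rcases h1 with h1 | h1
  · exact ⟨c, hM, h1, hc⟩
  · refine ⟨c * D.t, D.M.mul_mem hM D.t_M, ?_, fun m hm => ?_⟩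
    · rw [(S.ctP c).mul_pow, h1, ← pow_succ', show 5 + 1 = 2 * 3 from rfl, pow_mul, pow_two, D.tt, one_pow]
    · rw [hc m hm, mul_assoc c D.t, ← (S.ctP m).eq]
      congr 1
      group

theorem five_eq {n : G} {c c' : P} (h : Lf D e n c) (h' : Lf D e n c') (h5 : c ^ 5 = 1) (h5' : c' ^ 5 = 1) :
    c' = c := (S.lf_unique h h').resolve_right fun e1 => by
  rw [e1, (S.ctP c).mul_pow, h5, one_mul, show 5 = 2 * 2 + 1 from rfl, pow_succ, pow_mul, pow_two D.t, D.tt,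
    one_pow, one_mul] at h5'
  exact D.rel.t1 h5'

theorem five_conj {n n' x : G} {c c' : P} (hx : Commute x (e D.t)) (hc : c ∈ D.M) (h : Lf D e n c)
    (h' : Lf D e n' c') (h5 : c ^ 5 = 1) (h5' : c' ^ 5 = 1) (e1 : x * n * x⁻¹ = n') :
    x * e c * x⁻¹ = e c' := by
  obtain ⟨cx, hcx⟩ := S.lift x hx
  rw [hcx c hc, five_eq S (c' := cx * c * cx⁻¹) h' (e1 ▸ S.lf_mul (S.lf_mul hcx h) (S.lf_inv hcx)) h5'
    (by rw [conj_pow, h5, mul_one, mul_inv_cancel])]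

/-- the elements of `C_M(z)` that are conjugated into `K` -/
def J0 (g : G) : Subgroup P where
  carrier := {l | l ∈ D.M ∧ Commute l D.z ∧ g⁻¹ * e l * g ∈ KK D e}
  mul_mem' ha hb := ⟨D.M.mul_mem ha.1 hb.1, ha.2.1.mul_left hb.2.1, by
    rw [S.mul _ ha.1 _ hb.1, cj_mul]; exact mul_mem ha.2.2 hb.2.2⟩
  one_mem' := ⟨D.M.one_mem, Commute.one_left _, by simp [S.one]⟩
  inv_mem' ha := ⟨D.M.inv_mem ha.1, ha.2.1.inv_left, by rw [S.inv ha.1, cj_inv]; exact inv_mem ha.2.2⟩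

omit [Group P] [Group G] S in
theorem J0_eq_1' : type_of% @J0.eq_1 := @J0.eq_1

/-- the elements of `M` that are conjugated into `L` -/
def J1 (g : G) : Subgroup P where
  carrier := {l | l ∈ D.M ∧ ∃ m ∈ D.M, g⁻¹ * e l * g = e m}
  mul_mem' := fun ⟨ha, a, h1, h2⟩ ⟨hb, b, h3, h4⟩ => ⟨D.M.mul_mem ha hb, _, D.M.mul_mem h1 h3, by
    rw [S.mul _ ha _ hb, cj_mul, h2, h4, S.mul _ h1 _ h3]⟩
  one_mem' := ⟨D.M.one_mem, 1, D.M.one_mem, by simp [S.one]⟩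
  inv_mem' := fun ⟨ha, a, h1, h2⟩ => ⟨D.M.inv_mem ha, _, D.M.inv_mem h1, by rw [S.inv ha, cj_inv, h2, S.inv h1]⟩

omit [Group P] [Group G] S in
theorem J1_eq_1' : type_of% @J1.eq_1 := @J1.eq_1

variable {g κ : G} (hκ : κ ∈ KK D e) (hg : g * e D.t * g⁻¹ = e D.z * κ)
include hκ hg

theorem ng : ¬ Commute g (e D.t) := fun h => by
  rw [h.eq, mul_inv_cancel_right] at hg
  rcases S.KL D.z_M ((mul_mem_cancel_right hκ).1 (hg ▸ S.t_K)) with h | h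
  exacts [D.rel.z1 h, D.rel.tz h.symm]

theorem iff_z {l : P} (hl : l ∈ D.M) : Commute (g⁻¹ * e l * g) (e D.t) ↔ Commute l D.z := by
  have h1 := (mem_KK.1 hκ l hl).symm
  rw [← cs, hg, ← S.comm_iff hl D.z_M]
  exact ⟨fun h => by simpa using h.mul_right h1.inv_right, fun h => h.mul_right h1⟩

theorem t_not : D.t ∉ J0 S g := fun h => S.t_ne (S.eq_one_of_KK (ng S hκ hg) S.t_K h.2.2 S.tt)

theorem invol {u : P} (hu : u ∈ J0 S g) (h2 : u * u = 1) : u = 1 ∨ u = D.z ∨ u = D.t * D.z := by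
  by_cases h1 : u = 1
  · exact .inl h1
  right
  rcases classes_M hu.1 h2 with h | h | ⟨l, hl, h⟩
  · exact absurd h h1
  · exact absurd (h ▸ hu) (t_not S hκ hg)
  have ht : l * D.t * l⁻¹ = D.t := by rw [(S.ctP l).eq, mul_inv_cancel_right]
  have inj : ∀ {a b : P}, l * a * l⁻¹ = l * b * l⁻¹ → a = b := fun h => by simpa using h
  have h3 := cent_D (S.mem (l * D.z * l⁻¹)) fun m hm hz => by
    have hm' : l⁻¹ * m * l ∈ D.M := by simpa using S.cM l⁻¹ hm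
    have h4 : Commute (l⁻¹ * m * l) u := cs.1 (by
      rcases h with h | h <;> rw [h]
      exacts [hz, (S.ctP m).mul_right hz])
    exact (cs.2 ((iff_z S hκ hg hm').1 (cs.1 (S.cent_le' hu.2.2 (by rw [← S.mul _ hu.1 _ hu.1, h2, S.one])
      (mt (S.eq_one_iff hu.1).1 h1) ((S.comm_iff hm' hu.1).2 h4))))).symm
  rcases h3 with h3 | h3 | h3 | h3
  · exact absurd (conj_eq_one_iff.1 h3) D.rel.z1
  · exact absurd (inj (h3.trans ht.symm)).symm D.rel.tz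
  · exact h.imp (fun h => inj (h.trans h3.symm)) fun h => inj (by rw [h, ← conj_mul, ht, h3])
  · exact h.symm.imp (fun h => inj (h.trans h3.symm)) fun h => inj (by
      rw [h, ← conj_mul, ht, h3, ← mul_assoc, D.tt, one_mul])

theorem sq_J0 {u : P} (hu : u ∈ J0 S g) : u * u = 1 := by
  have key : ∀ s, s = D.z ∨ s = D.t * D.z → (∀ u ∈ J0 S g, u * u = 1 → u = 1 ∨ u = s) → u * u = 1 := by
    intro s hs h
    rcases small_normal (J := J0 S g) hs (fun x hx => ⟨hx.1, hx.2.1⟩) (fun l hl hz x hx => ⟨S.cM l hx.1,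
      (hz.mul_left hx.2.1).mul_left hz.inv_left, by
        rw [S.conj hl hx.1, cj_mul, cj_mul, cj_inv]
        exact S.conj_K ((iff_z S hκ hg hl).2 hz) hx.2.2⟩) h u hu with rfl | rfl
    · exact mul_one 1
    · rcases hs with rfl | rfl
      · exact D.zz
      · rw [(S.ctP D.z).mul_mul_mul_comm, D.tt, D.zz, mul_one]
  by_cases hz : D.z ∈ J0 S g
  · exact key _ (.inl rfl) fun u hu h2 => (invol S hκ hg hu h2).imp_right fun h => h.resolve_right fun h =>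
      t_not S hκ hg ((mul_mem_cancel_right hz).1 (h ▸ hu))
  · exact key _ (.inr rfl) fun u hu h2 => (invol S hκ hg hu h2).imp_right fun h => h.resolve_left fun h =>
      hz (h ▸ hu)

theorem f_mem : D.f ∈ J1 S g := by
  have hn := (iff_z S hκ hg D.f_M).2 D.f_z
  have n5 : (g⁻¹ * e D.f * g) ^ 5 = 1 := by rw [cj_pow, ← S.pow D.f_M, D.f5, S.one]; simp
  obtain ⟨c, hc, c5, lc⟩ := five S hn n5
  refine ⟨D.f_M, c, hc, ?_⟩
  obtain ⟨j, hj, jz, jf⟩ := S.inv5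
  have e1 : g⁻¹ * e j * g * (g⁻¹ * e D.f * g) * (g⁻¹ * e j * g)⁻¹ = (g⁻¹ * e D.f * g)⁻¹ := by
    rw [← cj_inv, ← cj_mul, ← cj_mul, ← S.conj hj D.f_M, jf, S.inv D.f_M, cj_inv]
  have e2 : g⁻¹ * e D.t * g * (g⁻¹ * e D.f * g) * (g⁻¹ * e D.t * g)⁻¹ = g⁻¹ * e D.f * g := by
    rw [← cj_inv, ← cj_mul, ← cj_mul, ← (S.ct D.f_M).eq, mul_inv_cancel_right]
  have e3 := five_conj S ((iff_z S hκ hg hj).2 jz) hc lc (S.lf_inv lc) c5 (by rw [inv_pow, c5, inv_one]) e1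
  have e4 := five_conj S ((iff_z S hκ hg D.t_M).2 (S.ctP _).symm) hc lc lc c5 c5 e2
  have hk := (S.lf_K_iff (S.lf_mul (S.lf_inv (S.lf_e hc)) lc)).2 (.inl (inv_mul_cancel c))
  obtain ⟨k, hk'⟩ : ∃ k, g⁻¹ * e D.f * g = e c * k := ⟨_, (mul_inv_cancel_left _ _).symm⟩
  rw [hk'] at e1 e2 hk n5 ⊢
  rw [inv_mul_cancel_left] at hk
  have ck := mem_KK.1 hk c hc
  rw [ck.symm.mul_pow, ← S.pow hc, c5, S.one, one_mul] at n5
  rw [← conj_mul, e3, S.inv hc, ← ck.eq, mul_inv_rev k, mul_right_inj] at e1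
  rw [← conj_mul, e4, mul_right_inj, mul_inv_eq_iff_eq_mul] at e2
  obtain ⟨cw, hw⟩ := S.lift (g * k * g⁻¹) (by
    rw [← comm_conj_iff g⁻¹]
    simpa [mul_assoc] using (show Commute _ _ from e2).symm)
  have hu := S.cM cw (D.M.inv_mem hj)
  have e5 : g⁻¹ * e (j * (cw * j⁻¹ * cw⁻¹)) * g = k⁻¹ * k⁻¹ := by
    rw [S.mul _ hj _ hu, ← hw _ (D.M.inv_mem hj), S.inv hj]
    nth_rewrite 1 [← e1]
    group
  have hk2 := mul_mem (inv_mem hk) (inv_mem hk)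
  have e6 := sq_J0 S hκ hg (u := j * (cw * j⁻¹ * cw⁻¹)) ⟨D.M.mul_mem hj hu,
    (iff_z S hκ hg (D.M.mul_mem hj hu)).1 (e5 ▸ St.K_t hk2), e5 ▸ hk2⟩
  have e7 : k⁻¹ * k⁻¹ * (k⁻¹ * k⁻¹) = 1 := by
    rw [← e5, ← cj_mul, ← S.mul _ (D.M.mul_mem hj hu) _ (D.M.mul_mem hj hu), e6, S.one]; simp
  rw [show k = k⁻¹ * k⁻¹ * (k⁻¹ * k⁻¹) * k ^ 5 by group, e7, n5, mul_one, mul_one]

theorem lemA {m : P} (hm : m ∈ D.M) (hy : Commute m (yy D)) : ∃ m' ∈ D.M, g⁻¹ * e m * g = e m' :=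
  (X_le (f_mem S hκ hg) (fun l hl hz x ⟨hx, a, ha, e1⟩ => ⟨S.cM l hx, by
    rw [S.conj hl hx, cj_mul, cj_mul, cj_inv, e1]
    exact S.conj_L ((iff_z S hκ hg hl).2 hz) ha⟩) hm hy).2

theorem cls : ∃ l ∈ D.M, e l * (g⁻¹ * e D.t * g) * (e l)⁻¹ = e D.z ∨
    e l * (g⁻¹ * e D.t * g) * (e l)⁻¹ = e D.t * e D.z := by
  obtain ⟨m, hm, e1⟩ := lemA S hκ hg D.t_M (S.ctP _).symm
  rcases classes_M hm ((S.eq_one_iff (D.M.mul_mem hm hm)).1 (by
    rw [S.mul _ hm _ hm, ← e1, ← cj_mul, S.tt]; simp)) with rfl | rfl | ⟨l, hl, h⟩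
  · rw [S.one, mul_assoc, inv_mul_eq_one, eq_comm, mul_eq_right] at e1
    exact absurd e1 S.t_ne
  · rw [mul_assoc, inv_mul_eq_iff_eq_mul] at e1
    exact absurd e1.symm (ng S hκ hg)
  · exact ⟨l, hl, by rw [e1, ← S.conj hl hm, ← S.etz]; exact h.imp (congrArg e) (congrArg e)⟩

end LemA

open LemA

theorem St.lemA [Finite G] (S : St D e) {g κ : G} (hκ : κ ∈ KK D e) (_h2 : κ * κ = 1)
    (hg : g * e D.t * g⁻¹ = e D.z * κ) {m : P} (hm : m ∈ D.M) (hy : Commute m (yy D)) :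
    ∃ m' ∈ D.M, g⁻¹ * e m * g = e m' := LemA.lemA S hκ hg hm hy

theorem St.not_z [Finite G] (S : St D e) : ¬ IsConj (e D.t) (e D.z) := fun h => by
  obtain ⟨g, hg⟩ := isConj_iff.1 h
  have hg' := hg.trans (mul_one _).symm
  obtain ⟨l, hl, h⟩ := cls S (one_mem _) hg'
  have key : ∀ m ∈ D.M, Commute m (yy D) → ∃ m' ∈ D.M, m' ∈ D.CA ∧
      e l * g⁻¹ * e m * (e l * g⁻¹)⁻¹ = e m' := fun m hm hy => by
    obtain ⟨a, ha, e1⟩ := LemA.lemA S (one_mem _) hg' hm hy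
    have e2 : e l * g⁻¹ * e m * (e l * g⁻¹)⁻¹ = e (l * a * l⁻¹) := by rw [S.conj hl ha, ← e1]; group
    refine ⟨_, S.cM l ha, D.mem_CA.2 ⟨S.mem _, (S.comm_iff (S.cM l ha) D.z_M).1 ?_⟩, e2⟩
    have h1 := comm_conj (S.ct hm) (e l * g⁻¹)
    rw [e2, show e l * g⁻¹ * e D.t * (e l * g⁻¹)⁻¹ = e l * (g⁻¹ * e D.t * g) * (e l)⁻¹ by group] at h1
    rcases h with h | h <;> rw [h] at h1
    · exact h1
    · simpa using (S.ct (S.cM l ha)).inv_right.mul_right h1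
  obtain ⟨y, hy, cy, ey⟩ := key _ yy_M (Commute.refl _)
  obtain ⟨f, hf, cf, ef⟩ := key _ D.f_M yy_f
  have f1 : D.f ≠ 1 := fun h => by
    have := D.f_act 1 (by omega)
    rw [h, one_mul, inv_one, mul_one, ← el_two_pow D.g D.z (by omega)] at this
    exact absurd (D.rel.el_inj (Ok.of_lt (by decide)) (Ok.of_lt (by decide)) this) (by decide)
  refine (D.cent_five cy cf ((S.eq_one_iff (D.M.pow_mem hf 5)).1 ?_) (fun c => f1 ((S.eq_one_iff D.f_M).1 ?_))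
    ((S.comm_iff hy hf).1 ?_)).1 ((S.eq_iff (D.M.mul_mem hy hy) D.t_M).1 ?_)
  · rw [S.pow hf, ← ef, conj_pow, ← S.pow D.f_M, D.f5, S.one, mul_one, mul_inv_cancel]
  · rwa [c, S.one, conj_eq_one_iff] at ef
  · rw [← ey, ← ef]
    exact comm_conj ((S.comm_iff yy_M D.f_M).2 yy_f.symm) _
  · rw [S.mul _ hy _ hy, ← ey, conj_mul, ← S.mul _ yy_M _ yy_M, yy_sq, ← hg,
      show e l * g⁻¹ * (g * e D.t * g⁻¹) * (e l * g⁻¹)⁻¹ = e l * e D.t * (e l)⁻¹ by group, (S.ct hl).eq,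
      mul_inv_cancel_right]

theorem St.exists_fr [Finite G] (S : St D e) {g κ : G} (hκ : κ ∈ KK D e) (_h2 : κ * κ = 1)
    (hg : g * e D.t * g⁻¹ = e D.z * κ) : ∃ g', Fr D e g' := by
  have key : ∀ {g κ}, κ ∈ KK D e → g * e D.t * g⁻¹ = e D.z * κ → ∃ l ∈ D.M,
      e l * g⁻¹ * e D.t * (e l * g⁻¹)⁻¹ = e D.t * e D.z := fun {g κ} hκ hg => by
    obtain ⟨l, hl, h⟩ := cls S hκ hg
    rw [show e l * (g⁻¹ * e D.t * g) * (e l)⁻¹ = e l * g⁻¹ * e D.t * (e l * g⁻¹)⁻¹ by group] at h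
    exact ⟨l, hl, h.resolve_left fun h => S.not_z (isConj_iff.2 ⟨_, h⟩)⟩
  obtain ⟨l, -, h1⟩ := key hκ hg
  generalize e l * g⁻¹ = g1 at h1
  obtain ⟨l, hl, h2⟩ := key S.t_K (h1.trans S.tz.eq)
  have h3 : (e l * g1⁻¹)⁻¹ * e D.t * (e l * g1⁻¹) = e D.t * e D.z := by
    rw [← h1, mul_inv_rev, inv_inv, mul_assoc g1, (S.ct hl).inv_left.eq]
    group
  generalize e l * g1⁻¹ = g2 at h2 h3
  refine ⟨g2, S, S.not_z, h2, ?_, fun m hm hy => ?_⟩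
  · have h4 : g2 * (e D.t * e D.z) * g2⁻¹ = e D.t := by rw [← h3]; group
    rw [← conj_mul, h2, mul_assoc, mul_eq_left, mul_eq_one_iff_inv_eq, inv_eq_of_mul_eq_one_right S.zz] at h4
    exact mul_inv_eq_iff_eq_mul.1 h4.symm
  · simpa using LemA.lemA S (g := g2⁻¹) S.t_K (by rw [inv_inv, h3, S.tz.eq]) hm hy

end Cfsg.Lib.HK
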