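import Cfsg.Agent.HK.Defs
import Cfsg.Agent.HN.Restrict

/-! Standard subgroups `L ≅ 2.HS`: the additional facts hold in the permutation model. -/

set_option autoImplicit false
set_option maxRecDepth 100000
set_option Elab.async false

namespace Cfsg.Lib.HK

open Subgroup Cfsg.Lib.HN Cfsg.Lib.Spor Cfsg.Lib.Spor.Bulk Cfsg.Lib.HN.Mod

/-- an element of order seven -/
def Model.fE : Ex :=
  .mul (.mul (.mul (.inv (.gen 25)) (.gen 10))
    (.mul (.mul (.mul (.gen 11) (.gen 9)) (.gen 9)) (.gen 9))) (elE 18)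

/-- an element inverting `f` -/
def Model.jE : Ex :=
  .mul (.gen 11) (.mul (.gen 9) (.mul (.gen 9) (.mul (.gen 9) (.mul (.gen 11) (.mul (.gen 9)
    (.mul (.gen 11) (.mul (.gen 9) (.gen 11))))))))

theorem Model.f1 : Model.fE.ev A * A 8 * (Model.fE.ev A)⁻¹ = el A (A 8) 8 :=
  (eq_of (a := cjE Model.fE (.gen 8)) (b := elE 8) (by decide +kernel)).trans (ev_elE A7 8)

theorem Model.f2 : Model.fE.ev A * el A (A 8) 8 * (Model.fE.ev A)⁻¹ = el A (A 8) 65 :=
  ev_elE A7 8 ▸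
    (eq_of (a := cjE Model.fE (elE 8)) (b := elE 65) (by decide +kernel)).trans (ev_elE A7 65)

theorem Model.f3 : Model.fE.ev A * el A (A 8) 65 * (Model.fE.ev A)⁻¹ = A 8 * el A (A 8) 8 :=
  ev_elE A7 8 ▸ ev_elE A7 65 ▸
    eq_of (a := cjE Model.fE (elE 65)) (b := .mul (.gen 8) (elE 8)) (by decide +kernel)

theorem Model.j1 : Model.jE.ev A * A 9 * (Model.jE.ev A)⁻¹ = (A 9)⁻¹ :=
  eq_of (a := cjE Model.jE (.gen 9)) (b := .inv (.gen 9)) (by decide +kernel)

theorem Model.j2 : Commute (Model.jE.ev A) (A 8) :=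
  eq_of (a := .mul Model.jE (.gen 8)) (b := .mul (.gen 8) Model.jE) (by decide +kernel)

theorem Model.fM : Model.fE.ev A ∈ M := by
  have h9 : A 9 ∈ M := model.f_M
  have h11 : A 11 ∈ M := model.s2_M
  have h18 : (elE 18).ev A ∈ M := by
    rw [ev_elE A7]; exact (model.el_M (c := 18) rfl).2 (by decide)
  have h25 : A 25 ∉ M := fun h => absurd ((A_M 25).1 h) (by decide +kernel)
  have h : (A 25)⁻¹ * A 10 ∈ M := (model.mul_mem_M (inv_mem (A_mem 25)) (A_mem 10)).2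
    (iff_of_false (fun h => h25 (inv_mem_iff.1 h)) model.s1_M)
  exact mul_mem (mul_mem h (mul_mem (mul_mem (mul_mem h11 h9) h9) h9)) h18

theorem Model.jM : Model.jE.ev A ∈ M := by
  have h9 : A 9 ∈ M := model.f_M
  have h11 : A 11 ∈ M := model.s2_M
  exact mul_mem h11 (mul_mem h9 (mul_mem h9 (mul_mem h9 (mul_mem h11 (mul_mem h9
    (mul_mem h11 (mul_mem h9 h11)))))))

theorem exists_hx : ∃ (P : Type) (_ : Group P) (D : HSD P), HX D := by
  have e8 : (aa model.restrict).1 = el A (A 8) 8 := model.coe_el 8 rfl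
  have e65 : (bb model.restrict).1 = el A (A 8) 65 := model.coe_el 65 rfl
  refine ⟨_, _, model.restrict, rfl, ⟨⟨_, M_le Model.fM⟩, Model.fM, Subtype.ext ?_,
    Subtype.ext ?_, Subtype.ext ?_⟩, ⟨⟨_, M_le Model.jM⟩, Model.jM, Subtype.ext Model.j2,
    Subtype.ext Model.j1⟩⟩
  · rw [e8]; exact Model.f1
  · rw [coe_mul, coe_mul, e8, e65]; exact Model.f2
  · rw [coe_mul, coe_mul, coe_mul, e8, e65]; exact Model.f3

end Cfsg.Lib.HK
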