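import Cfsg.Agent.HK.ModA
import Cfsg.Agent.HK.Basic

/-! Standard subgroups `L ≅ 2.HS`: a conjugate of `t` acting on `L` like `z`. -/

set_option autoImplicit false

namespace Cfsg.Lib.HK

open Subgroup Cfsg.Lib.HN

variable {P G : Type*} [Group P] [Group G] {D : HSD P} {e : P → G} {g : G} {c : P}

namespace Pair

/-- `t` commutes with its conjugate under `g` and differs from it -/
def Pr (t g : G) : Prop := Commute (g * t * g⁻¹) t ∧ g * t * g⁻¹ ≠ t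

theorem Pr.inv {t : G} (h : Pr t g) : Pr t g⁻¹ :=
  ⟨by simpa [mul_assoc] using (comm_conj h.1 g⁻¹).symm, fun k => h.2 (by
    conv_lhs => rw [← k]
    group)⟩

theorem Pr.nc {t : G} (h : Pr t g) : ¬ Commute g t := fun k =>
  h.2 (by rw [k.eq, mul_inv_cancel_right])

variable (S : St D e)
include S

theorem ss (g : G) : g * e D.t * g⁻¹ * (g * e D.t * g⁻¹) = 1 := by rw [conj_mul, S.tt]; simp

theorem nK (h : Pr (e D.t) g) : g * e D.t * g⁻¹ ∉ KK D e := fun k =>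
  S.t_ne (by simpa using S.eq_one_of_KK h.nc k (by simpa [mul_assoc] using S.t_K) (ss S g))

theorem sq (hc : Lf D e (g * e D.t * g⁻¹) c) : c * c = 1 ∨ c * c = D.t :=
  (S.lf_K_iff (S.lf_mul hc hc)).1 (ss S g ▸ one_mem _)

theorem dec (hc : Lf D e (g * e D.t * g⁻¹) c) (hM : c ∈ D.M) :
    ∃ κ ∈ KK D e, g * e D.t * g⁻¹ = e c * κ ∧ e (c * c) * (κ * κ) = 1 := by
  have k := (S.lf_K_iff (S.lf_mul (S.lf_inv (S.lf_e hM)) hc)).2 (Or.inl (inv_mul_cancel c))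
  refine ⟨_, k, (mul_inv_cancel_left _ _).symm, ?_⟩
  rw [S.mul _ hM _ hM, ← (mem_KK.1 k c hM).mul_mul_mul_comm, mul_inv_cancel_left, ss S g]

theorem two (h : Pr (e D.t) g) (hc : Lf D e (g * e D.t * g⁻¹) c) (hM : c ∈ D.M) (h2 : c * c = 1) :
    ∃ g κ : G, κ ∈ KK D e ∧ κ * κ = 1 ∧ g * e D.t * g⁻¹ = e D.z * κ := by
  obtain ⟨κ, k1, k2, k3⟩ := dec S hc hM
  rw [h2, S.one, one_mul] at k3
  have key : ∀ l ∈ D.M, e l * g * e D.t * (e l * g)⁻¹ = e (l * c * l⁻¹) * κ := fun l hl => by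
    calc _ = e l * (g * e D.t * g⁻¹) * (e l)⁻¹ := by group
      _ = e l * e c * (κ * (e l)⁻¹) := by rw [k2]; group
      _ = _ := by rw [(mem_KK.1 k1 l hl).inv_right.eq, S.conj hl hM, mul_assoc _ _ κ]
  rcases classes_M hM h2 with k | k | ⟨l, hl, k | k⟩
  · exact absurd ((S.lf_K_iff hc).2 (Or.inl k)) (nK S h)
  · exact absurd ((S.lf_K_iff hc).2 (Or.inr k)) (nK S h)
  · exact ⟨_, κ, k1, k3, k ▸ key l hl⟩
  · refine ⟨e l * g, e D.t * κ, mul_mem S.t_K k1, ?_, ?_⟩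
    · rw [(St.K_t k1).mul_mul_mul_comm, S.tt, k3, mul_one]
    · rw [key l hl, k, S.etz, S.tz.eq, mul_assoc]

theorem inner (h : Pr (e D.t) g) : ∃ g, Pr (e D.t) g ∧ Inn D e (g * e D.t * g⁻¹) := by
  obtain ⟨c, hc⟩ := S.lift _ h.1
  by_cases hM : c ∈ D.M
  · exact ⟨g, h, (S.inn_iff hc).2 hM⟩
  have h2 := (sq S hc).resolve_right (D.outer_sq (S.mem c) hM)
  have s2 := ss S g
  obtain ⟨s, hs⟩ : ∃ s, s = g * e D.t * g⁻¹ := ⟨_, rfl⟩
  rw [← hs] at hc s2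
  have ci : c⁻¹ = c := inv_eq_of_mul_eq_one_right h2
  have m1 : ∀ x, x ∉ D.M → x * c ∈ D.M := fun x hx => (S.mul_M x c).2 (iff_of_false hx hM)
  have m2 : ∀ l : P, l * c * l⁻¹ ∉ D.M := fun l k => hM ((D.conj_mem_M (S.mem c) (S.mem l)).1 k)
  have f1 : ∀ x, x ∉ D.M → ∀ y, y ∉ D.M → e (x * c) * s * (e (y * c) * s) = e (x * y) :=
    fun x hx y hy => by
    calc _ = e (x * c) * (s * e (y * c) * s⁻¹) * (s * s) := by group
      _ = _ := by
        rw [hc _ (m1 y hy), s2, mul_one, ← S.mul _ (m1 x hx) _ (S.cM c (m1 y hy)),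
          show x * c * (c * (y * c) * c⁻¹) = x * (c * c) * y by group, h2, mul_one]
  have f2 : ∀ l ∈ D.M, e l * s * (e l)⁻¹ = e (l * c * l⁻¹ * c) * s := fun l hl => by
    calc _ = e l * (s * e l⁻¹ * s⁻¹) * s := by rw [S.inv hl]; group
      _ = _ := by
        rw [hc _ (inv_mem hl), ← S.mul _ hl _ (S.cM c (inv_mem hl)), ci]; simp only [mul_assoc]
  have f3 : ∀ l ∈ D.M, g⁻¹ * e l * g * e D.t * (g⁻¹ * e l * g)⁻¹ =
      g⁻¹ * (e (l * c * l⁻¹ * c) * s) * g⁻¹⁻¹ := fun l hl => by rw [← f2 l hl, hs]; group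
  have f4 : g⁻¹ * s * g⁻¹⁻¹ = e D.t := by rw [hs]; group
  have f5 : ∀ l ∈ D.M, Commute (l * c * l⁻¹) c → l * c * l⁻¹ ≠ c →
      Pr (e D.t) (g⁻¹ * e l * g) := fun l hl k1 k2 => by
    unfold Pr
    rw [f3 l hl, ← f4]
    refine ⟨comm_conj (Commute.mul_left ((S.lf_comm_iff hc (m1 _ (m2 l))).2
      (k1.symm.mul_right (Commute.refl c))).symm (Commute.refl s)) _, fun k => k2 ?_⟩
    rw [mul_left_inj, mul_right_inj, mul_eq_right, S.eq_one_iff (m1 _ (m2 l))] at k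
    exact (eq_inv_of_mul_eq_one_left k).trans ci
  obtain ⟨l₁, a1, l₂, a2, l₃, a3, b1, b2, b3, c1, c2, c3, k⟩ := outer_prod (S.mem c) hM h2
  have p1 := f5 _ a1 b1 c1
  have p2 := f5 _ a2 b2 c2
  have p3 := f5 _ a3 b3 c3
  have k1 := (S.inn_mul_iff (p1.1.mul_left p2.1) p3.1).1 (by
    rw [f3 _ a1, f3 _ a2, f3 _ a3, conj_mul, conj_mul, f1 _ (m2 _) _ (m2 _), ← mul_assoc (e _),
      ← S.mul _ ((S.mul_M _ _).2 (iff_of_false (m2 _) (m2 _))) _ (m1 _ (m2 _)), ← mul_assoc _ _ c,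
      k, h2, S.one, one_mul, f4]
    exact S.inn_K S.t_K)
  rw [S.inn_mul_iff p1.1 p2.1] at k1
  by_contra! hn
  exact hn _ p3 (k1.1 (iff_of_false (hn _ p1) (hn _ p2)))

theorem three (h : Pr (e D.t) g) (hc : Lf D e (g * e D.t * g⁻¹) c) (hM : c ∈ D.M)
    (h2 : c * c = D.t) : ∃ κ ∈ KK D e, g * e D.t * g⁻¹ = e c * κ ∧ κ * κ = e D.t ∧
      Commute κ (g * e D.t * g⁻¹) := by
  obtain ⟨κ, k1, k2, k3⟩ := dec S hc hM
  refine ⟨κ, k1, k2, ?_, k2 ▸ (mem_KK.1 k1 c hM).mul_right (Commute.refl κ)⟩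
  rw [h2, ← S.tt] at k3
  exact mul_left_cancel k3

theorem four (h : Pr (e D.t) g) (hc : Lf D e (g * e D.t * g⁻¹) c) (hM : c ∈ D.M)
    (h2 : c * c = D.t) {κ : G} (k1 : κ ∈ KK D e) (k2 : κ * κ = e D.t)
    (k3 : Commute κ (g⁻¹ * e D.t * g⁻¹⁻¹)) : False := by
  have w1 : Commute (g * κ * g⁻¹) (e D.t) := by simpa [mul_assoc] using comm_conj k3 g
  obtain ⟨d, hd⟩ := S.lift _ w1
  have d2 := S.lf_unique hc (by simpa only [conj_mul, k2] using S.lf_mul hd hd)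
  have ct := S.ctP c
  obtain ⟨y, yM, y1, y2⟩ := order8 (S.mem d) (by
    rw [show d ^ 4 = d * d * (d * d) by simp only [pow_succ, pow_zero, one_mul, mul_assoc]]
    rcases d2 with k | k <;> rw [k]
    · exact h2
    · rw [ct.symm.mul_mul_mul_comm, D.tt, mul_one, h2])
  have y3 : Commute y c := by
    rcases d2 with k | k <;> rw [k] at y1
    · exact y1
    · simpa [mul_assoc, D.tt] using y1.mul_right (S.ctP y)
  have y4 : Commute (g⁻¹ * e y * g) (e D.t) := by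
    simpa [mul_assoc] using comm_conj ((S.lf_comm_iff hc yM).2 y3.symm).symm g⁻¹
  have uM : y * d * y⁻¹ * d⁻¹ ∈ D.M := by
    simpa only [mul_assoc] using mul_mem yM (S.cM d (inv_mem yM))
  have uK : g⁻¹ * e (y * d * y⁻¹ * d⁻¹) * g ∈ KK D e := by
    have := mul_mem (S.conj_K y4 k1) (inv_mem k1)
    convert this using 1
    rw [show y * d * y⁻¹ * d⁻¹ = y * (d * y⁻¹ * d⁻¹) by group,
      S.mul _ yM _ (S.cM d (inv_mem yM)), ← hd _ (inv_mem yM), S.inv yM]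
    group
  generalize y * d * y⁻¹ * d⁻¹ = u at y2 uM uK
  rcases y2 with rfl | ⟨l, hl, k⟩
  · exact S.t_ne (S.eq_one_of_KK h.nc S.t_K uK S.tt)
  obtain rfl : u = l⁻¹ * (D.t * D.z) * l⁻¹⁻¹ := by rw [← k]; group
  have tz2 : D.t * D.z * (D.t * D.z) = 1 := by rw [D.tz.symm.mul_mul_mul_comm, D.tt, D.zz, mul_one]
  have z1 := cent_D (S.mem (l * c * l⁻¹)) fun m hm hz => by
    have mM := S.cM l⁻¹ hm
    have := (S.lf_comm_iff hc mM).1 (S.cent_le' uK (by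
      rw [← S.mul _ uM _ uM, conj_mul, tz2, mul_one, mul_inv_cancel, S.one])
      (fun k => D.rel.tz (by
        rw [S.eq_one_iff uM, conj_eq_one_iff] at k
        exact (eq_inv_of_mul_eq_one_left k).trans (inv_eq_of_mul_eq_one_right D.zz)))
      ((S.comm_iff mM uM).2 (comm_conj ((S.ctP m).mul_right hz) _))).symm
    simpa [mul_assoc] using comm_conj this l
  have z2 : l * c * l⁻¹ * (l * c * l⁻¹) = D.t := by
    rw [conj_mul, h2, (S.ctP l).eq, mul_inv_cancel_right]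
  refine D.rel.t1 (z2.symm.trans ?_)
  rcases z1 with k | k | k | k <;> rw [k]
  exacts [mul_one _, D.tt, D.zz, tz2]

theorem exists_pr [Finite G] [IsSimpleGroup G] : ∃ g, Pr (e D.t) g := by
  by_contra! hn
  have hz := Cfsg.Lib.Block.Princ.zstar_center (z := e D.t) ⟨S.orderOf_t, fun g k => by
    by_contra k'
    exact hn g ⟨k.symm, k'⟩⟩ (Cfsg.Lib.Local.oddCore_eq_bot_of_isSimpleGroup S.orderOf_t)
  have hall : ∀ a : G, a ∈ center G := by
    rcases (inferInstance : (center G).Normal).eq_bot_or_eq_top with h | h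
    · exact absurd (h ▸ hz : e D.t ∈ (⊥ : Subgroup G)) S.t_ne
    · exact fun a => h ▸ mem_top a
  have := (S.comm_iff ((D.el_M (c := 8) rfl).2 (by decide)) ((D.el_M (c := 18) rfl).2 (by decide))).1
    (mem_center_iff.1 (hall _) _)
  exact absurd ((D.rel.commute_iff (Ok.of_lt (by omega)) (Ok.of_lt (by omega))).1 this) (by decide)

end Pair

open Pair in
/-- a conjugate of `t` acting on `L` like `z` -/
theorem St.exists_pair [Finite G] [IsSimpleGroup G] (S : St D e) :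
    ∃ g κ : G, κ ∈ KK D e ∧ κ * κ = 1 ∧ g * e D.t * g⁻¹ = e D.z * κ := by
  obtain ⟨g, h⟩ := exists_pr S
  obtain ⟨g, h, hi⟩ := inner S h
  obtain ⟨c, hc⟩ := S.lift _ h.1
  have hM := (S.inn_iff hc).1 hi
  rcases sq S hc with h2 | h2
  · exact two S h hc hM h2
  obtain ⟨κ, -, -, k2, k3⟩ := three S h hc hM h2
  obtain ⟨c', hc'⟩ := S.lift _ h.inv.1
  have hM' := (S.inn_iff hc').1 (by
    have := S.inn_sq (n := g⁻¹ * κ * g⁻¹⁻¹) (by simpa [mul_assoc] using comm_conj k3 g⁻¹)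
    rwa [conj_mul, k2] at this)
  rcases sq S hc' with h2' | h2'
  · exact two S h.inv hc' hM' h2'
  obtain ⟨κ', k1, -, k2', k3'⟩ := three S h.inv hc' hM' h2'
  exact (four S h hc hM h2 k1 k2' k3').elim

end Cfsg.Lib.HK
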