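import Cfsg.Agent.HK.Model
import Cfsg.Prelude.Def_Local

/-! Standard subgroups `L ≅ 2.HS`: the set-up. -/

set_option autoImplicit false

namespace Cfsg.Lib.HK

open Subgroup Cfsg.Lib.HN

theorem nonsplit_of_perfect {H K : Type*} [Group H] [Group K] (hp : Group.IsPerfect H)
    (h2 : Nat.card (center H) = 2) (hq : Nonempty (H ⧸ center H ≃* K)) :
    Cfsg.IsNonsplitDoubleCover H K := by
  refine ⟨h2, hq, fun N hN => ?_⟩
  have i : N.index = 2 := hN.index_eq_card.trans h2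
  have := normal_of_index_eq_two i
  have : Fact (Nat.Prime 2) := ⟨Nat.prime_two⟩
  have := isCyclic_of_prime_card (α := H ⧸ N) i
  have e : commutator H ≤ N := Normal.quotient_commutative_iff_commutator_le.1 inferInstance
  rw [hp.commutator_eq_top, top_le_iff] at e
  simp [e] at i

theorem exists_st' {P G : Type*} [Group P] [Group G] [Finite G] {D : HSD P} (hD : HX D)
    (L : Subgroup G) (hL : Cfsg.IsStandardSubgroup L) (h2 : Nat.card (center L) = 2)
    (hq : Nonempty (L ⧸ center L ≃* Cfsg.Spor.HS)) : ∃ e : P → G, St D e := by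
  classical
  obtain ⟨φ⟩ := dc_unique D.cov (nonsplit_of_perfect hL.1.1 h2 hq)
  have hmem : ∀ a, a ∈ D.C := fun a => hD.top ▸ mem_top a
  let e : P → G := fun p => if h : p ∈ D.M then φ ⟨p, h⟩ else 1
  have he : ∀ m : D.M, e m = φ m := fun m => dif_pos m.2
  have eL : LL D e = L := by
    ext x
    refine ⟨?_, fun hx => ⟨_, (φ.symm ⟨x, hx⟩).2, by rw [he, φ.apply_symm_apply]⟩⟩
    rintro ⟨m, hm, rfl⟩
    exact he ⟨m, hm⟩ ▸ (φ _).2
  have eK : KK D e = centralizer (L : Set G) := by rw [KK, eL]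
  have nrm : ∀ g u : G, u ∈ KK D e → g * u * g⁻¹ ∈ KK D e → u * u = 1 → u ≠ 1 →
      ∃ c, Lf D e g c := fun g u h1 h3 u2 u1 => by
    have gN : g ∈ normalizer (L : Set G) := by
      rw [hL.2.2.2]
      by_contra k
      have o := (hL.2.1.2 g k).of_dvd_nat (orderOf_dvd_natCard
        (⟨g * u * g⁻¹, eK ▸ h3, u, eK ▸ h1, rfl⟩ : ↥(centralizer (L : Set G) ⊓
          (centralizer (L : Set G)).map (MulAut.conj g).toMonoidHom)))
      have : Fact (Nat.Prime 2) := ⟨Nat.prime_two⟩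
      rw [orderOf_eq_prime (p := 2) (Subtype.ext (by
        change (g * u * g⁻¹) ^ 2 = 1
        rw [conj_pow, sq, u2]; simp)) (fun e => u1 (by simpa using congrArg Subtype.val e))] at o
      exact absurd o (by decide)
    have i1 : D.M.index = 2 := by
      have := D.idx
      rwa [hD.top, ← relIndex, relIndex_top_right] at this
    obtain ⟨c, hc⟩ := dc_aut D.M i1 (fun a ha => D.cent_M (hmem a) fun x hx => (ha x hx).symm) D.cov
      ((φ.trans (L.normalizerMonoidHom ⟨g, gN⟩)).trans φ.symm)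
    refine ⟨c, fun m hm => ?_⟩
    rw [← hc ⟨m, hm⟩, he, he ⟨m, hm⟩]
    simp only [MulEquiv.trans_apply, MulEquiv.apply_symm_apply]
    rfl
  have mul : ∀ a ∈ D.M, ∀ b ∈ D.M, e (a * b) = e a * e b := fun a ha b hb => by
    rw [he ⟨a, ha⟩, he ⟨b, hb⟩, ← coe_mul, ← map_mul, ← he]; rfl
  have inj : ∀ a ∈ D.M, e a = 1 → a = 1 := fun a ha h => by
    rw [he ⟨a, ha⟩, OneMemClass.coe_eq_one, map_eq_one_iff φ φ.injective] at h
    exact congrArg Subtype.val h
  have tK : e D.t ∈ KK D e := mem_KK.2 fun m hm => by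
    change _ * _ = _ * _
    rw [← mul _ D.t_M _ hm, ← mul _ hm _ D.t_M, (D.cent m (hmem m)).eq]
  have tt : e D.t * e D.t = 1 := by
    rw [← mul _ D.t_M _ D.t_M, D.tt, ← OneMemClass.coe_one D.M, he, map_one]; rfl
  refine ⟨e, hD, mul, inj, fun n hn => nrm n _ tK (by rwa [hn.eq, mul_inv_cancel_right]) tt
    fun k => D.rel.t1 (inj _ D.t_M k), fun g u h1 h3 u2 u1 => ?_⟩
  obtain ⟨c, hc⟩ := nrm g u h1 h3 u2 u1
  have := hc _ D.t_M
  rwa [(D.cent c (hmem c)).eq, mul_inv_cancel_right, mul_inv_eq_iff_eq_mul] at this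

theorem exists_st {G : Type*} [Group G] [Finite G] (L : Subgroup G)
    (hL : Cfsg.IsStandardSubgroup L) (h2 : Nat.card (center L) = 2)
    (hq : Nonempty (L ⧸ center L ≃* Cfsg.Spor.HS)) :
    ∃ (P : Type) (_ : Group P) (D : HSD P) (e : P → G), St D e :=
  let ⟨P, i, D, hD⟩ := exists_hx
  ⟨P, i, D, exists_st' hD L hL h2 hq⟩

end Cfsg.Lib.HK
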