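import Cfsg.Agent.HK.Aff
import Cfsg.Agent.HK.EV
import Cfsg.Agent.HK.KO
import Cfsg.Agent.HK.ModA
import Cfsg.Agent.HK.ModB

/-! Standard subgroups `L ≅ 2.HS`: a subgroup of index two in `N(E)` when `|K : O| = 4`. -/

set_option autoImplicit false

namespace Cfsg.Lib.HK

open Subgroup Cfsg.Lib.HN

variable {P G : Type*} [Group P] [Group G] {D : HSD P} {e : P → G}

/-- centralises `E` -/
abbrev Two.C (D : HSD P) (e : P → G) (n : G) : Prop :=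
  CE (e D.t) (e D.z) (e (aa D)) (e (bb D)) n

namespace Two

theorem mul {n n' : G} (h : C D e n) (h' : C D e n') : C D e (n * n') :=
  ⟨h.1.mul_left h'.1, h.2.1.mul_left h'.2.1, h.2.2.1.mul_left h'.2.2.1,
    h.2.2.2.mul_left h'.2.2.2⟩

theorem inv {n : G} (h : C D e n) : C D e n⁻¹ :=
  ⟨h.1.inv_left, h.2.1.inv_left, h.2.2.1.inv_left, h.2.2.2.inv_left⟩

theorem of_K {κ : G} (h : κ ∈ KK D e) : C D e κ :=
  ⟨St.K_t h, St.K_z h, mem_KK.1 h _ aa_M, mem_KK.1 h _ bb_M⟩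

theorem iff {n : G} : C D e n ↔ ∀ x ∈ EE D e, Commute n x := by
  constructor
  · intro h x hx
    have : EE D e ≤ centralizer {n} := (closure_le _).2 (by
      rintro x (rfl | rfl | rfl | rfl) <;> rw [SetLike.mem_coe, mem_centralizer_singleton_iff]
      exacts [h.1.symm, h.2.1.symm, h.2.2.1.symm, h.2.2.2.symm])
    exact (mem_centralizer_singleton_iff.1 (this hx)).symm
  · exact fun h => ⟨h _ (subset_closure (by simp)), h _ (subset_closure (by simp)),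
      h _ (subset_closure (by simp)), h _ (subset_closure (by simp))⟩

theorem mem_H {n : G} (h : C D e n) : n ∈ HH D e :=
  centralizer_le_normalizer _ fun x hx => (iff.1 h x hx).symm

theorem conj {h n : G} (hh : h ∈ HH D e) (hn : C D e n) : C D e (h * n * h⁻¹) :=
  iff.2 fun x hx => by
    have h1 : h⁻¹ * x * h⁻¹⁻¹ ∈ EE D e := (mem_normalizer_iff.1 (inv_mem hh) x).1 hx
    simpa [mul_assoc] using comm_conj (iff.1 hn _ h1) h

/-- `B₀ = O C_L(E)` -/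
def B0 [Finite G] {g : G} (F : Fr D e g) : Subgroup G where
  carrier := {x | ∃ o ∈ OO D e g, ∃ l ∈ D.M, C D e (e l) ∧ x = o * e l}
  mul_mem' := by
    rintro _ _ ⟨o, ho, l, hl, c, rfl⟩ ⟨o', ho', l', hl', c', rfl⟩
    refine ⟨o * o', mul_mem ho ho', l * l', mul_mem hl hl', F.mul _ hl _ hl' ▸ mul c c', ?_⟩
    rw [F.mul _ hl _ hl', mul_assoc, mul_assoc, ← mul_assoc (e l), ← (mem_KK.1 ho'.1 l hl).eq,
      mul_assoc]
  one_mem' := ⟨1, one_mem _, 1, one_mem _, F.toSt.one ▸ of_K (one_mem _), by simp [F.toSt.one]⟩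
  inv_mem' := by
    rintro _ ⟨o, ho, l, hl, c, rfl⟩
    refine ⟨o⁻¹, inv_mem ho, l⁻¹, inv_mem hl, F.toSt.inv hl ▸ inv c, ?_⟩
    rw [F.toSt.inv hl, (mem_KK.1 ho.1 l hl).eq, mul_inv_rev]

variable [Finite G] {g : G} {F : Fr D e g}

theorem O_B {o : G} (h : o ∈ OO D e g) : o ∈ B0 F :=
  ⟨o, h, 1, one_mem _, F.toSt.one ▸ of_K (one_mem _), by simp [F.toSt.one]⟩

theorem L_B {l : P} (hl : l ∈ D.M) (h : C D e (e l)) : e l ∈ B0 F :=
  ⟨1, one_mem _, l, hl, h, by simp⟩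

theorem t_B : e D.t ∈ B0 F := L_B D.t_M (of_K F.toSt.t_K)

theorem Ot_B {o : G} (h : o ∈ OO D e g ∨ o * e D.t ∈ OO D e g) : o ∈ B0 F :=
  h.elim O_B fun h => ((B0 F).mul_mem_cancel_right t_B).1 (O_B h)

theorem B_C {x : G} (h : x ∈ B0 F) : C D e x := by
  obtain ⟨o, ho, l, -, c, rfl⟩ := h
  exact mul (of_K ho.1) c

theorem B_inn {x : G} (h : x ∈ B0 F) : Inn D e x := by
  obtain ⟨o, ho, l, hl, -, rfl⟩ := h
  exact F.toSt.inn_mul (F.toSt.inn_K ho.1) (F.toSt.inn_e hl)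

theorem conj_N {n x : G} (hn : n ∈ HH D e) (ht : Commute n (e D.t)) (h : x ∈ B0 F) :
    n * x * n⁻¹ ∈ B0 F := by
  obtain ⟨o, ho, l, hl, c, rfl⟩ := h
  obtain ⟨m, hm, e1⟩ := F.toSt.conj_L ht hl
  rw [← conj_mul]
  exact mul_mem (O_B (F.conj_O ht ho)) (e1 ▸ L_B hm (e1 ▸ conj hn c))

theorem conj_g (hg : g ∈ HH D e) {x : G} (h : x ∈ B0 F) : g * x * g⁻¹ ∈ B0 F := by
  obtain ⟨o, ho, l, hl, c, rfl⟩ := h
  obtain ⟨m, hm, e1⟩ := F.gX l hl (comm_yy_of hl ((F.toSt.comm_iff hl D.z_M).1 c.2.1)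
    ((F.toSt.comm_iff hl aa_M).1 c.2.2.1) ((F.toSt.comm_iff hl bb_M).1 c.2.2.2))
  rw [← conj_mul]
  exact mul_mem (O_B (F.conj_O_g ho)) (e1 ▸ L_B hm (e1 ▸ conj hg c))

theorem conj_H (hg : g ∈ HH D e) {h x : G} (hh : h ∈ HH D e) (hx : x ∈ B0 F) :
    h * x * h⁻¹ ∈ B0 F := by
  rcases F.HH_dec hg hh with ht | ⟨n, n', h1, h2, h3, h4, rfl⟩
  · exact conj_N hh ht hx
  · have := conj_N h1 h3 (conj_g hg (conj_N h2 h4 hx))
    simpa only [mul_assoc, mul_inv_rev] using this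

theorem Yq_B {η : P} (h : Yq D η) : e η ∈ B0 F := by
  have hy : e (yy D) ∈ B0 F := L_B yy_M ⟨F.toSt.ct yy_M,
    (F.toSt.comm_iff yy_M D.z_M).2 (D.rel.el_z 78),
    (F.toSt.comm_iff yy_M aa_M).2 (V0_R0 (subset_closure (by simp))).mem.2.2.symm,
    (F.toSt.comm_iff yy_M bb_M).2 (V0_R0 (subset_closure (by simp))).mem.2.2.symm⟩
  have hz : e D.z ∈ B0 F := L_B D.z_M ⟨F.toSt.ct D.z_M, Commute.refl _,
    (F.toSt.comm_iff D.z_M aa_M).2 za, (F.toSt.comm_iff D.z_M bb_M).2 zb⟩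
  rcases h with rfl | rfl | rfl | rfl
  · exact hy
  · rw [F.mul _ yy_M _ D.z_M]; exact mul_mem hy hz
  · rw [F.mul _ yy_M _ D.t_M]; exact mul_mem hy t_B
  · rw [F.mul _ (mul_mem yy_M D.t_M) _ D.z_M, F.mul _ yy_M _ D.t_M]
    exact mul_mem (mul_mem hy t_B) hz

theorem k_not {k : G} (hk : II D e g k) : k ∉ B0 F := by
  rintro ⟨o, ho, l, hl, -, rfl⟩
  rcases F.toSt.KL hl (((KK D e).mul_mem_cancel_left ho.1).1 hk.1) with rfl | rfl
  · exact hk.2.1 (by simpa [F.toSt.one] using ho)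
  · exact hk.2.2 (by simpa [mul_assoc, F.toSt.tt] using ho)

theorem k_conj (hg : g ∈ HH D e) {k h : G} (hk : II D e g k) (hh : h ∈ HH D e) :
    h * k * h⁻¹ * k⁻¹ ∈ B0 F := by
  have hN : ∀ n, Commute n (e D.t) → n * k * n⁻¹ * k⁻¹ ∈ B0 F := fun n hn =>
    Ot_B (F.II_mul (F.II_conj hn hk) hk)
  rcases F.HH_dec hg hh with ht | ⟨n, n', h1, h2, h3, h4, rfl⟩
  · exact hN h ht
  · obtain ⟨o, ho, η, hη, e1⟩ := F.II_g hk
    have := mul_mem (conj_H hg h1 (mul_mem (conj_g hg (hN n' h4))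
      (e1 ▸ mul_mem (O_B ho) (Yq_B (F := F) hη)))) (hN n h3)
    convert this using 1
    group

theorem inn_B {k n : G} (hk : II D e g k) (hn : C D e n) (h : Inn D e n) :
    n ∈ B0 F ∨ k⁻¹ * n ∈ B0 F := by
  obtain ⟨l, hl, κ, hκ, rfl⟩ := St.inn_dec h
  have h1 : e l ∈ B0 F := L_B hl (by simpa using mul hn (inv (of_K hκ)))
  by_cases h2 : κ ∈ OO D e g ∨ κ * e D.t ∈ OO D e g
  · exact Or.inl (mul_mem h1 (Ot_B h2))
  · have h3 := conj_N (mem_H (inv (of_K hk.1))) (St.K_t hk.1).inv_left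
      (mul_mem h1 (Ot_B (F := F) (F.II_mul ⟨hκ, not_or.1 h2⟩ hk)))
    exact Or.inr (by simpa [mul_assoc] using h3)

end Two

open Two in
theorem Fr.exists_H0 [Finite G] {g : G} (F : Fr D e g) (ga : Commute g (e (aa D)))
    (gb : Commute g (e (bb D))) {k : G} (hk : II D e g k) (_h2 : k * k = e D.t) :
    ∃ H0 : Subgroup G, H0 ≤ HH D e ∧ H0.relIndex (HH D e) = 2 ∧ k ∉ H0 := by
  have S := F.toSt
  have hz : e D.z ∈ VV D e := subset_closure (by simp)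
  have ha : e (aa D) ∈ VV D e := subset_closure (by simp)
  have hb : e (bb D) ∈ VV D e := subset_closure (by simp)
  have ht : e D.t ∈ EE D e := subset_closure (by simp)
  have mem : ∀ h : G, h * e D.z * h⁻¹ ∈ VV D e → h * e (aa D) * h⁻¹ ∈ VV D e →
      h * e (bb D) * h⁻¹ ∈ VV D e → h * e D.t * h⁻¹ ∈ EE D e → h ∈ HH D e := by
    intro h h1 h2 h3 h4
    refine S.mem_HH (fun v hv => ?_) h4
    have : VV D e ≤ (VV D e).comap (MulAut.conj h).toMonoidHom := (closure_le _).2 (by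
      rintro x (rfl | rfl | rfl)
      exacts [h1, h2, h3])
    exact this hv
  have hg : g ∈ HH D e := mem g (by rwa [F.gz.eq, mul_inv_cancel_right])
    (by rwa [ga.eq, mul_inv_cancel_right]) (by rwa [gb.eq, mul_inv_cancel_right])
    (F.gt ▸ mul_mem ht (S.VV_le hz))
  have et : ∀ {l}, l ∈ D.M → e l * e D.t * (e l)⁻¹ ∈ EE D e := fun hl => by
    rwa [(S.ct hl).eq, mul_inv_cancel_right]
  have ez : ∀ j, e (D.S j) * e D.z * (e (D.S j))⁻¹ = e D.z := fun j => by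
    rw [((S.comm_iff (D.S_M j) D.z_M).2 (D.S_z j)).eq, mul_inv_cancel_right]
  obtain ⟨f, hf, f1, f2, f3⟩ := S.sev
  replace f1 := (S.conj hf D.z_M).symm.trans (congrArg e f1)
  replace f2 := (S.conj hf aa_M).symm.trans (congrArg e f2)
  replace f3 := ((S.conj hf bb_M).symm.trans (congrArg e f3)).trans (S.mul _ D.z_M _ aa_M)
  have g2 := (S.conj (D.S_M 18) aa_M).symm.trans (congrArg e g3_act.1)
  have g3 := ((S.conj (D.S_M 18) bb_M).symm.trans (congrArg e g3_act.2)).trans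
    (S.mul _ aa_M _ bb_M)
  have i2 := (S.conj (D.S_M 34) aa_M).symm.trans (congrArg e i2_act.1)
  have i3 := (S.conj (D.S_M 34) bb_M).symm.trans (congrArg e i2_act.2)
  have d2 := ((S.conj (D.S_M 9) aa_M).symm.trans (congrArg e S9_act.1)).trans
    (S.mul _ D.z_M _ aa_M)
  have d3 := ((S.conj (D.S_M 9) bb_M).symm.trans (congrArg e S9_act.2.1)).trans
    (S.mul _ aa_M _ bb_M)
  obtain ⟨o1, o2⟩ := F.out (D.S_M 9) (D.S_z 9) S9_act.2.2
  have o3 : ¬ Inn D e (g * e (D.S 9) * g⁻¹ * (e (D.S 9))⁻¹) := by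
    rw [S.inn_mul_iff o1 (S.ct (D.S_M 9)).inv_left, S.inn_inv_iff (S.ct (D.S_M 9))]
    exact fun h => o2 (h.2 (S.inn_e (D.S_M 9)))
  have pwe : ∀ {a}, a ∈ D.M → ∀ s, pw a s ∈ D.M ∧ e (pw a s) = pw (e a) s := fun ha s => by
    cases s
    exacts [⟨one_mem _, S.one⟩, ⟨ha, rfl⟩]
  refine aff (H := HH D e) (B0 := B0 F) (L := S.L ⊓ HH D e) (t := e D.t) (z := e D.z)
    (a := e (aa D)) (b := e (bb D)) (f := e f) (g := e (D.S 18)) (i := e (D.S 34)) (c := g)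
    (d := e (D.S 9)) S.tt S.zz (S.EE_sq (S.VV_le ha)) (S.EE_sq (S.VV_le hb)) S.tz
    (S.ct aa_M).symm (S.ct bb_M).symm ((S.comm_iff D.z_M aa_M).2 za)
    ((S.comm_iff D.z_M bb_M).2 zb) ((S.comm_iff aa_M bb_M).2 ab) (fun j hj h => ?_)
    (fun h hh x hx => F.HH_V hh hx) (fun h hh => F.HH_t hh) (fun x hx => mem_H (B_C hx))
    (fun h hh x hx => conj_H hg hh hx) (fun x hx => B_C hx) inf_le_right ?_ ?_
    ⟨S.e_L hf, mem _ (f1 ▸ ha) (f2 ▸ hb) (f3 ▸ mul_mem hz ha) (et hf)⟩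
    ⟨S.e_L (D.S_M _), mem _ ((ez 18).symm ▸ hz) (g2 ▸ hb) (g3 ▸ mul_mem ha hb) (et (D.S_M _))⟩
    ⟨S.e_L (D.S_M _), mem _ ((ez 34).symm ▸ hz) (i2 ▸ hb) (i3 ▸ ha) (et (D.S_M _))⟩
    ⟨S.e_L (D.S_M _), mem _ ((ez 9).symm ▸ hz) (d2 ▸ mul_mem hz ha) (d3 ▸ mul_mem ha hb)
      (et (D.S_M _))⟩
    f1 f2 f3 (ez 18) g2 g3 (ez 34) i2 i3 ?_ (fun n _ hn => ?_) (mem_H (of_K hk.1)) (of_K hk.1)
    (k_not hk) (fun h hh => k_conj hg hk hh) (fun n _ n' _ c c' h1 h2 h3 h4 => ?_) hg F.gz ga gb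
    F.gt ((S.comm_iff (D.S_M 9) D.z_M).2 (D.S_z 9)) (fun h => o3 (B_inn h)) fun h => o3 ?_
  · refine (vv_inj j hj).1 (S.inj _ (mul_mem (mul_mem (pwe D.z_M _).1 (pwe aa_M _).1)
      (pwe bb_M _).1) ?_)
    rw [vv, S.mul _ (mul_mem (pwe D.z_M _).1 (pwe aa_M _).1) _ (pwe bb_M _).1,
      S.mul _ (pwe D.z_M _).1 _ (pwe aa_M _).1, (pwe D.z_M _).2, (pwe aa_M _).2, (pwe bb_M _).2]
    exact h
  · rintro _ ⟨⟨l, hl, rfl⟩, -⟩
    exact S.ct hl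
  · rintro _ ⟨⟨l, hl, rfl⟩, -⟩ h
    exact L_B hl h
  · rintro _ ⟨⟨l, hl, rfl⟩, hH⟩ n _ hn
    obtain ⟨m, hm, e1⟩ := S.conj_L hn.1 (inv_mem hl)
    have e2 : e l * n * (e l)⁻¹ * n⁻¹ = e (l * m) := by
      rw [S.mul _ hl _ hm, ← e1, S.inv hl]; group
    exact e2 ▸ L_B (mul_mem hl hm) (e2 ▸ Two.mul (Two.conj hH hn) (Two.inv hn))
  · obtain ⟨o, ho, l, hl, e1⟩ := F.sq_mem hn.1
    refine ⟨o, ho, l, hl, ?_, e1⟩
    have := Two.mul (Two.inv (of_K ho.1)) (Two.mul hn hn)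
    rwa [e1, inv_mul_cancel_left] at this
  · exact inn_B hk (Two.mul c c') ((S.inn_mul_iff c.1 c'.1).2 (iff_of_false
      (fun h => (inn_B hk c h).elim h1 h2) fun h => (inn_B hk c' h).elim h3 h4))
  · simpa using S.inn_mul (S.inn_K hk.1) (B_inn h)

end Cfsg.Lib.HK
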