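import Cfsg.Agent.HK.ModB
import Cfsg.Agent.HK.EV
import Cfsg.Agent.HK.KO

/-! Standard subgroups `L ≅ 2.HS`: the `2`-group normalising only one conjugate of `E`. -/

set_option autoImplicit false

namespace Cfsg.Lib.HK

open Subgroup Cfsg.Lib.HN
open scoped commutatorElement

variable {P G : Type*} [Group P] [Group G] {D : HSD P} {e : P → G}

theorem Uniq.exists_top [Finite G] {Q V U : Subgroup G} (hQ : IsPGroup 2 Q) (hV : IsPGroup 2 V)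
    (hn : ∀ p ∈ Q, ∀ v ∈ V, p * v * p⁻¹ ∈ V) (h : ¬ V ≤ U) :
    ∃ w ∈ V, w ∉ U ∧ ∀ p ∈ Q, w * p * w⁻¹ * p⁻¹ ∈ U := by
  by_contra h1
  push Not at h1
  obtain ⟨n, h2⟩ := (isNilpotent_iff_lowerCentralSeries _).1 (hV.to_sup_of_normal_left' hQ
    fun p hp => mem_normalizer_iff.2 fun v => ⟨hn p hp v, fun h3 => by
      simpa [mul_assoc] using hn _ (inv_mem hp) _ h3⟩).isNilpotent
  have h3 : ∀ m, ∃ w ∈ (V ⊔ Q).lowerCentralSeries m, w ∈ V ∧ w ∉ U := fun m => by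
    induction m with
    | zero =>
      obtain ⟨w, w1, w2⟩ := SetLike.not_le_iff_exists.1 h
      exact ⟨w, mem_sup_left w1, w1, w2⟩
    | succ m ih =>
      obtain ⟨w, w1, w2, w3⟩ := ih
      obtain ⟨p, p1, p2⟩ := h1 w w2 w3
      exact ⟨_, commutator_mem_commutator w1 (mem_sup_right p1), by
        simpa only [commutatorElement_def, mul_assoc] using mul_mem w2 (hn p p1 _ (inv_mem w2)), p2⟩
  obtain ⟨w, w1, -, w3⟩ := h3 n
  rw [h2, mem_bot] at w1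
  exact w3 (w1 ▸ one_mem U)

theorem Uniq.V0_le : V0 D ≤ D.M := (closure_le _).2 (by
  rintro _ (rfl | rfl | rfl)
  exacts [D.z_M, aa_M, bb_M])

theorem Uniq.t_EE : e D.t ∈ EE D e := subset_closure (Or.inl rfl)

theorem Uniq.mem_EE [Finite G] {g k w : G} (F : Fr D e g) (hk : II D e g k) (h2 : k * k = e D.t)
    (hw : w * w = 1) (h3 : w * k * w⁻¹ * k⁻¹ ∈ VV D e) {T : Subgroup P} (hT : T ≤ D.M)
    (h9 : D.S 9 ∈ T) (hR : ∀ r, InR0 D r → r ∈ T)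
    (h4 : ∀ r ∈ T, w * e r * w⁻¹ * (e r)⁻¹ ∈ VV D e) : w ∈ EE D e := by
  have S := F.toSt
  have a1 := S.EE_sq (S.VV_le h3)
  obtain ⟨v, v1, v2⟩ := S.mem_VV.1 h3
  have a2 := (mem_KK.1 hk.1 v (Uniq.V0_le v1)).eq
  have a3 : w * k * w⁻¹ = e v * k := by rw [v2, inv_mul_cancel_right]
  have a4 : Commute w (e D.t) := mul_inv_eq_iff_eq_mul.1 (by
    rw [← h2, ← conj_mul, a3, mul_assoc, ← mul_assoc k, a2, ← mul_assoc, ← mul_assoc, v2, a1,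
      one_mul])
  have a5 : Commute w k := by
    rcases S.KL (Uniq.V0_le v1) (v2 ▸ mul_mem (S.conj_K a4 hk.1) (inv_mem hk.1)) with h | h
    · rw [h, S.one, one_mul] at a3
      exact mul_inv_eq_iff_eq_mul.1 a3
    · exact absurd (S.mem_VV.2 ⟨v, v1, congrArg e h⟩) S.t_not_VV
  obtain ⟨l, hl, κ, hκ, rfl⟩ := St.inn_dec (F.II_inn hk a5)
  have a6 : ∀ r ∈ T, l * r * l⁻¹ * r⁻¹ ∈ V0 D := fun r hr => by
    obtain ⟨u, u1, u2⟩ := S.mem_VV.1 (h4 r hr)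
    rw [mul_assoc (e l), (mem_KK.1 hκ r (hT hr)).eq, mul_inv_rev, ← mul_assoc, ← mul_assoc,
      mul_inv_cancel_right, ← S.conj hl (hT hr), ← S.inv (hT hr),
      ← S.mul _ (S.cM l (hT hr)) _ (inv_mem (hT hr)),
      S.eq_iff (Uniq.V0_le u1) (mul_mem (S.cM l (hT hr)) (inv_mem (hT hr)))] at u2
    exact u2 ▸ u1
  have a7 : e l ∈ EE D e := S.mem_EE.2 ⟨l, mem_E0_of hl (fun r hr => a6 r (hR r hr)) (a6 _ h9), rfl⟩
  rw [mul_assoc, ← mul_assoc κ, (mem_KK.1 hκ l hl).eq, ← mul_assoc, ← mul_assoc, S.EE_sq a7,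
    one_mul] at hw
  rcases F.K_invol hκ hw with rfl | rfl
  exacts [mul_mem a7 (one_mem _), mul_mem a7 Uniq.t_EE]

namespace Fr
variable [Finite G] {g : G} (F : Fr D e g)
include F

theorem exists_Q {k : G} (hk : II D e g k) (h2 : k * k = e D.t) : ∃ Q : Subgroup G,
    IsPGroup 2 Q ∧ Q ≤ HH D e ∧ k ∈ Q ∧ (∀ p ∈ Q, Commute k p) ∧ k * k ∈ ⁅Q, Q⁆ ∧
      ∀ x : G, (∀ p ∈ Q, x⁻¹ * p * x ∈ HH D e) → x ∈ HH D e := by
  have S := F.toSt
  obtain ⟨T, t1, t2, t3, t4, t5, t6⟩ := exists_T0 (D := D)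
  have a1 : ∀ p ∈ (T.subgroupOf D.M).map S.hom, Commute k p := by
    rintro _ ⟨r, -, rfl⟩
    exact mem_KK.1 hk.1 r r.2
  have a2 : IsPGroup 2 ↥(zpowers k ⊔ (T.subgroupOf D.M).map S.hom) := by
    refine IsPGroup.to_sup_of_normal_right' ?_ (t1.comap_subtype.map _)
      (zpowers_le.2 (centralizer_le_normalizer _ fun p hp => (a1 p hp).symm))
    rintro ⟨_, n, rfl⟩
    exact ⟨2, Subtype.ext (show (k ^ n) ^ 2 ^ 2 = 1 by
      rw [← zpow_natCast, ← zpow_mul, mul_comm, zpow_mul, zpow_natCast, pow_two 2, pow_mul,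
        pow_two k, h2, pow_two, S.tt, one_zpow])⟩
  have a3 : ∀ r ∈ T, e r ∈ zpowers k ⊔ (T.subgroupOf D.M).map S.hom := fun r hr =>
    mem_sup_right ⟨⟨r, t2 hr⟩, hr, rfl⟩
  have a4 : k ∈ zpowers k ⊔ (T.subgroupOf D.M).map S.hom := mem_sup_left (mem_zpowers k)
  refine ⟨_, a2, sup_le (zpowers_le.2 (S.mem_HH (fun v hv => ?_) ?_)) ?_, a4, ?_, ?_, ?_⟩
  · obtain ⟨u, u1, rfl⟩ := S.mem_VV.1 hv
    rwa [(mem_KK.1 hk.1 u (Uniq.V0_le u1)).eq, mul_inv_cancel_right]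
  · rw [(St.K_t hk.1).eq, mul_inv_cancel_right]
    exact Uniq.t_EE
  · rintro _ ⟨⟨r, hr⟩, r1, rfl⟩
    refine S.mem_HH (h := e r) (fun v hv => ?_) ?_
    · obtain ⟨u, u1, rfl⟩ := S.mem_VV.1 hv
      exact S.mem_VV.2 ⟨_, t6 r r1 u u1, S.conj hr (Uniq.V0_le u1)⟩
    · rw [(S.ct hr).eq, mul_inv_cancel_right]
      exact Uniq.t_EE
  · exact fun p hp => (sup_le (zpowers_le.2 (mem_centralizer_singleton_iff.2 rfl))
      (fun p hp => mem_centralizer_singleton_iff.2 (a1 p hp).symm) hp : p ∈ centralizer {k}) k rfl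
  · rw [← map_subgroupOf_eq_of_le t2, ← map_commutator] at t5
    obtain ⟨y, y1, y2⟩ := t5
    refine commutator_mono le_sup_right le_sup_right ?_
    rw [← map_commutator]
    exact ⟨y, y1, by rw [h2, ← y2]; rfl⟩
  intro x hx
  generalize zpowers k ⊔ (T.subgroupOf D.M).map S.hom = Q at a2 a3 a4 hx
  have u1 : ∀ w, w * w = 1 → (∀ p ∈ Q, w * p * w⁻¹ * p⁻¹ ∈ VV D e) → w ∈ EE D e :=
    fun w h3 h4 => Uniq.mem_EE F hk h2 h3 (h4 k a4) t2 t3 t4 fun r hr => h4 _ (a3 r hr)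
  have m1 : ∀ y, y ∈ (VV D e).comap (MulAut.conj x⁻¹).toMonoidHom ↔ x⁻¹ * y * x ∈ VV D e :=
    fun y => by simp
  have s1 : ∀ y, x⁻¹ * y * x ∈ VV D e → y * y = 1 := fun y hy => by
    have := S.EE_sq (S.VV_le hy)
    rwa [show x⁻¹ * y * x * (x⁻¹ * y * x) = x⁻¹ * (y * y) * x⁻¹⁻¹ by group, conj_eq_one_iff] at this
  have b1 : (VV D e).comap (MulAut.conj x⁻¹).toMonoidHom ≤ VV D e := by
    by_contra h
    obtain ⟨w, w1, w2, w3⟩ := Uniq.exists_top a2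
      (fun y => ⟨1, by rw [pow_one, pow_two]; exact Subtype.ext (s1 y ((m1 y).1 y.2))⟩)
      (fun p hp v hv => (m1 _).2 (by
        simpa [mul_assoc] using F.HH_V (hx p hp) ((m1 v).1 hv))) h
    have h3 := (m1 w).1 w1
    exact (F.T_iff (S.VV_le h3)).1 (((F.T_iff (u1 w (s1 w h3) w3)).2 w2).trans
      (isConj_iff.2 ⟨x⁻¹, by rw [inv_inv]⟩)) h3
  refine S.mem_HH (fun v hv => b1 ((m1 _).2 (by simpa [mul_assoc] using hv))) (u1 _ (by
    rw [conj_mul, S.tt, mul_one, mul_inv_cancel]) fun p hp => b1 ((m1 _).2 ?_))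
  have h3 := inv_mem (F.HH_t (hx p hp))
  simpa [mul_assoc, inv_eq_of_mul_eq_one_right S.tt] using h3

end Fr

end Cfsg.Lib.HK
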